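import Mathlib

set_option autoImplicit false

namespace Cfsg.Agent.Lib.helper7

open Subgroup
open scoped commutatorElement

noncomputable section

/-- Finite groups of odd order and nilpotency class at most two. -/
class Class2Odd (G : Type*) [Group G] : Prop where
  fin : Finite G
  odd : Odd (Nat.card G)
  central : ∀ x y z : G, ⁅x, y⁆ * z = z * ⁅x, y⁆

namespace BaerAux

variable {G : Type*} [Group G] [h : Class2Odd G]

/-- The exponent giving square roots. -/
def half (G : Type*) : ℕ := (Nat.card G + 1) / 2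

/-- The square root of an element of a group of odd order. -/
def rt (c : G) : G := c ^ half G

theorem rt_mul_self (c : G) : rt c * rt c = c := by
  haveI := h.fin
  unfold rt
  rw [← pow_add]
  have h1 : half G + half G = Nat.card G + 1 := by
    obtain ⟨k, hk⟩ := h.odd
    unfold half
    omega
  rw [h1, pow_succ, pow_card_eq_one', one_mul]

theorem rt_one : rt (1 : G) = 1 := one_pow _

theorem rt_inv (c : G) : rt c⁻¹ = (rt c)⁻¹ := inv_pow _ _

theorem rt_mul_of_commute (c d : G) (hcd : Commute c d) : rt (c * d) = rt c * rt d :=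
  hcd.mul_pow _

theorem comm_mem_center (x y : G) : ⁅x, y⁆ ∈ center G := by
  rw [mem_center_iff]
  intro g
  exact (h.central x y g).symm

theorem rt_mem_center (c : G) (hc : c ∈ center G) : rt c ∈ center G := pow_mem hc _

theorem comm_mul_left (x y z : G) : ⁅x * y, z⁆ = ⁅x, z⁆ * ⁅y, z⁆ := by
  have e1 : ⁅x * y, z⁆ = x * ⁅y, z⁆ * x⁻¹ * ⁅x, z⁆ := by
    simp only [commutatorElement_def]; group
  have e2 : x * ⁅y, z⁆ = ⁅y, z⁆ * x := (h.central y z x).symm
  rw [e1, e2, mul_inv_cancel_right, h.central]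

theorem comm_mul_right (x y z : G) : ⁅x, y * z⁆ = ⁅x, y⁆ * ⁅x, z⁆ := by
  have e1 : ⁅x, y * z⁆ = ⁅x, y⁆ * (y * ⁅x, z⁆ * y⁻¹) := by
    simp only [commutatorElement_def]; group
  have e2 : y * ⁅x, z⁆ = ⁅x, z⁆ * y := (h.central x z y).symm
  rw [e1, e2, mul_inv_cancel_right]

theorem comm_central_right (x y c : G) (hc : c ∈ center G) : ⁅x, y * c⁆ = ⁅x, y⁆ := by
  rw [comm_mul_right]
  have : ⁅x, c⁆ = 1 := by
    rw [commutatorElement_eq_one_iff_commute]
    exact ((mem_center_iff.mp hc) x)
  rw [this, mul_one]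

theorem comm_central_left (x y c : G) (hc : c ∈ center G) : ⁅x * c, y⁆ = ⁅x, y⁆ := by
  rw [comm_mul_left]
  have : ⁅c, y⁆ = 1 := by
    rw [commutatorElement_eq_one_iff_commute]
    exact ((mem_center_iff.mp hc) y).symm
  rw [this, mul_one]

/-- The Baer multiplication. -/
def bmul (x y : G) : G := x * y * rt ⁅y, x⁆

theorem bmul_comm (x y : G) : bmul x y = bmul y x := by
  have e1 : x * y = ⁅x, y⁆ * (y * x) := by simp only [commutatorElement_def]; group
  have e2 : ⁅y, x⁆ = ⁅x, y⁆⁻¹ := (commutatorElement_inv x y).symm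
  have e3 : ⁅x, y⁆ * (rt ⁅x, y⁆)⁻¹ = rt ⁅x, y⁆ := by
    rw [mul_inv_eq_iff_eq_mul]; exact (rt_mul_self _).symm
  have e4 : ⁅x, y⁆ * (y * x) = (y * x) * ⁅x, y⁆ := h.central x y (y * x)
  unfold bmul
  rw [e1, e2, rt_inv, e4, mul_assoc, e3]

theorem central_shuffle (x y z a b c : G) (ha : a ∈ center G) (hc : c ∈ center G) :
    x * y * a * z * (b * c) = x * (y * z * c) * (a * b) := by
  have ha' : a * z = z * a := ((mem_center_iff.mp ha) z).symm
  have hc' : (a * b) * c = c * (a * b) := ((mem_center_iff.mp hc) (a * b))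
  calc x * y * a * z * (b * c) = x * y * (a * z) * (b * c) := by group
    _ = x * y * (z * a) * (b * c) := by rw [ha']
    _ = x * y * z * ((a * b) * c) := by group
    _ = x * y * z * (c * (a * b)) := by rw [hc']
    _ = x * (y * z * c) * (a * b) := by group

theorem bmul_assoc (x y z : G) : bmul (bmul x y) z = bmul x (bmul y z) := by
  have h1 : ⁅z, x * y * rt ⁅y, x⁆⁆ = ⁅z, x⁆ * ⁅z, y⁆ := by
    rw [comm_central_right _ _ _ (rt_mem_center _ (comm_mem_center y x)), comm_mul_right]
  have h2 : ⁅y * z * rt ⁅z, y⁆, x⁆ = ⁅y, x⁆ * ⁅z, x⁆ := by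
    rw [comm_central_left _ _ _ (rt_mem_center _ (comm_mem_center z y)), comm_mul_left]
  unfold bmul
  rw [h1, h2, rt_mul_of_commute _ _ (h.central z x _), rt_mul_of_commute _ _ (h.central y x _)]
  exact central_shuffle x y z _ _ _ (rt_mem_center _ (comm_mem_center y x))
    (rt_mem_center _ (comm_mem_center z y))

theorem bmul_one (x : G) : bmul x 1 = x := by
  unfold bmul
  simp [rt_one]

theorem bmul_inv (x : G) : bmul x⁻¹ x = 1 := by
  unfold bmul
  have : ⁅x, x⁻¹⁆ = 1 := by simp [commutatorElement_def]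
  rw [this, rt_one]
  simp

end BaerAux

/-- The Baer group of a group of odd order and class at most two. -/
def BaerGp (G : Type*) := G

namespace BaerGp

variable {G : Type*} [Group G] [h : Class2Odd G]

/-- The identity map into the Baer group. -/
def toB : G → BaerGp G := id

/-- The identity map out of the Baer group. -/
def ofB : BaerGp G → G := id

instance : CommGroup (BaerGp G) where
  mul x y := toB (BaerAux.bmul (ofB x) (ofB y))
  mul_assoc x y z := BaerAux.bmul_assoc (ofB x) (ofB y) (ofB z)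
  one := toB 1
  one_mul x := by
    show BaerAux.bmul 1 (ofB x) = ofB x
    rw [BaerAux.bmul_comm, BaerAux.bmul_one]
  mul_one x := BaerAux.bmul_one (ofB x)
  inv x := toB (ofB x)⁻¹
  inv_mul_cancel x := BaerAux.bmul_inv (ofB x)
  mul_comm x y := BaerAux.bmul_comm (ofB x) (ofB y)

theorem mul_def (x y : BaerGp G) : x * y = toB (BaerAux.bmul (ofB x) (ofB y)) := rfl

theorem one_def : (1 : BaerGp G) = toB 1 := rfl

theorem pow_eq (x : BaerGp G) (n : ℕ) : x ^ n = toB ((ofB x) ^ n) := by
  induction n with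
  | zero => rw [pow_zero, pow_zero]; rfl
  | succ n ih =>
    rw [pow_succ, ih, mul_def]
    show BaerAux.bmul ((ofB x) ^ n) (ofB x) = (ofB x) ^ (n + 1)
    unfold BaerAux.bmul
    have : ⁅ofB x, (ofB x) ^ n⁆ = 1 := by
      rw [commutatorElement_eq_one_iff_commute]
      exact (Commute.refl _).pow_right n
    rw [this, BaerAux.rt_one, mul_one, pow_succ]

/-- An endomorphism of `G` is an endomorphism of the Baer group. -/
def lift (φ : G →* G) : BaerGp G →* BaerGp G where
  toFun x := toB (φ (ofB x))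
  map_one' := by show φ 1 = 1; exact map_one φ
  map_mul' x y := by
    show φ (BaerAux.bmul (ofB x) (ofB y)) = BaerAux.bmul (φ (ofB x)) (φ (ofB y))
    unfold BaerAux.bmul BaerAux.rt
    rw [map_mul, map_mul, map_pow, map_commutatorElement]

theorem lift_apply (φ : G →* G) (x : BaerGp G) : lift φ x = toB (φ (ofB x)) := rfl

end BaerGp

end

end Cfsg.Agent.Lib.helper7
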