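import Mathlib
import Cfsg.Agent.Lib.helper7.Baer

set_option autoImplicit false

namespace Cfsg.Agent.Lib.helper7

open Subgroup

/-- Let `R` be a `p`-group of odd order and class at most two, on which a `p'`-group `Q` and a
`p`-group `A` act, with `A` "normalizing" `Q`, and `Q` acting nontrivially.  Then some element
of order `p` of `R` is fixed by `A` but not by `Q`. -/
theorem exists_fixed_order_p_not_fixed {R Q A : Type*} [Group R] [Class2Odd R] [Group Q] [Finite Q]
    [Group A] [Finite A] (p : ℕ) [hp : Fact p.Prime] (hR : IsPGroup p R) (hA : IsPGroup p A)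
    (hQ : ¬ p ∣ Nat.card Q) (ρQ : Q →* MulAut R) (ρA : A →* MulAut R)
    (hnorm : ∀ a : A, ∃ σ : Q ≃ Q, ∀ q y, ρA a (ρQ q y) = ρQ (σ q) (ρA a y))
    (hnt : ∃ q y, ρQ q y ≠ y) :
    ∃ y : R, y ≠ 1 ∧ y ^ p = 1 ∧ (∀ a, ρA a y = y) ∧ ∃ q, ρQ q y ≠ y := by
  classical
  haveI : Finite R := Class2Odd.fin
  haveI : Finite (BaerGp R) := (inferInstance : Finite R)
  haveI : Fintype Q := Fintype.ofFinite Q
  let L : MulAut R → (BaerGp R →* BaerGp R) := fun φ => BaerGp.lift φ.toMonoidHom
  have hL : ∀ (φ : MulAut R) (b : BaerGp R), L φ b = BaerGp.toB (φ (BaerGp.ofB b)) :=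
    fun _ _ => rfl
  let π : BaerGp R →* BaerGp R :=
    { toFun := fun b => ∏ q : Q, L (ρQ q) b
      map_one' := by simp
      map_mul' := by
        intro b c
        simp only [map_mul]
        exact Finset.prod_mul_distrib }
  have hπ : ∀ b, π b = ∏ q : Q, L (ρQ q) b := fun _ => rfl
  have hπfix : ∀ (q' : Q) b, L (ρQ q') (π b) = π b := by
    intro q' b
    rw [hπ, map_prod]
    have : ∀ q, L (ρQ q') (L (ρQ q) b) = L (ρQ (q' * q)) b := by
      intro q
      show BaerGp.toB (ρQ q' (ρQ q (BaerGp.ofB b))) = BaerGp.toB (ρQ (q' * q) (BaerGp.ofB b))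
      rw [map_mul]
      rfl
    simp only [this]
    exact Equiv.prod_comp (Equiv.mulLeft q') (fun q => L (ρQ q) b)
  have hπA : ∀ (a : A) b, L (ρA a) (π b) = π (L (ρA a) b) := by
    intro a b
    obtain ⟨σ, hσ⟩ := hnorm a
    rw [hπ, hπ, map_prod]
    have : ∀ q, L (ρA a) (L (ρQ q) b) = L (ρQ (σ q)) (L (ρA a) b) := by
      intro q
      exact congrArg BaerGp.toB (hσ q (BaerGp.ofB b))
    simp only [this]
    exact Equiv.prod_comp σ (fun q => L (ρQ q) (L (ρA a) b))
  have hKne : π.ker ≠ ⊥ := by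
    intro hbot
    have hinj : Function.Injective π := (MonoidHom.ker_eq_bot_iff π).mp hbot
    have hsurj : Function.Surjective π := Finite.injective_iff_surjective.mp hinj
    obtain ⟨q, y, hqy⟩ := hnt
    obtain ⟨b, hb⟩ := hsurj (BaerGp.toB y)
    have := hπfix q b
    rw [hb] at this
    exact hqy this
  have hpK : p ∣ Nat.card ↥π.ker := by
    obtain ⟨n, hn⟩ := IsPGroup.iff_card.mp hR
    have h1 : Nat.card ↥π.ker ∣ p ^ n := by
      rw [← hn]
      exact Subgroup.card_subgroup_dvd_card π.ker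
    obtain ⟨j, -, hj⟩ := (Nat.dvd_prime_pow hp.out).mp h1
    rcases Nat.eq_zero_or_pos j with h0 | h0
    · exfalso
      rw [h0, pow_zero] at hj
      exact hKne (Subgroup.eq_bot_of_card_eq _ hj)
    · rw [hj]
      exact dvd_pow_self p (by omega)
  letI : MulAction A ↥π.ker :=
    { smul := fun a k => ⟨L (ρA a) k.1, by
        rw [MonoidHom.mem_ker, ← hπA, MonoidHom.mem_ker.mp k.2]
        exact map_one _⟩
      one_smul := fun k => by
        apply Subtype.ext
        show L (ρA 1) k.1 = k.1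
        rw [map_one]
        rfl
      mul_smul := fun a a' k => by
        apply Subtype.ext
        show L (ρA (a * a')) k.1 = L (ρA a) (L (ρA a') k.1)
        rw [map_mul]
        rfl }
  have hsmul : ∀ (a : A) (k : ↥π.ker), ((a • k : ↥π.ker) : BaerGp R) = L (ρA a) k.1 :=
    fun _ _ => rfl
  obtain ⟨k, hkfix, hk1⟩ := hA.exists_fixed_point_of_prime_dvd_card_of_fixed_point ↥π.ker hpK
    (a := (1 : ↥π.ker)) (by
      rw [MulAction.mem_fixedPoints]
      intro a
      apply Subtype.ext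
      rw [hsmul]
      exact map_one _)
  rw [MulAction.mem_fixedPoints] at hkfix
  have hyfix : ∀ a, ρA a (BaerGp.ofB k.1) = BaerGp.ofB k.1 := by
    intro a
    have := congrArg Subtype.val (hkfix a)
    rw [hsmul] at this
    exact this
  have hy1 : BaerGp.ofB k.1 ≠ 1 := by
    intro h
    apply hk1
    apply Subtype.ext
    exact h.symm
  obtain ⟨j, hj⟩ := IsPGroup.iff_orderOf.mp hR (BaerGp.ofB k.1)
  have hj0 : j ≠ 0 := by
    intro h0
    rw [h0, pow_zero] at hj
    exact hy1 (orderOf_eq_one_iff.mp hj)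
  have hdvd : p ∣ orderOf (BaerGp.ofB k.1) := by
    rw [hj]
    exact dvd_pow_self p hj0
  have hord : orderOf ((BaerGp.ofB k.1) ^ (orderOf (BaerGp.ofB k.1) / p)) = p :=
    orderOf_pow_orderOf_div (orderOf_pos _).ne' hdvd
  refine ⟨(BaerGp.ofB k.1) ^ (orderOf (BaerGp.ofB k.1) / p), ?_, ?_, ?_, ?_⟩
  · intro h
    rw [h, orderOf_one] at hord
    exact hp.out.one_lt.ne hord
  · have := pow_orderOf_eq_one ((BaerGp.ofB k.1) ^ (orderOf (BaerGp.ofB k.1) / p))
    rwa [hord] at this
  · intro a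
    rw [map_pow, hyfix a]
  · by_contra hall
    push_neg at hall
    have h1 : π (BaerGp.toB ((BaerGp.ofB k.1) ^ (orderOf (BaerGp.ofB k.1) / p))) =
        (BaerGp.toB ((BaerGp.ofB k.1) ^ (orderOf (BaerGp.ofB k.1) / p))) ^ Fintype.card Q := by
      rw [hπ]
      have : ∀ q, L (ρQ q) (BaerGp.toB ((BaerGp.ofB k.1) ^ (orderOf (BaerGp.ofB k.1) / p))) =
          BaerGp.toB ((BaerGp.ofB k.1) ^ (orderOf (BaerGp.ofB k.1) / p)) := by
        intro q
        exact congrArg BaerGp.toB (hall q)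
      simp only [this]
      rw [Finset.prod_const, Finset.card_univ]
    have h2 : π (BaerGp.toB ((BaerGp.ofB k.1) ^ (orderOf (BaerGp.ofB k.1) / p))) = 1 := by
      rw [← BaerGp.pow_eq, map_pow, MonoidHom.mem_ker.mp k.2, one_pow]
    rw [h2, BaerGp.pow_eq] at h1
    have h3 : ((BaerGp.ofB k.1) ^ (orderOf (BaerGp.ofB k.1) / p)) ^ Fintype.card Q = 1 := h1.symm
    have h4 := orderOf_dvd_of_pow_eq_one h3
    rw [hord] at h4
    apply hQ
    rwa [Nat.card_eq_fintype_card]

end Cfsg.Agent.Lib.helper7
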