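import Mathlib
import Cfsg.Agent.Lib.helper7.Sup
import Cfsg.Agent.S0120

namespace Cfsg.Agent.Lib.helper7

open Subgroup Cfsg.Agent.Lib.helper8

universe u

/-- Normalizers grow in nilpotent groups (internal form). -/
theorem normalizer_grows_nilpotent {G : Type u} [Group G] {S U : Subgroup G}
    (hS : Group.IsNilpotent S) (hlt : U < S) :
    ∃ s ∈ S, s ∈ Subgroup.normalizer (U : Set G) ∧ s ∉ U := by
  have hnc : NormalizerCondition S := Group.normalizerCondition_of_isNilpotent
  have hUS : U ≤ S := hlt.le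
  have hne : U.subgroupOf S < ⊤ := by
    rw [lt_top_iff_ne_top, Ne, Subgroup.subgroupOf_eq_top]
    exact fun h => hlt.not_ge h
  obtain ⟨s, hs1, hs2⟩ := SetLike.exists_of_lt (hnc _ hne)
  refine ⟨s.1, s.2, ?_, fun h => hs2 (Subgroup.mem_subgroupOf.mpr h)⟩
  rw [Subgroup.mem_normalizer_iff] at hs1 ⊢
  intro h
  constructor
  · intro hh
    exact Subgroup.mem_subgroupOf.mp ((hs1 ⟨h, hUS hh⟩).mp (Subgroup.mem_subgroupOf.mpr hh))
  · intro hh
    have hhS : h ∈ S := by
      have e : h = s.1⁻¹ * (s.1 * h * s.1⁻¹) * s.1 := by group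
      rw [e]
      exact S.mul_mem (S.mul_mem (S.inv_mem s.2) (hUS hh)) s.2
    exact Subgroup.mem_subgroupOf.mp ((hs1 ⟨h, hhS⟩).mpr (Subgroup.mem_subgroupOf.mpr hh))

/-- For odd `p`, a `p'`-group normalizing a `p`-group `K` and centralizing all its elements of
order dividing `p` centralizes `K`. -/
theorem centralize_of_fix_order_p {G : Type u} [Group G] [Finite G] {p : ℕ} [Fact p.Prime]
    (hp : p ≠ 2) (K A : Subgroup G) (hK : IsPGroup p K) (hA : A ≤ normalizer (K : Set G))
    (hcop : (Nat.card A).Coprime p)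
    (hfix : ∀ x ∈ K, x ^ p = 1 → ∀ a ∈ A, a * x = x * a) :
    A ≤ centralizer (K : Set G) := by
  intro a ha
  set φ : MulAut K := K.normalizerMonoidHom ⟨a, hA ha⟩ with hφ
  have h1 : orderOf φ ∣ orderOf (⟨a, hA ha⟩ : normalizer (K : Set G)) := orderOf_map_dvd _ _
  have h2 : orderOf (⟨a, hA ha⟩ : normalizer (K : Set G)) = orderOf a := by
    rw [← Subgroup.orderOf_coe]
  have h3 : orderOf a ∣ Nat.card A := by
    have := orderOf_dvd_natCard (⟨a, ha⟩ : A)
    rwa [← Subgroup.orderOf_coe] at this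
  have h4 : (orderOf φ).Coprime p :=
    Nat.Coprime.coprime_dvd_left (h1.trans (h2 ▸ h3)) hcop
  have h5 : φ = 1 := by
    apply Cfsg.Agent.S0120.result hp hK φ h4
    intro x hx
    apply Subtype.ext
    have hx' : (x : G) ^ p = 1 := by
      have := congrArg (Subtype.val) hx
      simpa using this
    have h6 := hfix x x.2 hx' a ha
    change a * (x : G) * a⁻¹ = x
    rw [h6]; group
  rw [mem_centralizer_iff]
  intro x hx
  have h7 : φ ⟨x, hx⟩ = ⟨x, hx⟩ := by rw [h5]; rfl
  have h8 : a * x * a⁻¹ = x := congrArg Subtype.val h7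
  calc x * a = (a * x * a⁻¹) * a := by rw [h8]
    _ = a * x := by group

end Cfsg.Agent.Lib.helper7
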