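import Mathlib
import Cfsg.Agent.Lib.helper7.PComp4
import Cfsg.Agent.Lib.helper7.Stab

set_option linter.style.haveILetI false
set_option linter.unusedSectionVars false

namespace Cfsg.Agent.Lib.helper7

open Subgroup Cfsg.Agent.Lib.helper8 Cfsg.Agent.Lib.helper9

universe u

section

variable {X : Type u} [Group X] [Finite X] {p : ℕ} [hp : Fact p.Prime]

theorem pLayer_eq_bot_of_solvable [hs : Group.IsSolvable X] : Cfsg.pLayer p X = ⊥ := by
  rw [eq_bot_iff]
  apply sSup_le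
  intro K hK
  exfalso
  have h1 : commutator ↥K = ⊤ := pcomp_commutator_eq_top hK
  have hne : K ≠ ⊥ := by
    intro h
    exact pcomp_not_le_core hK (h ▸ bot_le)
  haveI : Nontrivial ↥K := (Subgroup.nontrivial_iff_ne_bot K).mpr hne
  have h2 := Group.IsSolvable.commutator_lt_top_of_nontrivial ↥K
  exact h2.ne h1

theorem cent_pCore_quot_le (h : Cfsg.pLayer p X = ⊥) :
    centralizer (Cfsg.pCore p (X ⧸ Cfsg.pPrimeCore p X) : Set (X ⧸ Cfsg.pPrimeCore p X)) ≤
      Cfsg.pCore p (X ⧸ Cfsg.pPrimeCore p X) := by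
  have hQ : Cfsg.pPrimeCore p (X ⧸ Cfsg.pPrimeCore p X) = ⊥ :=
    pPrimeCore_quotient_eq_bot p X
  have hF : Cfsg.fittingSubgroup (X ⧸ Cfsg.pPrimeCore p X) =
      Cfsg.pCore p (X ⧸ Cfsg.pPrimeCore p X) := fitting_eq_pCore_of_core_bot hQ
  have hL : Cfsg.layer (X ⧸ Cfsg.pPrimeCore p X) = ⊥ := (pLayer_eq_bot_iff p X).mp h
  have hFs : Cfsg.generalizedFittingSubgroup (X ⧸ Cfsg.pPrimeCore p X) =
      Cfsg.pCore p (X ⧸ Cfsg.pPrimeCore p X) := by
    unfold Cfsg.generalizedFittingSubgroup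
    rw [hL, bot_sup_eq, hF]
  have := centralizer_genFitting_le (X ⧸ Cfsg.pPrimeCore p X)
  rwa [hFs] at this

/-- A `p'`-subgroup whose image centralizes `O_p(X / O_{p'}(X))` lies in `O_{p'}(X)`, when `X`
has trivial `p`-layer. -/
theorem le_core_of_map_le_centralizer (h : Cfsg.pLayer p X = ⊥) (U : Subgroup X)
    (hU : (Nat.card U).Coprime p)
    (hc : U.map (QuotientGroup.mk' (Cfsg.pPrimeCore p X)) ≤
      centralizer (Cfsg.pCore p (X ⧸ Cfsg.pPrimeCore p X) : Set (X ⧸ Cfsg.pPrimeCore p X))) :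
    U ≤ Cfsg.pPrimeCore p X := by
  have h1 := hc.trans (cent_pCore_quot_le h)
  intro u hu
  have h2 : QuotientGroup.mk' (Cfsg.pPrimeCore p X) u ∈
      Cfsg.pCore p (X ⧸ Cfsg.pPrimeCore p X) := h1 ⟨u, hu, rfl⟩
  have hpg := pCore_isPGroup p (X ⧸ Cfsg.pPrimeCore p X)
  obtain ⟨k, hk⟩ := (IsPGroup.iff_orderOf.mp hpg) ⟨_, h2⟩
  rw [Subgroup.orderOf_mk] at hk
  have h3 : orderOf (QuotientGroup.mk' (Cfsg.pPrimeCore p X) u) ∣ orderOf u :=
    orderOf_map_dvd _ u
  have h4 : orderOf u ∣ Nat.card U := by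
    have := orderOf_dvd_natCard (⟨u, hu⟩ : U)
    rwa [← Subgroup.orderOf_coe] at this
  have h5 : (orderOf (QuotientGroup.mk' (Cfsg.pPrimeCore p X) u)).Coprime p :=
    Nat.Coprime.coprime_dvd_left (h3.trans h4) hU
  rw [hk] at h5
  have h6 : p ^ k = 1 := by
    have := Nat.Coprime.pow_right k h5
    rwa [Nat.coprime_self] at this
  rw [h6] at hk
  have h7 := orderOf_eq_one_iff.mp hk
  rwa [← MonoidHom.mem_ker, QuotientGroup.ker_mk'] at h7

/-- Elements of `O_{p',p}(X)` of order prime to `p` lie in `O_{p'}(X)`. -/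
theorem mem_core_of_mem_pPrimePCore {x : X} (hx : x ∈ Cfsg.pPrimePCore p X)
    (hxo : (orderOf x).Coprime p) : x ∈ Cfsg.pPrimeCore p X := by
  have h2 : QuotientGroup.mk' (Cfsg.pPrimeCore p X) x ∈
      Cfsg.pCore p (X ⧸ Cfsg.pPrimeCore p X) := hx
  have hpg := pCore_isPGroup p (X ⧸ Cfsg.pPrimeCore p X)
  obtain ⟨k, hk⟩ := (IsPGroup.iff_orderOf.mp hpg) ⟨_, h2⟩
  rw [Subgroup.orderOf_mk] at hk
  have h3 : orderOf (QuotientGroup.mk' (Cfsg.pPrimeCore p X) x) ∣ orderOf x :=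
    orderOf_map_dvd _ x
  have h5 : (orderOf (QuotientGroup.mk' (Cfsg.pPrimeCore p X) x)).Coprime p :=
    Nat.Coprime.coprime_dvd_left h3 hxo
  rw [hk] at h5
  have h6 : p ^ k = 1 := by
    have := Nat.Coprime.pow_right k h5
    rwa [Nat.coprime_self] at this
  rw [h6] at hk
  have h7 := orderOf_eq_one_iff.mp hk
  rwa [← MonoidHom.mem_ker, QuotientGroup.ker_mk'] at h7

/-- Hall–Higman type lemma: a `p'`-subgroup `U` with `[O_{p',p}(X), U] ≤ O_{p'}(X)` lies in
`O_{p'}(X)` when `X` has trivial `p`-layer. -/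
theorem le_core_of_commutator_le (h : Cfsg.pLayer p X = ⊥) (U : Subgroup X)
    (hU : (Nat.card U).Coprime p)
    (hc : ∀ x ∈ Cfsg.pPrimePCore p X, ∀ u ∈ U, x * u * x⁻¹ * u⁻¹ ∈ Cfsg.pPrimeCore p X) :
    U ≤ Cfsg.pPrimeCore p X := by
  apply le_core_of_map_le_centralizer h U hU
  rintro _ ⟨u, hu, rfl⟩
  rw [mem_centralizer_iff]
  intro r hr
  obtain ⟨x, rfl⟩ := QuotientGroup.mk'_surjective (Cfsg.pPrimeCore p X) r
  have hx : x ∈ Cfsg.pPrimePCore p X := hr
  have h1 := hc x hx u hu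
  rw [← QuotientGroup.ker_mk' (Cfsg.pPrimeCore p X), MonoidHom.mem_ker] at h1
  simp only [map_mul, map_inv] at h1
  have h2 := mul_inv_eq_one.mp h1
  have h3 := mul_inv_eq_iff_eq_mul.mp h2
  exact h3

/-- `p'`-balance for groups with trivial `p`-layer (in particular solvable groups): a `p'`-subgroup
`D` centralizing a `p`-subgroup `P` and normalized by `C_X(P)` lies in `O_{p'}(X)`. -/
theorem core_centralizer_le_core (h : Cfsg.pLayer p X = ⊥) (P D : Subgroup X)
    (hP : IsPGroup p P) (hD : (Nat.card D).Coprime p)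
    (hDP : D ≤ centralizer (P : Set X))
    (hDn : centralizer (P : Set X) ≤ normalizer (D : Set X)) :
    D ≤ Cfsg.pPrimeCore p X := by
  set O := Cfsg.pPrimeCore p X with hO
  set π := QuotientGroup.mk' O with hπ
  set R := Cfsg.pCore p (X ⧸ O) with hR
  apply le_core_of_map_le_centralizer h D hD
  have hRp : IsPGroup p R := pCore_isPGroup p (X ⧸ O)
  have hRn : R.Normal := by rw [hR]; unfold Cfsg.pCore; exact Subgroup.sSup_normal _ (fun _ h => h.1)
  have hcardD : (Nat.card (D.map π)).Coprime p :=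
    Nat.Coprime.coprime_dvd_left (Subgroup.card_map_dvd D π) hD
  have hPD : P.map π ≤ centralizer ((D.map π : Subgroup (X ⧸ O)) : Set (X ⧸ O)) := by
    rintro _ ⟨a, ha, rfl⟩
    rw [mem_centralizer_iff]
    rintro _ ⟨d, hd, rfl⟩
    have := mem_centralizer_iff.mp (hDP hd) a ha
    rw [← map_mul, ← map_mul, this]
  have hOcop : (Nat.card P).Coprime (Nat.card O) := by
    obtain ⟨k, hk⟩ := IsPGroup.iff_card.mp hP
    rw [hk]
    exact Nat.Coprime.pow_left k (pPrimeCore_coprime p X).symm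
  have hPsolv : Group.IsSolvable P := by
    haveI := hP.isNilpotent
    infer_instance
  have hC : R ⊓ centralizer ((P.map π : Subgroup (X ⧸ O)) : Set (X ⧸ O)) ≤
      centralizer ((D.map π : Subgroup (X ⧸ O)) : Set (X ⧸ O)) := by
    intro r hr
    obtain ⟨hr1, hr2⟩ := Subgroup.mem_inf.mp hr
    obtain ⟨x, rfl⟩ := QuotientGroup.mk'_surjective O r
    have hx : x ∈ Cfsg.pPrimePCore p X := hr1
    have hr2' : π x ∈ centralizer ((P.map π : Subgroup (X ⧸ O)) : Set (X ⧸ O)) := hr2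
    have hfix : ∀ a ∈ P, x⁻¹ * a * x * a⁻¹ ∈ O := by
      intro a ha
      have h9 : π (x⁻¹ * a * x * a⁻¹) = 1 := by
        have := mem_centralizer_iff.mp hr2' (π a) ⟨a, ha, rfl⟩
        simp only [map_mul, map_inv]
        rw [mul_assoc (π x)⁻¹, this]
        group
      rw [← QuotientGroup.ker_mk' O, MonoidHom.mem_ker]
      exact h9
    obtain ⟨d, hd, hd2⟩ := coset_fix P O (by rw [Subgroup.normalizer_eq_top]; exact le_top)
      hOcop (Or.inl hPsolv) x hfix
    have hyC : x * d ∈ centralizer (P : Set X) := by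
      rw [mem_centralizer_iff]
      exact fun a ha => hd2 a ha
    have hOle : O ≤ Cfsg.pPrimePCore p X := pPrimeCore_le_pPrimePCore p X
    have hyP1 : x * d ∈ Cfsg.pPrimePCore p X := mul_mem hx (hOle hd)
    have hπy : π (x * d) = π x := by
      rw [map_mul]
      have : π d = 1 := by rw [← MonoidHom.mem_ker, QuotientGroup.ker_mk']; exact hd
      rw [this, mul_one]
    show π x ∈ centralizer ((D.map π : Subgroup (X ⧸ O)) : Set (X ⧸ O))
    rw [mem_centralizer_iff]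
    rintro _ ⟨δ, hδ, rfl⟩
    rw [← hπy]
    have hmemD : (x * d) * δ * (x * d)⁻¹ * δ⁻¹ ∈ D :=
      mul_mem (conj_mem_of_mem_normalizer (hDn hyC) hδ) (inv_mem hδ)
    have hmemP1 : (x * d) * δ * (x * d)⁻¹ * δ⁻¹ ∈ Cfsg.pPrimePCore p X := by
      have hn : (Cfsg.pPrimePCore p X).Normal := inferInstance
      have e : (x * d) * δ * (x * d)⁻¹ * δ⁻¹ = (x * d) * (δ * (x * d)⁻¹ * δ⁻¹) := by group
      rw [e]
      exact mul_mem hyP1 (hn.conj_mem _ (inv_mem hyP1) δ)
    have hord : (orderOf ((x * d) * δ * (x * d)⁻¹ * δ⁻¹)).Coprime p := by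
      have h4 : orderOf ((x * d) * δ * (x * d)⁻¹ * δ⁻¹) ∣ Nat.card D := by
        have := orderOf_dvd_natCard (⟨_, hmemD⟩ : D)
        rwa [← Subgroup.orderOf_coe] at this
      exact Nat.Coprime.coprime_dvd_left h4 hD
    have h5 : (x * d) * δ * (x * d)⁻¹ * δ⁻¹ ∈ O := mem_core_of_mem_pPrimePCore hmemP1 hord
    have h5' : π ((x * d) * δ * (x * d)⁻¹ * δ⁻¹) = 1 := by
      rw [← MonoidHom.mem_ker, hπ, QuotientGroup.ker_mk']; exact h5
    rw [map_mul, map_mul, map_mul, map_inv, map_inv] at h5'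
    have h6 := mul_inv_eq_one.mp h5'
    have h7 := mul_inv_eq_iff_eq_mul.mp h6
    exact h7.symm
  exact thompson_pq (P.map π) (D.map π) R (hP.map π) hcardD hRp hPD
    (by rw [Subgroup.normalizer_eq_top]; exact le_top)
    (by rw [Subgroup.normalizer_eq_top]; exact le_top) hC

end

end Cfsg.Agent.Lib.helper7
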