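import Mathlib
import Cfsg.Prelude.Def_Balance
import Cfsg.Agent.Lib.helper7.Stab
import Cfsg.Agent.Lib.helper7.Fitting
import Cfsg.Agent.Lib.helper9.Generation
import Cfsg.Agent.S1280

set_option linter.style.haveILetI false
set_option linter.unusedSectionVars false

namespace Cfsg.Agent.Lib.helper7

open Subgroup Cfsg.Agent.Lib.helper8 Cfsg.Agent.Lib.helper9

universe u

section EA

variable {G : Type u} [Group G] [Finite G] {p : ℕ} [hp : Fact p.Prime] {A : Subgroup G}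

theorem ea_comm (hA : Cfsg.IsElementaryAbelian p A) : ∀ a ∈ A, ∀ b ∈ A, a * b = b * a := by
  intro a ha b hb
  haveI := hA.1
  exact congrArg Subtype.val (mul_comm' (⟨a, ha⟩ : A) ⟨b, hb⟩)

theorem ea_isPGroup (hA : Cfsg.IsElementaryAbelian p A) : IsPGroup p A := by
  intro g
  refine ⟨1, ?_⟩
  apply Subtype.ext
  have := hA.2 g g.2
  simpa using this

theorem ea_le (hA : Cfsg.IsElementaryAbelian p A) {B : Subgroup G} (hB : B ≤ A) :
    Cfsg.IsElementaryAbelian p B :=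
  ⟨⟨⟨fun x y => Subtype.ext (ea_comm hA x (hB x.2) y (hB y.2))⟩⟩, fun b hb => hA.2 b (hB hb)⟩

theorem ea_coprime (hA : Cfsg.IsElementaryAbelian p A) {K : Subgroup G}
    (hK : ¬ p ∣ Nat.card K) : (Nat.card A).Coprime (Nat.card K) := by
  obtain ⟨k, hk⟩ := IsPGroup.iff_card.mp (ea_isPGroup hA)
  rw [hk]
  exact Nat.Coprime.pow_left k ((Nat.Prime.coprime_iff_not_dvd hp.out).mpr hK)

/-- If `A = B₀⟨a⟩` then `|A|` divides `|B₀| p`. -/
theorem ea_card_dvd (hA : Cfsg.IsElementaryAbelian p A) {B₀ : Subgroup G} (hB₀ : B₀ ≤ A)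
    {a : G} (ha : a ∈ A) (h : B₀ ⊔ zpowers a = A) : Nat.card A ∣ Nat.card B₀ * p := by
  have hn : zpowers a ≤ normalizer (B₀ : Set G) := by
    rw [zpowers_le]
    apply le_normalizer_of_conj_mem (A := zpowers a) ?_ (mem_zpowers a)
    rintro _ ⟨k, rfl⟩ x hx
    have hc : a ^ k * x = x * a ^ k := ea_comm hA _ (zpow_mem ha k) x (hB₀ hx)
    have : a ^ k * x * (a ^ k)⁻¹ = x := by rw [hc]; group
    show a ^ k * x * (a ^ k)⁻¹ ∈ B₀
    rw [this]; exact hx
  have h1 := card_sup_dvd_of_le_normalizer B₀ (zpowers a) hn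
  rw [h] at h1
  have h2 : Nat.card (zpowers a) ∣ p := by
    rw [Nat.card_zpowers]; exact orderOf_dvd_of_pow_eq_one (hA.2 a ha)
  exact h1.trans (Nat.mul_dvd_mul_left _ h2)

theorem relIndex_dvd_of_card_dvd {B₀ : Subgroup G} (hB₀ : B₀ ≤ A)
    (h : Nat.card A ∣ Nat.card B₀ * p) : B₀.relIndex A ∣ p := by
  have h1 : Nat.card B₀ * B₀.relIndex A = Nat.card A := card_mul_relIndex_of_le hB₀
  rw [← h1] at h
  exact Nat.dvd_of_mul_dvd_mul_left Nat.card_pos h

/-- A subgroup of index dividing `p` in a nontrivial `p`-group contains a subgroup of index `p`. -/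
theorem exists_hyperplane_le (hAp : IsPGroup p A) (hA1 : A ≠ ⊥) {B₀ : Subgroup G}
    (hB₀ : B₀ ≤ A) (h : Nat.card A ∣ Nat.card B₀ * p) :
    ∃ D : Subgroup G, D ≤ B₀ ∧ D.relIndex A = p := by
  obtain ⟨k, hk⟩ := IsPGroup.iff_card.mp hAp
  obtain ⟨j, hj⟩ := IsPGroup.iff_card.mp (hAp.to_le hB₀)
  have hk1 : 1 ≤ k := by
    by_contra hk0
    have hk0' : k = 0 := by omega
    rw [hk0', pow_zero] at hk
    exact hA1 ((Subgroup.card_eq_one).mp hk)
  have hkj : k ≤ j + 1 := by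
    rw [hk, hj, ← pow_succ] at h
    exact (Nat.pow_dvd_pow_iff_le_right hp.out.one_lt).mp h
  obtain ⟨D', hD'⟩ := Sylow.exists_subgroup_card_pow_prime (G := B₀) p (n := k - 1)
    (by rw [hj]; exact pow_dvd_pow p (by omega))
  refine ⟨D'.map B₀.subtype, Subgroup.map_subtype_le _, ?_⟩
  have h1 : Nat.card (D'.map B₀.subtype) = p ^ (k - 1) := by
    rw [Subgroup.card_map_of_injective B₀.subtype_injective, hD']
  have h2 : Nat.card (D'.map B₀.subtype) * (D'.map B₀.subtype).relIndex A = Nat.card A :=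
    card_mul_relIndex_of_le ((Subgroup.map_subtype_le _).trans hB₀)
  rw [h1, hk] at h2
  have h3 : p ^ k = p ^ (k - 1) * p := by
    rw [← pow_succ]; congr 1; omega
  rw [h3] at h2
  exact Nat.eq_of_mul_eq_mul_left (pow_pos hp.out.pos _) h2

end EA

section Fam

variable {G : Type u} [Group G] [Finite G] {p : ℕ} [hp : Fact p.Prime] {A : Subgroup G}
  {θ : G → Subgroup G}

theorem fam_le_normalizer {X : Subgroup G} (hX : X ∈ Cfsg.signalizerFamily p A θ) :
    A ≤ normalizer (X : Set G) :=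
  le_normalizer_of_conj_mem hX.2.2.1

theorem fam_of_le {X Y : Subgroup G} (hX : X ∈ Cfsg.signalizerFamily p A θ) (hYX : Y ≤ X)
    (hY : A ≤ normalizer (Y : Set G)) : Y ∈ Cfsg.signalizerFamily p A θ := by
  obtain ⟨hs, hc, hi, hθ⟩ := hX
  refine ⟨Group.isSolvable_of_isSolvable_injective (Subgroup.inclusion_injective hYX),
    fun h => hc (h.trans (Subgroup.card_dvd_of_le hYX)),
    fun b hb u hu => conj_mem_of_mem_normalizer (hY hb) hu,
    fun a ha ha1 => (inf_le_inf_right _ hYX).trans (hθ a ha ha1)⟩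

theorem theta_mem_fam (hθ : Cfsg.IsSolvableSignalizerFunctor p A θ) {a : G} (ha : a ∈ A)
    (ha1 : a ≠ 1) : θ a ∈ Cfsg.signalizerFamily p A θ := by
  obtain ⟨⟨h1, h2, h3, h4⟩, h5⟩ := hθ
  exact ⟨h5 a ha ha1, h2 a ha ha1, h3 a ha ha1, fun b hb hb1 => h4 a ha ha1 b hb hb1⟩

theorem sigInf_le (B : Subgroup G) {b : G} (hb : b ∈ B) (hb1 : b ≠ 1) :
    Cfsg.signalizerInf B θ ≤ θ b :=
  iInf_le (fun a : {a : G // a ∈ B ∧ a ≠ 1} => θ (a : G)) ⟨b, hb, hb1⟩

theorem mem_sigInf {B : Subgroup G} {x : G} :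
    x ∈ Cfsg.signalizerInf B θ ↔ ∀ b ∈ B, b ≠ 1 → x ∈ θ b := by
  unfold Cfsg.signalizerInf
  rw [Subgroup.mem_iInf]
  constructor
  · intro h b hb hb1; exact h ⟨b, hb, hb1⟩
  · rintro h ⟨b, hb, hb1⟩; exact h b hb hb1

theorem sigInf_le_centralizer (hθ : Cfsg.IsSignalizerFunctor p A θ) (B : Subgroup G)
    (hB : B ≤ A) : Cfsg.signalizerInf B θ ≤ centralizer (B : Set G) := by
  intro x hx
  rw [mem_centralizer_iff]
  intro b hb
  by_cases hb1 : b = 1
  · rw [hb1]; simp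
  · have h1 : x ∈ centralizer ({b} : Set G) :=
      hθ.1 b (hB hb) hb1 (mem_sigInf.mp hx b hb hb1)
    exact mem_centralizer_iff.mp h1 b rfl

theorem sigInf_mono {B C : Subgroup G} (h : B ≤ C) :
    Cfsg.signalizerInf C θ ≤ Cfsg.signalizerInf B θ := by
  intro x hx
  rw [mem_sigInf] at hx ⊢
  exact fun b hb hb1 => hx b (h hb) hb1

theorem fam_cent_le_sigInf {X : Subgroup G} (hX : X ∈ Cfsg.signalizerFamily p A θ)
    {B : Subgroup G} (hB : B ≤ A) :
    X ⊓ centralizer (B : Set G) ≤ Cfsg.signalizerInf B θ := by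
  intro x hx
  rw [mem_sigInf]
  intro b hb hb1
  apply hX.2.2.2 b (hB hb) hb1
  refine Subgroup.mem_inf.mpr ⟨(Subgroup.mem_inf.mp hx).1, ?_⟩
  exact Subgroup.centralizer_le (Set.singleton_subset_iff.mpr hb) (Subgroup.mem_inf.mp hx).2

/-- The intersections `θ(B)` are normalized by `A`. -/
theorem sigInf_normalized (hA : Cfsg.IsElementaryAbelian p A)
    (hθ : Cfsg.IsSignalizerFunctor p A θ) {B : Subgroup G} (hB : B ≤ A) :
    A ≤ normalizer (Cfsg.signalizerInf B θ : Set G) := by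
  apply le_normalizer_of_conj_mem
  intro a ha x hx
  rw [mem_sigInf] at hx ⊢
  intro b hb hb1
  exact hθ.2.2.1 b (hB hb) hb1 a ha x (hx b hb hb1)

theorem sigInf_mem_fam (hA : Cfsg.IsElementaryAbelian p A)
    (hθ : Cfsg.IsSolvableSignalizerFunctor p A θ) {B : Subgroup G} (hB : B ≤ A) (hB1 : B ≠ ⊥) :
    Cfsg.signalizerInf B θ ∈ Cfsg.signalizerFamily p A θ := by
  obtain ⟨b, hb, hb1⟩ : ∃ b ∈ B, b ≠ 1 := by
    by_contra hcon
    simp only [not_exists, not_and, not_not] at hcon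
    exact hB1 ((Subgroup.eq_bot_iff_forall B).mpr hcon)
  exact fam_of_le (theta_mem_fam hθ (hB hb) hb1) (sigInf_le B hb hb1)
    (sigInf_normalized hA hθ.1 hB)

theorem map_conj_mem {X : Subgroup G} {c x : G} :
    x ∈ X.map (MulAut.conj c).toMonoidHom ↔ c⁻¹ * x * c ∈ X := by
  constructor
  · rintro ⟨y, hy, rfl⟩
    simp only [MulEquiv.coe_toMonoidHom, MulAut.conj_apply]
    have : c⁻¹ * (c * y * c⁻¹) * c = y := by group
    rw [this]; exact hy
  · intro h
    exact ⟨c⁻¹ * x * c, h, by simp only [MulEquiv.coe_toMonoidHom, MulAut.conj_apply]; group⟩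

/-- Conjugation by an element of `θ(A)` preserves the family. -/
theorem fam_conj (hθ : Cfsg.IsSignalizerFunctor p A θ) {X : Subgroup G}
    (hX : X ∈ Cfsg.signalizerFamily p A θ) {c : G} (hc : c ∈ Cfsg.signalizerInf A θ) :
    X.map (MulAut.conj c).toMonoidHom ∈ Cfsg.signalizerFamily p A θ := by
  obtain ⟨hs, hcd, hi, hXθ⟩ := hX
  have hcA : c ∈ centralizer (A : Set G) := sigInf_le_centralizer hθ A le_rfl hc
  refine ⟨?_, ?_, ?_, ?_⟩
  · exact Group.isSolvable_of_surjective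
      (f := ((MulAut.conj c).toMonoidHom.subgroupMap X))
      (MonoidHom.subgroupMap_surjective _ _)
  · rw [Subgroup.card_map_of_injective (MulAut.conj c).injective]; exact hcd
  · intro b hb u hu
    rw [map_conj_mem] at hu ⊢
    have hbc : b * c = c * b := mem_centralizer_iff.mp hcA b hb
    have h1 := hi b hb _ hu
    have e : c⁻¹ * (b * u * b⁻¹) * c = b * (c⁻¹ * u * c) * b⁻¹ := by
      have hbc' : c⁻¹ * b = b * c⁻¹ := by
        calc c⁻¹ * b = c⁻¹ * (b * c) * c⁻¹ := by group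
          _ = c⁻¹ * (c * b) * c⁻¹ := by rw [hbc]
          _ = b * c⁻¹ := by group
      have hbc'' : b⁻¹ * c = c * b⁻¹ := by
        calc b⁻¹ * c = b⁻¹ * (c * b) * b⁻¹ := by group
          _ = b⁻¹ * (b * c) * b⁻¹ := by rw [hbc]
          _ = c * b⁻¹ := by group
      calc c⁻¹ * (b * u * b⁻¹) * c = (c⁻¹ * b) * u * (b⁻¹ * c) := by group
        _ = (b * c⁻¹) * u * (c * b⁻¹) := by rw [hbc', hbc'']
        _ = b * (c⁻¹ * u * c) * b⁻¹ := by group
    rw [e]; exact h1
  · intro a ha ha1 x hx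
    obtain ⟨hx1, hx2⟩ := Subgroup.mem_inf.mp hx
    rw [map_conj_mem] at hx1
    have hca : c ∈ θ a := mem_sigInf.mp hc a ha ha1
    have hac : a * c = c * a := mem_centralizer_iff.mp hcA a ha
    have hxa : a * x = x * a := mem_centralizer_iff.mp hx2 a rfl
    have h1 : c⁻¹ * x * c ∈ θ a := by
      apply hXθ a ha ha1
      refine Subgroup.mem_inf.mpr ⟨hx1, ?_⟩
      rw [mem_centralizer_iff]
      intro y hy
      rw [Set.mem_singleton_iff] at hy
      subst hy
      have hyc' : c⁻¹ * y = y * c⁻¹ := by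
        calc c⁻¹ * y = c⁻¹ * (y * c) * c⁻¹ := by group
          _ = c⁻¹ * (c * y) * c⁻¹ := by rw [hac]
          _ = y * c⁻¹ := by group
      calc y * (c⁻¹ * x * c) = (y * c⁻¹) * x * c := by group
        _ = (c⁻¹ * y) * x * c := by rw [hyc']
        _ = c⁻¹ * (y * x) * c := by group
        _ = c⁻¹ * (x * y) * c := by rw [hxa]
        _ = c⁻¹ * x * (y * c) := by group
        _ = c⁻¹ * x * (c * y) := by rw [hac]
        _ = c⁻¹ * x * c * y := by group
    have : x = c * (c⁻¹ * x * c) * c⁻¹ := by group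
    rw [this]
    exact mul_mem (mul_mem hca h1) (inv_mem hca)

end Fam

end Cfsg.Agent.Lib.helper7
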