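import Mathlib
import Cfsg.Agent.Lib.helper7.Sig

set_option linter.style.haveILetI false
set_option linter.unusedSectionVars false

namespace Cfsg.Agent.Lib.helper7

open Subgroup Cfsg.Agent.Lib.helper8 Cfsg.Agent.Lib.helper9

universe u

/-- S1282. -/
theorem sig_normalizer_step {G : Type u} [Group G] [Finite G] (p : ℕ) [hp : Fact p.Prime]
    (A : Subgroup G) (hA : Cfsg.IsElementaryAbelian p A) (hA3 : p ^ 3 ≤ Nat.card ↥A) (q : ℕ)
    [hq : Fact q.Prime] (hqp : q ≠ p) (Q₁ Q₂ : Subgroup G) (h₁ : IsPGroup q ↥Q₁)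
    (h₂ : IsPGroup q ↥Q₂) (hA₁ : A ≤ Subgroup.normalizer (Q₁ : Set G))
    (hA₂ : A ≤ Subgroup.normalizer (Q₂ : Set G)) (hD₁ : Q₁ ⊓ Q₂ ≠ Q₁) (hD₂ : Q₁ ⊓ Q₂ ≠ Q₂) :
    ∃ a ∈ A, a ≠ 1 ∧
      ¬ (Subgroup.normalizer ((Q₁ ⊓ Q₂ : Subgroup G) : Set G) ⊓ Q₁ ⊓ Subgroup.centralizer {a} ≤
        Q₁ ⊓ Q₂) ∧
      ¬ (Subgroup.normalizer ((Q₁ ⊓ Q₂ : Subgroup G) : Set G) ⊓ Q₂ ⊓ Subgroup.centralizer {a} ≤
        Q₁ ⊓ Q₂) := by
  set D : Subgroup G := Q₁ ⊓ Q₂ with hD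
  haveI := hA.1
  have hAD : A ≤ normalizer (D : Set G) := by
    apply le_normalizer_of_conj_mem
    intro a ha x hx
    exact Subgroup.mem_inf.mpr ⟨conj_mem_of_mem_normalizer (hA₁ ha) (Subgroup.mem_inf.mp hx).1,
      conj_mem_of_mem_normalizer (hA₂ ha) (Subgroup.mem_inf.mp hx).2⟩
  have key : ∀ Q : Subgroup G, IsPGroup q Q → A ≤ normalizer (Q : Set G) → D ≤ Q → D ≠ Q →
      ∃ B : Subgroup G, B ≤ A ∧ (∃ a ∈ A, B ⊔ zpowers a = A) ∧
        ¬ (normalizer (D : Set G) ⊓ Q ⊓ centralizer (B : Set G) ≤ D) := by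
    intro Q hQ hAQ hDQ hne
    by_contra hcon
    simp only [not_exists, not_and, not_not] at hcon
    have hAN : A ≤ normalizer ((normalizer (D : Set G) ⊓ Q : Subgroup G) : Set G) := by
      apply le_normalizer_of_conj_mem
      intro a ha x hx
      exact Subgroup.mem_inf.mpr
        ⟨mul_mem (mul_mem (hAD ha) (Subgroup.mem_inf.mp hx).1) (inv_mem (hAD ha)),
          conj_mem_of_mem_normalizer (hAQ ha) (Subgroup.mem_inf.mp hx).2⟩
    have hcop : (Nat.card A).Coprime (Nat.card (normalizer (D : Set G) ⊓ Q : Subgroup G)) := by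
      obtain ⟨k, hk⟩ := IsPGroup.iff_card.mp (ea_isPGroup hA)
      obtain ⟨j, hj⟩ := IsPGroup.iff_card.mp (hQ.to_le (inf_le_right : normalizer (D : Set G) ⊓ Q ≤ Q))
      rw [hk, hj]
      exact Nat.Coprime.pow _ _ ((Nat.coprime_primes hp.out hq.out).mpr hqp.symm)
    have h1 := gen_main A (normalizer (D : Set G) ⊓ Q) hAN hcop D
      (fun B hB hc => hcon B hB hc)
    obtain ⟨s, hsQ, hsN, hsD⟩ := normalizer_grows (p := q) hQ (lt_of_le_of_ne hDQ hne)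
    exact hsD (h1 (Subgroup.mem_inf.mpr ⟨hsN, hsQ⟩))
  obtain ⟨B₁, hB₁, ⟨a₁, ha₁, hBa₁⟩, hn₁⟩ := key Q₁ h₁ hA₁ inf_le_left hD₁
  obtain ⟨B₂, hB₂, ⟨a₂, ha₂, hBa₂⟩, hn₂⟩ := key Q₂ h₂ hA₂ inf_le_right hD₂
  have hr₁ : B₁.relIndex A ≤ p := Nat.le_of_dvd hp.out.pos
    (relIndex_dvd_of_card_dvd hB₁ (ea_card_dvd hA hB₁ ha₁ hBa₁))
  have hr₂ : B₂.relIndex A ≤ p := Nat.le_of_dvd hp.out.pos
    (relIndex_dvd_of_card_dvd hB₂ (ea_card_dvd hA hB₂ ha₂ hBa₂))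
  have hr : (B₁ ⊓ B₂).relIndex A ≤ p * p :=
    (Subgroup.relIndex_inf_le).trans (Nat.mul_le_mul hr₁ hr₂)
  have hne : B₁ ⊓ B₂ ≠ ⊥ := by
    intro h
    have h1 : Nat.card (B₁ ⊓ B₂ : Subgroup G) * (B₁ ⊓ B₂).relIndex A = Nat.card A :=
      card_mul_relIndex_of_le (inf_le_left.trans hB₁)
    rw [h, Subgroup.card_bot, one_mul] at h1
    rw [h] at hr
    have h2 : p * p < p ^ 3 := by
      have := hp.out.one_lt
      calc p * p = p * p * 1 := by ring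
        _ < p * p * p := Nat.mul_lt_mul_of_pos_left this (Nat.mul_pos hp.out.pos hp.out.pos)
        _ = p ^ 3 := by ring
    omega
  obtain ⟨a, ha, ha1⟩ : ∃ a ∈ B₁ ⊓ B₂, a ≠ 1 := by
    by_contra hcon
    simp only [not_exists, not_and, not_not] at hcon
    exact hne ((Subgroup.eq_bot_iff_forall _).mpr hcon)
  refine ⟨a, hB₁ (Subgroup.mem_inf.mp ha).1, ha1, ?_, ?_⟩
  · intro h
    exact hn₁ (le_trans (inf_le_inf_left _ (Subgroup.centralizer_le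
      (Set.singleton_subset_iff.mpr (Subgroup.mem_inf.mp ha).1))) h)
  · intro h
    exact hn₂ (le_trans (inf_le_inf_left _ (Subgroup.centralizer_le
      (Set.singleton_subset_iff.mpr (Subgroup.mem_inf.mp ha).2))) h)

end Cfsg.Agent.Lib.helper7
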