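import Mathlib
import Cfsg.Agent.Lib.helper7.Sig2

set_option linter.style.haveILetI false
set_option linter.unusedSectionVars false

namespace Cfsg.Agent.Lib.helper7

open Subgroup Cfsg.Agent.Lib.helper8 Cfsg.Agent.Lib.helper9

universe u

section

variable {G : Type u} [Group G] [Finite G]

theorem map_conj_mul (X : Subgroup G) (c d : G) :
    (X.map (MulAut.conj d).toMonoidHom).map (MulAut.conj c).toMonoidHom =
      X.map (MulAut.conj (c * d)).toMonoidHom := by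
  ext x
  rw [map_conj_mem, map_conj_mem, map_conj_mem]
  have : d⁻¹ * (c⁻¹ * x * c) * d = (c * d)⁻¹ * x * (c * d) := by group
  rw [this]

theorem map_conj_one (X : Subgroup G) : X.map (MulAut.conj (1 : G)).toMonoidHom = X := by
  ext x
  rw [map_conj_mem]
  simp

theorem map_conj_inv_cancel (X : Subgroup G) (c : G) :
    (X.map (MulAut.conj c).toMonoidHom).map (MulAut.conj c⁻¹).toMonoidHom = X := by
  rw [map_conj_mul, inv_mul_cancel, map_conj_one]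

theorem le_normalizer_sup {A X Y : Subgroup G} (hX : A ≤ normalizer (X : Set G))
    (hY : A ≤ normalizer (Y : Set G)) : A ≤ normalizer ((X ⊔ Y : Subgroup G) : Set G) := by
  apply le_normalizer_of_conj_mem
  intro a ha u hu
  have h1 : (X ⊔ Y).map (MulAut.conj a).toMonoidHom ≤ X ⊔ Y := by
    rw [Subgroup.map_sup]
    apply sup_le_sup
    · rintro _ ⟨x, hx, rfl⟩; exact conj_mem_of_mem_normalizer (hX ha) hx
    · rintro _ ⟨x, hx, rfl⟩; exact conj_mem_of_mem_normalizer (hY ha) hx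
  exact h1 ⟨u, hu, rfl⟩

theorem le_normalizer_inf {A X Y : Subgroup G} (hX : A ≤ normalizer (X : Set G))
    (hY : A ≤ normalizer (Y : Set G)) : A ≤ normalizer ((X ⊓ Y : Subgroup G) : Set G) := by
  apply le_normalizer_of_conj_mem
  intro a ha u hu
  exact Subgroup.mem_inf.mpr ⟨conj_mem_of_mem_normalizer (hX ha) (Subgroup.mem_inf.mp hu).1,
    conj_mem_of_mem_normalizer (hY ha) (Subgroup.mem_inf.mp hu).2⟩

theorem le_normalizer_of_le {A X : Subgroup G} (h : A ≤ X) : A ≤ normalizer (X : Set G) :=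
  h.trans Subgroup.le_normalizer

end

/-- Maximal `q`-members of the family of a signalizer functor. -/
def IsMaxQ {G : Type u} [Group G] (p : ℕ) (A : Subgroup G) (θ : G → Subgroup G) (q : ℕ)
    (Q : Subgroup G) : Prop :=
  Q ∈ Cfsg.signalizerFamily p A θ ∧ IsPGroup q Q ∧
    ∀ R ∈ Cfsg.signalizerFamily p A θ, IsPGroup q R → Q ≤ R → R = Q

section Trans

variable {G : Type u} [Group G] [Finite G] {p : ℕ} [hp : Fact p.Prime] {A : Subgroup G}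
  {θ : G → Subgroup G} {q : ℕ}

theorem exists_maxQ_ge {S : Subgroup G} (hS : S ∈ Cfsg.signalizerFamily p A θ)
    (hSq : IsPGroup q S) : ∃ Q, IsMaxQ p A θ q Q ∧ S ≤ Q := by
  let 𝒮 : Set (Subgroup G) := {R | R ∈ Cfsg.signalizerFamily p A θ ∧ IsPGroup q R ∧ S ≤ R}
  have hne : Nonempty 𝒮 := ⟨⟨S, hS, hSq, le_rfl⟩⟩
  obtain ⟨R₀, hR₀⟩ := Finite.exists_max (fun R : 𝒮 => Nat.card (R : Subgroup G))
  refine ⟨R₀.1, ⟨R₀.2.1, R₀.2.2.1, ?_⟩, R₀.2.2.2⟩
  intro R hR hRq hle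
  have h1 := hR₀ ⟨R, hR, hRq, R₀.2.2.2.trans hle⟩
  exact (Subgroup.eq_of_le_of_card_ge hle h1).symm

theorem maxQ_conj (hθ : Cfsg.IsSignalizerFunctor p A θ) {Q : Subgroup G}
    (hQ : IsMaxQ p A θ q Q) {c : G} (hc : c ∈ Cfsg.signalizerInf A θ) :
    IsMaxQ p A θ q (Q.map (MulAut.conj c).toMonoidHom) := by
  refine ⟨fam_conj hθ hQ.1 hc, hQ.2.1.map _, ?_⟩
  intro R hR hRq hle
  have h1 : R.map (MulAut.conj c⁻¹).toMonoidHom = Q := by
    apply hQ.2.2 _ (fam_conj hθ hR (inv_mem hc)) (hRq.map _)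
    rw [← map_conj_inv_cancel Q c]
    exact Subgroup.map_mono hle
  rw [← h1, map_conj_mul, mul_inv_cancel, map_conj_one]

theorem transitivity_aux (hA : Cfsg.IsElementaryAbelian p A) (hA3 : p ^ 3 ≤ Nat.card ↥A)
    (hθ : Cfsg.IsSolvableSignalizerFunctor p A θ) [hq : Fact q.Prime] :
    ∀ n : ℕ, ∀ Q₁ Q₂ : Subgroup G, IsMaxQ p A θ q Q₁ → IsMaxQ p A θ q Q₂ →
      Nat.card G - Nat.card (Q₁ ⊓ Q₂ : Subgroup G) = n →
      ∃ c ∈ Cfsg.signalizerInf A θ, Q₁.map (MulAut.conj c).toMonoidHom = Q₂ := by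
  intro n
  induction n using Nat.strong_induction_on with
  | _ n ih =>
  intro Q₁ Q₂ hQ₁ hQ₂ hn
  by_cases hD₁ : Q₁ ⊓ Q₂ = Q₁
  · have h1 : Q₂ = Q₁ := hQ₁.2.2 Q₂ hQ₂.1 hQ₂.2.1 (inf_eq_left.mp hD₁)
    exact ⟨1, one_mem _, by rw [map_conj_one, h1]⟩
  by_cases hD₂ : Q₁ ⊓ Q₂ = Q₂
  · have h1 : Q₁ = Q₂ := hQ₂.2.2 Q₁ hQ₁.1 hQ₁.2.1 (inf_eq_right.mp hD₂)
    exact ⟨1, one_mem _, by rw [map_conj_one, h1]⟩
  have hqp : q ≠ p := by
    intro h
    subst h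
    obtain ⟨k, hk⟩ := IsPGroup.iff_card.mp hQ₁.2.1
    have hk0 : k = 0 := by
      by_contra hk0
      exact hQ₁.1.2.1 (hk ▸ dvd_pow_self q hk0)
    rw [hk0, pow_zero] at hk
    have : Q₁ = ⊥ := (Subgroup.card_eq_one).mp hk
    apply hD₁
    rw [this, bot_inf_eq]
  obtain ⟨a, ha, ha1, hn₁, hn₂⟩ := sig_normalizer_step p A hA hA3 q hqp Q₁ Q₂ hQ₁.2.1 hQ₂.2.1
    (fam_le_normalizer hQ₁.1) (fam_le_normalizer hQ₂.1) hD₁ hD₂
  set D : Subgroup G := Q₁ ⊓ Q₂ with hD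
  have hAD : A ≤ normalizer (D : Set G) :=
    le_normalizer_inf (fam_le_normalizer hQ₁.1) (fam_le_normalizer hQ₂.1)
  have hAND : A ≤ normalizer ((normalizer (D : Set G) : Subgroup G) : Set G) :=
    le_normalizer_of_le hAD
  have hDfam : D ∈ Cfsg.signalizerFamily p A θ := fam_of_le hQ₁.1 inf_le_left hAD
  have hθa := theta_mem_fam hθ ha ha1
  set H : Subgroup G := normalizer (D : Set G) ⊓ θ a with hH
  have hAH : A ≤ normalizer (H : Set G) := le_normalizer_inf hAND (fam_le_normalizer hθa)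
  have hHfam : H ∈ Cfsg.signalizerFamily p A θ := fam_of_le hθa inf_le_right hAH
  set K : Subgroup G := D ⊔ H with hK
  have hKfam : K ∈ Cfsg.signalizerFamily p A θ :=
    Cfsg.Agent.S1280.aux p A hA θ D H hDfam hHfam inf_le_left
  have hAK := fam_le_normalizer hKfam
  have hcop := ea_coprime hA hKfam.2.1
  have hAca : A ≤ normalizer ((centralizer ({a} : Set G) : Subgroup G) : Set G) := by
    apply le_normalizer_of_le
    intro b hb
    rw [mem_centralizer_iff]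
    intro y hy
    rw [Set.mem_singleton_iff] at hy
    subst hy
    exact ea_comm hA y ha b hb
  -- the two sides
  have side : ∀ Q : Subgroup G, IsMaxQ p A θ q Q → D ≤ Q →
      ¬ (normalizer (D : Set G) ⊓ Q ⊓ centralizer {a} ≤ D) →
      ∃ P : Sylow q K, A ≤ normalizer ((P : Subgroup K).map K.subtype : Set G) ∧
        ∀ Q' : Subgroup G, (P : Subgroup K).map K.subtype ≤ Q' →
          Nat.card D < Nat.card (Q ⊓ Q' : Subgroup G) := by
    intro Q hQ hDQ hnQ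
    set E : Subgroup G := normalizer (D : Set G) ⊓ Q ⊓ centralizer {a} with hE
    have hEH : E ≤ H := by
      refine le_inf (inf_le_left.trans inf_le_left) ?_
      exact (inf_le_inf_right _ inf_le_right).trans (hQ.1.2.2.2 a ha ha1)
    have hEQ : E ≤ Q := inf_le_left.trans inf_le_right
    have hAE : A ≤ normalizer (E : Set G) :=
      le_normalizer_inf (le_normalizer_inf hAND (fam_le_normalizer hQ.1)) hAca
    have hMK : D ⊔ E ≤ K := sup_le_sup_left hEH D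
    have hMQ : D ⊔ E ≤ Q := sup_le hDQ hEQ
    have hMq : IsPGroup q (D ⊔ E : Subgroup G) := hQ.2.1.to_le hMQ
    have hAM : A ≤ normalizer ((D ⊔ E : Subgroup G) : Set G) := le_normalizer_sup hAD hAE
    obtain ⟨P, hP1, hP2⟩ := exists_invariant_sylow_ge (p := q) A K hAK hcop (Or.inr hKfam.1)
      (D ⊔ E) hMK hMq hAM
    refine ⟨P, hP2, ?_⟩
    intro Q' hQ'
    have h1 : D ⊔ E ≤ Q ⊓ Q' := le_inf hMQ (hP1.trans hQ')
    have h2 : Nat.card D < Nat.card (D ⊔ E : Subgroup G) := by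
      by_contra hlt
      have := Subgroup.eq_of_le_of_card_ge (le_sup_left : D ≤ D ⊔ E) (not_lt.mp hlt)
      exact hnQ (this ▸ (le_sup_right : E ≤ D ⊔ E))
    exact lt_of_lt_of_le h2 (Nat.le_of_dvd Nat.card_pos (Subgroup.card_dvd_of_le h1))
  obtain ⟨P₁, hP₁A, hP₁⟩ := side Q₁ hQ₁ inf_le_left hn₁
  obtain ⟨P₂, hP₂A, hP₂⟩ := side Q₂ hQ₂ inf_le_right hn₂
  obtain ⟨c, hc, hcx⟩ := invariant_sylow_conj A K hAK hcop (Or.inr hKfam.1) P₁ P₂ hP₁A hP₂A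
  have hcC : c ∈ Cfsg.signalizerInf A θ := fam_cent_le_sigInf hKfam le_rfl hc
  set S₁ : Subgroup G := (P₁ : Subgroup K).map K.subtype with hS₁
  set S₂ : Subgroup G := (P₂ : Subgroup K).map K.subtype with hS₂
  have hS₁fam : S₁ ∈ Cfsg.signalizerFamily p A θ :=
    fam_of_le hKfam (Subgroup.map_subtype_le _) hP₁A
  have hS₂fam : S₂ ∈ Cfsg.signalizerFamily p A θ :=
    fam_of_le hKfam (Subgroup.map_subtype_le _) hP₂A
  obtain ⟨Q₁', hQ₁', hSQ₁'⟩ := exists_maxQ_ge (q := q) hS₁fam (P₁.2.map _)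
  obtain ⟨Q₂', hQ₂', hSQ₂'⟩ := exists_maxQ_ge (q := q) hS₂fam (P₂.2.map _)
  have hcardG : ∀ X : Subgroup G, Nat.card X ≤ Nat.card G := fun X => Subgroup.card_le_card_group X
  obtain ⟨c₁, hc₁, e₁⟩ := ih (Nat.card G - Nat.card (Q₁ ⊓ Q₁' : Subgroup G))
    (by have := hP₁ Q₁' hSQ₁'; have := hcardG (Q₁ ⊓ Q₁'); omega) Q₁ Q₁' hQ₁ hQ₁' rfl
  obtain ⟨c₂, hc₂, e₂⟩ := ih (Nat.card G - Nat.card (Q₂ ⊓ Q₂' : Subgroup G))
    (by have := hP₂ Q₂' hSQ₂'; have := hcardG (Q₂ ⊓ Q₂'); omega) Q₂ Q₂' hQ₂ hQ₂' rfl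
  have hQ₁'' := maxQ_conj hθ.1 hQ₁' hcC
  have hS₂Q₁'' : S₂ ≤ Q₁'.map (MulAut.conj c).toMonoidHom := by
    intro x hx
    rw [map_conj_mem]
    exact hSQ₁' ((hcx x).mp hx)
  have hlt3 : Nat.card D < Nat.card (Q₁'.map (MulAut.conj c).toMonoidHom ⊓ Q₂' : Subgroup G) := by
    have h1 := hP₂ Q₂' hSQ₂'
    have h2 : S₂ ≤ Q₁'.map (MulAut.conj c).toMonoidHom ⊓ Q₂' := le_inf hS₂Q₁'' hSQ₂'
    have h3 : Nat.card D < Nat.card S₂ := by
      have := hP₂ S₂ le_rfl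
      exact lt_of_lt_of_le this (Nat.le_of_dvd Nat.card_pos (Subgroup.card_dvd_of_le inf_le_right))
    exact lt_of_lt_of_le h3 (Nat.le_of_dvd Nat.card_pos (Subgroup.card_dvd_of_le h2))
  obtain ⟨c₃, hc₃, e₃⟩ := ih
    (Nat.card G - Nat.card (Q₁'.map (MulAut.conj c).toMonoidHom ⊓ Q₂' : Subgroup G))
    (by have := hcardG (Q₁'.map (MulAut.conj c).toMonoidHom ⊓ Q₂'); omega) _ Q₂' hQ₁'' hQ₂' rfl
  refine ⟨c₂⁻¹ * (c₃ * (c * c₁)), mul_mem (inv_mem hc₂) (mul_mem hc₃ (mul_mem hcC hc₁)), ?_⟩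
  rw [← map_conj_mul, ← map_conj_mul, ← map_conj_mul, e₁, e₃, ← e₂, map_conj_inv_cancel]

/-- The transitivity theorem (S1283). -/
theorem transitivity (hA : Cfsg.IsElementaryAbelian p A) (hA3 : p ^ 3 ≤ Nat.card ↥A)
    (hθ : Cfsg.IsSolvableSignalizerFunctor p A θ) [hq : Fact q.Prime] {Q₁ Q₂ : Subgroup G}
    (h₁ : IsMaxQ p A θ q Q₁) (h₂ : IsMaxQ p A θ q Q₂) :
    ∃ c ∈ Cfsg.signalizerInf A θ, Q₁.map (MulAut.conj c).toMonoidHom = Q₂ :=
  transitivity_aux hA hA3 hθ _ Q₁ Q₂ h₁ h₂ rfl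

end Trans

end Cfsg.Agent.Lib.helper7
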