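import Mathlib
import Cfsg.Agent.Lib.helper7.Sig3

set_option linter.style.haveILetI false
set_option linter.unusedSectionVars false

namespace Cfsg.Agent.Lib.helper7

open Subgroup Cfsg.Agent.Lib.helper8 Cfsg.Agent.Lib.helper9

universe u

section

variable {G : Type u} [Group G] [Finite G] {p : ℕ} [hp : Fact p.Prime] {A : Subgroup G}
  {θ : G → Subgroup G} {q : ℕ} [hq : Fact q.Prime]

theorem sylow_map_eq_of_le {H : Subgroup G} (P : Sylow q H) {R : Subgroup G}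
    (hRq : IsPGroup q R) (hRH : R ≤ H) (hle : (P : Subgroup H).map H.subtype ≤ R) :
    (P : Subgroup H).map H.subtype = R := by
  apply le_antisymm hle
  have h1 : IsPGroup q (R.subgroupOf H) := hRq.comap_subtype
  have h2 : (P : Subgroup H) ≤ R.subgroupOf H := by
    intro x hx
    rw [mem_subgroupOf]
    exact hle ⟨x, hx, rfl⟩
  have h3 := P.is_maximal' h1 h2
  intro r hr
  have h4 : (⟨r, hRH hr⟩ : H) ∈ R.subgroupOf H := by
    rw [mem_subgroupOf]; exact hr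
  rw [h3] at h4
  exact ⟨⟨r, hRH hr⟩, h4, rfl⟩

theorem bot_mem_fam : (⊥ : Subgroup G) ∈ Cfsg.signalizerFamily p A θ := by
  refine ⟨inferInstance, ?_, ?_, ?_⟩
  · rw [Subgroup.card_bot]; exact hp.out.not_dvd_one
  · intro b hb u hu
    rw [Subgroup.mem_bot] at hu ⊢
    rw [hu]; group
  · intro a ha ha1
    exact inf_le_left.trans bot_le

/-- S1284 (a). -/
theorem maxQ_sylow_in_member (hA : Cfsg.IsElementaryAbelian p A) (hA3 : p ^ 3 ≤ Nat.card ↥A)
    (hθ : Cfsg.IsSolvableSignalizerFunctor p A θ) {Q : Subgroup G} (hQ : IsMaxQ p A θ q Q)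
    {H : Subgroup G} (hH : H ∈ Cfsg.signalizerFamily p A θ) :
    ∃ c ∈ Cfsg.signalizerInf A θ, ∃ S : Sylow q ↥H,
      (S : Subgroup ↥H).map H.subtype = Q.map (MulAut.conj c).toMonoidHom ⊓ H := by
  obtain ⟨P, hP⟩ := exists_invariant_sylow (p := q) A H (fam_le_normalizer hH)
    (ea_coprime hA hH.2.1) (Or.inr hH.1)
  have hSfam : (P : Subgroup H).map H.subtype ∈ Cfsg.signalizerFamily p A θ :=
    fam_of_le hH (Subgroup.map_subtype_le _) hP
  obtain ⟨Q', hQ', hSQ'⟩ := exists_maxQ_ge (q := q) hSfam (P.2.map _)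
  obtain ⟨c, hc, e⟩ := transitivity hA hA3 hθ hQ hQ'
  refine ⟨c, hc, P, ?_⟩
  rw [e]
  exact sylow_map_eq_of_le P (hQ'.2.1.to_le inf_le_left) inf_le_right
    (le_inf hSQ' (Subgroup.map_subtype_le _))

/-- S1284 (b). -/
theorem maxQ_cent_sylow (hA : Cfsg.IsElementaryAbelian p A) (hA3 : p ^ 3 ≤ Nat.card ↥A)
    (hθ : Cfsg.IsSolvableSignalizerFunctor p A θ) {Q : Subgroup G} (hQ : IsMaxQ p A θ q Q)
    {B : Subgroup G} (hB : B ≤ A) (hB1 : B ≠ ⊥) :
    ∃ S : Sylow q ↥(Cfsg.signalizerInf B θ),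
      (S : Subgroup ↥(Cfsg.signalizerInf B θ)).map (Cfsg.signalizerInf B θ).subtype =
        Q ⊓ Subgroup.centralizer (B : Set G) := by
  set Hb := Cfsg.signalizerInf B θ with hHb
  have hHbfam : Hb ∈ Cfsg.signalizerFamily p A θ := sigInf_mem_fam hA hθ hB hB1
  obtain ⟨c, hc, S, hS⟩ := maxQ_sylow_in_member hA hA3 hθ hQ hHbfam
  have hcHb : c ∈ Hb := sigInf_mono hB hc
  have e1 : Q ⊓ centralizer (B : Set G) = Q ⊓ Hb := by
    apply le_antisymm
    · exact le_inf inf_le_left (fam_cent_le_sigInf hQ.1 hB)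
    · exact inf_le_inf_left _ (sigInf_le_centralizer hθ.1 B hB)
  have e2 : (Q.map (MulAut.conj c).toMonoidHom ⊓ Hb).map (MulAut.conj c⁻¹).toMonoidHom =
      Q ⊓ Hb := by
    ext x
    rw [map_conj_mem, Subgroup.mem_inf, Subgroup.mem_inf, map_conj_mem]
    have e3 : c⁻¹ * (c⁻¹⁻¹ * x * c⁻¹) * c = x := by group
    rw [e3]
    constructor
    · rintro ⟨h1, h2⟩
      refine ⟨h1, ?_⟩
      have := mul_mem (mul_mem (inv_mem hcHb) h2) hcHb
      have e4 : c⁻¹ * (c⁻¹⁻¹ * x * c⁻¹) * c = x := by group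
      rwa [e4] at this
    · rintro ⟨h1, h2⟩
      exact ⟨h1, mul_mem (mul_mem (by simpa using hcHb) h2) (inv_mem hcHb)⟩
  rw [e1]
  apply exists_sylow_map_eq (inf_le_right : Q ⊓ Hb ≤ Hb)
  rw [← e2, Subgroup.card_map_of_injective (MulAut.conj c⁻¹).injective, ← hS]
  exact card_sylow_map Hb S

/-- S1285. -/
theorem complete_of_single_prime (hA : Cfsg.IsElementaryAbelian p A)
    (hA3 : p ^ 3 ≤ Nat.card ↥A) (hθ : Cfsg.IsSolvableSignalizerFunctor p A θ)
    (hq' : ∀ a ∈ A, a ≠ 1 → IsPGroup q ↥(θ a)) : Cfsg.IsCompleteSignalizerFunctor p A θ := by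
  refine ⟨hθ.1, ?_⟩
  obtain ⟨Q, hQ, -⟩ := exists_maxQ_ge (p := p) (A := A) (θ := θ) (q := q) bot_mem_fam
    (IsPGroup.of_bot)
  have key : ∀ a ∈ A, a ≠ 1 → θ a ≤ Q := by
    intro a ha ha1
    obtain ⟨Qa, hQa, hle⟩ := exists_maxQ_ge (q := q) (theta_mem_fam hθ ha ha1) (hq' a ha ha1)
    obtain ⟨c, hc, e⟩ := transitivity hA hA3 hθ hQ hQa
    have hcQa : c ∈ Qa := hle (mem_sigInf.mp hc a ha ha1)
    have hcQ : c ∈ Q := by
      rw [← e, map_conj_mem] at hcQa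
      have e2 : c⁻¹ * c * c = c := by group
      rwa [e2] at hcQa
    have e3 : Q.map (MulAut.conj c).toMonoidHom = Q := by
      ext x
      rw [map_conj_mem]
      constructor
      · intro h
        have := mul_mem (mul_mem hcQ h) (inv_mem hcQ)
        have e4 : c * (c⁻¹ * x * c) * c⁻¹ = x := by group
        rwa [e4] at this
      · intro h
        exact mul_mem (mul_mem (inv_mem hcQ) h) hcQ
    rw [← e3, e]; exact hle
  refine ⟨Q, hQ.1.2.2.1, hQ.1.2.1, ?_⟩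
  intro a ha ha1
  apply le_antisymm (hQ.1.2.2.2 a ha ha1)
  exact le_inf (key a ha ha1) (hθ.1.1 a ha ha1)

end

end Cfsg.Agent.Lib.helper7
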