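import Mathlib
import Cfsg.Agent.Lib.helper7.Sig4

set_option linter.style.haveILetI false
set_option linter.unusedSectionVars false

namespace Cfsg.Agent.Lib.helper7

open Subgroup Cfsg.Agent.Lib.helper8 Cfsg.Agent.Lib.helper9

open scoped Pointwise

universe u

section

variable {G : Type u} [Group G] [Finite G] {p : ℕ} [hp : Fact p.Prime]

/-- `|XY| |X ∩ Y| = |X| |Y|` for the product set of two subgroups. -/
theorem card_mul_set (X Y : Subgroup G) :
    Nat.card ((X : Set G) * (Y : Set G) : Set G) * Nat.card (X ⊓ Y : Subgroup G) =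
      Nat.card X * Nat.card Y := by
  classical
  rw [← Nat.card_prod, ← Nat.card_prod]
  have hch : ∀ k : ((X : Set G) * (Y : Set G) : Set G), ∃ x ∈ X, ∃ y ∈ Y, x * y = (k : G) := by
    intro k
    obtain ⟨x, hx, y, hy, h⟩ := Set.mem_mul.mp k.2
    exact ⟨x, hx, y, hy, h⟩
  choose cx hcx cy hcy hcxy using hch
  let f : ((X : Set G) * (Y : Set G) : Set G) × (X ⊓ Y : Subgroup G) → X × Y := fun kz =>
    (⟨cx kz.1 * kz.2.1, X.mul_mem (hcx kz.1) (Subgroup.mem_inf.mp kz.2.2).1⟩,
     ⟨(kz.2.1)⁻¹ * cy kz.1, Y.mul_mem (Y.inv_mem (Subgroup.mem_inf.mp kz.2.2).2) (hcy kz.1)⟩)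
  apply Nat.card_congr
  refine Equiv.ofBijective f ⟨?_, ?_⟩
  · rintro ⟨k, z⟩ ⟨k', z'⟩ h
    have h1 : cx k * z.1 = cx k' * z'.1 := congrArg (fun t => (t.1 : G)) h
    have h2 : (z.1)⁻¹ * cy k = (z'.1)⁻¹ * cy k' := congrArg (fun t => (t.2 : G)) h
    have hk : (k : G) = k' := by
      rw [← hcxy k, ← hcxy k']
      calc cx k * cy k = (cx k * z.1) * ((z.1)⁻¹ * cy k) := by group
        _ = (cx k' * z'.1) * ((z'.1)⁻¹ * cy k') := by rw [h1, h2]
        _ = cx k' * cy k' := by group
    have hk' : k = k' := Subtype.ext hk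
    subst hk'
    have hz : (z : G) = z' := mul_left_cancel h1
    rw [Subtype.ext hz]
  · rintro ⟨x, y⟩
    have hk : (x : G) * y ∈ (X : Set G) * (Y : Set G) := Set.mul_mem_mul x.2 y.2
    have hkk := hcxy ⟨(x : G) * y, hk⟩
    have e : (cx ⟨(x : G) * y, hk⟩)⁻¹ * x = cy ⟨(x : G) * y, hk⟩ * (y : G)⁻¹ := by
      rw [inv_mul_eq_iff_eq_mul, ← mul_assoc, hkk]; group
    have hz : (cx ⟨(x : G) * y, hk⟩)⁻¹ * x ∈ X ⊓ Y := by
      refine Subgroup.mem_inf.mpr ⟨X.mul_mem (X.inv_mem (hcx _)) x.2, ?_⟩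
      rw [e]
      exact Y.mul_mem (hcy _) (Y.inv_mem y.2)
    refine ⟨(⟨(x : G) * y, hk⟩, ⟨(cx ⟨(x : G) * y, hk⟩)⁻¹ * x, hz⟩), ?_⟩
    apply Prod.ext
    · apply Subtype.ext
      show cx ⟨(x : G) * y, hk⟩ * ((cx ⟨(x : G) * y, hk⟩)⁻¹ * x) = x
      group
    · apply Subtype.ext
      show ((cx ⟨(x : G) * y, hk⟩)⁻¹ * x)⁻¹ * cy ⟨(x : G) * y, hk⟩ = y
      rw [e]; group

/-- The finset of subgroups of order `p` of `A`. -/
noncomputable def ordP (p : ℕ) (A : Subgroup G) : Finset (Subgroup G) :=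
  (Set.toFinite {B : Subgroup G | B ≤ A ∧ Nat.card B = p}).toFinset

theorem mem_ordP {A B : Subgroup G} : B ∈ ordP p A ↔ B ≤ A ∧ Nat.card B = p := by
  simp [ordP]

/-- Generation by centralizers of non-identity elements of a noncyclic elementary abelian group. -/
theorem gen_ne_one {A K : Subgroup G} (hA : Cfsg.IsElementaryAbelian p A)
    (hA2 : p ^ 2 ≤ Nat.card A) (hAK : A ≤ normalizer (K : Set G)) (hK : ¬ p ∣ Nat.card K)
    (T : Subgroup G) (hT : ∀ a ∈ A, a ≠ 1 → K ⊓ centralizer ({a} : Set G) ≤ T) : K ≤ T := by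
  haveI := hA.1
  apply gen_main A K hAK (ea_coprime hA hK) T
  intro B hB ⟨a, ha, hBa⟩
  have hB1 : B ≠ ⊥ := by
    intro h
    rw [h, bot_sup_eq] at hBa
    have h1 : Nat.card A = orderOf a := by rw [← hBa, Nat.card_zpowers]
    have h2 : orderOf a ∣ p := orderOf_dvd_of_pow_eq_one (hA.2 a ha)
    have h3 : orderOf a ≤ p := Nat.le_of_dvd hp.out.pos h2
    have h4 : p < p ^ 2 := by
      have := hp.out.one_lt
      nlinarith
    omega
  obtain ⟨b, hb, hb1⟩ := (Subgroup.ne_bot_iff_exists_ne_one (H := B)).mp hB1 |> fun ⟨x, hx⟩ =>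
    (⟨x.1, x.2, fun h => hx (Subtype.ext h)⟩ : ∃ b ∈ B, b ≠ 1)
  exact (inf_le_inf_left K (Subgroup.centralizer_le (Set.singleton_subset_iff.mpr hb))).trans
    (hT b (hB hb) hb1)


theorem commutator_lt_of_isPGroup {q : ℕ} [Fact q.Prime] {K : Subgroup G} (hK : IsPGroup q K)
    (hK1 : K ≠ ⊥) : ⁅K, K⁆ < K := by
  haveI : Group.IsNilpotent K := hK.isNilpotent
  haveI : Nontrivial K := (Subgroup.nontrivial_iff_ne_bot K).mpr hK1
  have h1 : commutator K < ⊤ := IsSolvable.commutator_lt_top_of_nontrivial K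
  have h2 : ⁅K, K⁆ = (commutator K).map K.subtype := by
    rw [commutator_def, Subgroup.map_commutator, ← MonoidHom.range_eq_map, Subgroup.range_subtype]
  rw [h2]
  refine lt_of_le_of_ne (Subgroup.map_subtype_le _) ?_
  intro h
  apply h1.ne
  rw [eq_top_iff]
  intro x _
  have hx : (x : G) ∈ (commutator K).map K.subtype := by rw [h]; exact x.2
  obtain ⟨y, hy, hyx⟩ := hx
  have : y = x := Subtype.ext hyx
  rwa [this] at hy

theorem comm_le_normalizer_centralizer {A : Subgroup G} (hA : ∀ a ∈ A, ∀ b ∈ A, a * b = b * a)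
    {S : Set G} (hS : S ⊆ A) : A ≤ normalizer ((centralizer S : Subgroup G) : Set G) := by
  apply le_normalizer_of_conj_mem
  intro a ha x hx
  rw [mem_centralizer_iff] at hx ⊢
  intro s hs
  have hsa : Commute s a := (hA a ha s (hS hs)).symm
  have hsx : Commute s x := hx s hs
  exact ((hsa.mul_right hsx).mul_right hsa.inv_right)

/-- The stabilizer of the coset `N k` among the elements normalizing `N`. -/
def cosetStab (N : Subgroup G) (k : G) : Subgroup G where
  carrier := {g | g ∈ normalizer (N : Set G) ∧ k * g * k⁻¹ * g⁻¹ ∈ N}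
  one_mem' := ⟨Subgroup.one_mem _, by simp⟩
  mul_mem' := by
    rintro g h ⟨hg, hg2⟩ ⟨hh, hh2⟩
    refine ⟨Subgroup.mul_mem _ hg hh, ?_⟩
    have e : k * (g * h) * k⁻¹ * (g * h)⁻¹ =
        (k * g * k⁻¹ * g⁻¹) * (g * (k * h * k⁻¹ * h⁻¹) * g⁻¹) := by group
    rw [e]
    exact N.mul_mem hg2 (conj_mem_of_mem_normalizer hg hh2)
  inv_mem' := by
    rintro g ⟨hg, hg2⟩
    refine ⟨Subgroup.inv_mem _ hg, ?_⟩
    have e : k * g⁻¹ * k⁻¹ * g⁻¹⁻¹ = g⁻¹ * (k * g * k⁻¹ * g⁻¹)⁻¹ * g := by group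
    rw [e]
    exact conj_mem_of_mem_normalizer' hg (N.inv_mem hg2)

theorem mem_cosetStab {N : Subgroup G} {k g : G} :
    g ∈ cosetStab N k ↔ g ∈ normalizer (N : Set G) ∧ k * g * k⁻¹ * g⁻¹ ∈ N := Iff.rfl

theorem sup_eq_of_ordP {A B C : Subgroup G} (hA : Cfsg.IsElementaryAbelian p A)
    (hAcard : Nat.card A = p ^ 2) (hB : B ∈ ordP p A) (hC : C ∈ ordP p A) (hne : B ≠ C) :
    B ⊔ C = A := by
  obtain ⟨hBA, hBc⟩ := mem_ordP.mp hB
  obtain ⟨hCA, hCc⟩ := mem_ordP.mp hC
  have hinf : B ⊓ C = ⊥ := by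
    have h1 : Nat.card (B ⊓ C : Subgroup G) ∣ p := hBc ▸ Subgroup.card_dvd_of_le inf_le_left
    rcases (Nat.dvd_prime hp.out).mp h1 with h | h
    · exact Subgroup.eq_bot_of_card_eq _ h
    · exfalso
      have e1 : B ⊓ C = B := Subgroup.eq_of_le_of_card_ge inf_le_left (by rw [h, hBc])
      have e2 : B ⊓ C = C := Subgroup.eq_of_le_of_card_ge inf_le_right (by rw [h, hCc])
      exact hne (e1.symm.trans e2)
  have hAn : A ≤ normalizer (B : Set G) := by
    apply le_normalizer_of_conj_mem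
    intro a ha x hx
    have : a * x = x * a := ea_comm hA a ha x (hBA hx)
    rw [this, mul_inv_cancel_right]; exact hx
  have h := card_mul_card_inf_of_mul (B ⊔ C) B C le_sup_left le_sup_right
    ((sup_le hBA hCA).trans hAn)
    (fun k hk => (mem_sup_iff_of_le_normalizer (hCA.trans hAn) k).mp hk)
  rw [hinf, Subgroup.card_bot, mul_one, hBc, hCc] at h
  apply Subgroup.eq_of_le_of_card_ge (sup_le hBA hCA)
  rw [hAcard, h, sq]

theorem wielandt_step {A N K : Subgroup G} (hA : Cfsg.IsElementaryAbelian p A)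
    (hAcard : Nat.card A = p ^ 2) (hNK : N ≤ K) (hKN : K ≤ normalizer (N : Set G))
    (hAN : A ≤ normalizer (N : Set G)) (hK : ¬ p ∣ Nat.card K) {a : G} (ha : a ∈ A) (ha1 : a ≠ 1)
    (hfac : ∀ k ∈ K, ∃ w ∈ N, ∃ c ∈ K ⊓ centralizer ({a} : Set G), k = w * c)
    (hN : ∏ B ∈ ordP p A, Nat.card ↥(N ⊓ centralizer (B : Set G)) =
      Nat.card N * Nat.card ↥(N ⊓ centralizer (A : Set G)) ^ ((ordP p A).card - 1)) :
    ∏ B ∈ ordP p A, Nat.card ↥(K ⊓ centralizer (B : Set G)) =
      Nat.card K * Nat.card ↥(K ⊓ centralizer (A : Set G)) ^ ((ordP p A).card - 1) := by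
  classical
  have hBjA : zpowers a ≤ A := by rw [zpowers_le]; exact ha
  have hBjcard : Nat.card (zpowers a) = p := by
    rw [Nat.card_zpowers]
    have h2 : orderOf a ∣ p := orderOf_dvd_of_pow_eq_one (hA.2 a ha)
    rcases (Nat.dvd_prime hp.out).mp h2 with h | h
    · exact absurd (orderOf_eq_one_iff.mp h) ha1
    · exact h
  have hBjmem : zpowers a ∈ ordP p A := mem_ordP.mpr ⟨hBjA, hBjcard⟩
  have hcBj : centralizer ((zpowers a : Subgroup G) : Set G) = centralizer ({a} : Set G) :=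
    centralizer_zpowers_eq a
  have hcopN : (Nat.card A).Coprime (Nat.card N) :=
    ea_coprime hA (fun h => hK (h.trans (Subgroup.card_dvd_of_le hNK)))
  haveI := hA.1
  have hsolvA : Group.IsSolvable A := isSolvable_of_isMulCommutative A
  have ha' : Nat.card K * Nat.card ↥(N ⊓ centralizer ((zpowers a : Subgroup G) : Set G)) =
      Nat.card N * Nat.card ↥(K ⊓ centralizer ((zpowers a : Subgroup G) : Set G)) := by
    have h := card_mul_card_inf_of_mul K N (K ⊓ centralizer ((zpowers a : Subgroup G) : Set G))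
      hNK inf_le_left hKN (by rw [hcBj]; exact hfac)
    have e : N ⊓ (K ⊓ centralizer ((zpowers a : Subgroup G) : Set G)) =
        N ⊓ centralizer ((zpowers a : Subgroup G) : Set G) := by
      rw [← inf_assoc, inf_eq_left.mpr hNK]
    rwa [e] at h
  have hb' : ∀ B ∈ (ordP p A).erase (zpowers a), Nat.card ↥(K ⊓ centralizer (B : Set G)) *
      Nat.card ↥(N ⊓ centralizer (A : Set G)) =
      Nat.card ↥(K ⊓ centralizer (A : Set G)) * Nat.card ↥(N ⊓ centralizer (B : Set G)) := by
    intro B hB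
    obtain ⟨hBne, hBmem⟩ := Finset.mem_erase.mp hB
    obtain ⟨hBA, hBcard⟩ := mem_ordP.mp hBmem
    have hsup : B ⊔ zpowers a = A := sup_eq_of_ordP hA hAcard hBmem hBjmem hBne
    have hcAB : centralizer (A : Set G) ≤ centralizer (B : Set G) := Subgroup.centralizer_le hBA
    have h := card_mul_card_inf_of_mul (K ⊓ centralizer (B : Set G))
      (N ⊓ centralizer (B : Set G)) (K ⊓ centralizer (A : Set G)) (inf_le_inf_right _ hNK)
      (inf_le_inf_left _ hcAB)
      (le_normalizer_inf (inf_le_left.trans hKN) (inf_le_right.trans Subgroup.le_normalizer)) (by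
        intro k hk
        obtain ⟨hkK, hkB⟩ := Subgroup.mem_inf.mp hk
        have hstab : A ≤ cosetStab N k := by
          rw [← hsup]
          apply sup_le
          · intro b hb
            refine mem_cosetStab.mpr ⟨hAN (hBA hb), ?_⟩
            have : b * k = k * b := mem_centralizer_iff.mp hkB b hb
            rw [← this, mul_inv_cancel_right, mul_inv_cancel]
            exact N.one_mem
          · rw [zpowers_le]
            refine mem_cosetStab.mpr ⟨hAN ha, ?_⟩
            obtain ⟨w, hw, c, hc, rfl⟩ := hfac k hkK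
            have hca : a * c = c * a := mem_centralizer_iff.mp (Subgroup.mem_inf.mp hc).2 a rfl
            have e : w * c * a * (w * c)⁻¹ * a⁻¹ = w * (a * w⁻¹ * a⁻¹) := by
              rw [mul_assoc w c a, ← hca]; group
            rw [e]
            exact N.mul_mem hw (conj_mem_of_mem_normalizer (hAN ha) (N.inv_mem hw))
        obtain ⟨d, hd, hd2⟩ := coset_fix A N hAN hcopN (Or.inl hsolvA) k⁻¹ (by
          intro a' ha'
          have := (mem_cosetStab.mp (hstab ha')).2
          rwa [inv_inv])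
        have hcA : k⁻¹ * d ∈ centralizer (A : Set G) := by
          rw [mem_centralizer_iff]; exact fun a' ha' => hd2 a' ha'
        refine ⟨d, Subgroup.mem_inf.mpr ⟨hd, ?_⟩, d⁻¹ * k, Subgroup.mem_inf.mpr
          ⟨K.mul_mem (K.inv_mem (hNK hd)) hkK, ?_⟩, by group⟩
        · have e : d = k * (k⁻¹ * d) := by group
          rw [e]
          exact Subgroup.mul_mem _ hkB (hcAB hcA)
        · have e : d⁻¹ * k = (k⁻¹ * d)⁻¹ := by group
          rw [e]
          exact Subgroup.inv_mem _ hcA)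
    have e : N ⊓ centralizer (B : Set G) ⊓ (K ⊓ centralizer (A : Set G)) =
        N ⊓ centralizer (A : Set G) := by
      apply le_antisymm
      · exact le_inf (inf_le_left.trans inf_le_left) (inf_le_right.trans inf_le_right)
      · exact le_inf (le_inf inf_le_left (inf_le_right.trans hcAB))
          (le_inf (inf_le_left.trans hNK) inf_le_right)
    rw [e] at h
    rw [h, mul_comm]
  have hvpos : 0 < Nat.card ↥(N ⊓ centralizer (A : Set G)) := Nat.card_pos
  have hNpos : 0 < Nat.card N := Nat.card_pos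
  have hcard_erase : ((ordP p A).erase (zpowers a)).card = (ordP p A).card - 1 :=
    Finset.card_erase_of_mem hBjmem
  apply Nat.eq_of_mul_eq_mul_left (Nat.mul_pos hNpos (pow_pos hvpos ((ordP p A).card - 1)))
  have h1 : Nat.card ↥(N ⊓ centralizer (A : Set G)) ^ ((ordP p A).card - 1) *
      ∏ B ∈ (ordP p A).erase (zpowers a), Nat.card ↥(K ⊓ centralizer (B : Set G)) =
      Nat.card ↥(K ⊓ centralizer (A : Set G)) ^ ((ordP p A).card - 1) *
      ∏ B ∈ (ordP p A).erase (zpowers a), Nat.card ↥(N ⊓ centralizer (B : Set G)) := by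
    rw [← hcard_erase, ← Finset.prod_const, ← Finset.prod_const, ← Finset.prod_mul_distrib,
      ← Finset.prod_mul_distrib]
    apply Finset.prod_congr rfl
    intro B hB
    rw [mul_comm]; exact hb' B hB
  have h2 := Finset.mul_prod_erase (ordP p A)
    (fun B => Nat.card ↥(N ⊓ centralizer (B : Set G))) hBjmem
  have h3 := Finset.mul_prod_erase (ordP p A)
    (fun B => Nat.card ↥(K ⊓ centralizer (B : Set G))) hBjmem
  rw [← h3]
  calc Nat.card N * Nat.card ↥(N ⊓ centralizer (A : Set G)) ^ ((ordP p A).card - 1) *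
        (Nat.card ↥(K ⊓ centralizer ((zpowers a : Subgroup G) : Set G)) *
          ∏ B ∈ (ordP p A).erase (zpowers a), Nat.card ↥(K ⊓ centralizer (B : Set G)))
      = (Nat.card N * Nat.card ↥(K ⊓ centralizer ((zpowers a : Subgroup G) : Set G))) *
        (Nat.card ↥(N ⊓ centralizer (A : Set G)) ^ ((ordP p A).card - 1) *
          ∏ B ∈ (ordP p A).erase (zpowers a), Nat.card ↥(K ⊓ centralizer (B : Set G))) := by ring
    _ = (Nat.card K * Nat.card ↥(N ⊓ centralizer ((zpowers a : Subgroup G) : Set G))) *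
        (Nat.card ↥(K ⊓ centralizer (A : Set G)) ^ ((ordP p A).card - 1) *
          ∏ B ∈ (ordP p A).erase (zpowers a), Nat.card ↥(N ⊓ centralizer (B : Set G))) := by
        rw [← ha', h1]
    _ = Nat.card K * Nat.card ↥(K ⊓ centralizer (A : Set G)) ^ ((ordP p A).card - 1) *
        (Nat.card ↥(N ⊓ centralizer ((zpowers a : Subgroup G) : Set G)) *
          ∏ B ∈ (ordP p A).erase (zpowers a), Nat.card ↥(N ⊓ centralizer (B : Set G))) := by ring
    _ = Nat.card K * Nat.card ↥(K ⊓ centralizer (A : Set G)) ^ ((ordP p A).card - 1) *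
        (Nat.card N * Nat.card ↥(N ⊓ centralizer (A : Set G)) ^ ((ordP p A).card - 1)) := by
        rw [h2, hN]
    _ = _ := by ring


theorem card_lt_of_lt {N K : Subgroup G} (h : N < K) : Nat.card N < Nat.card K := by
  rcases (Subgroup.card_le_of_le h.le).lt_or_eq with h1 | h1
  · exact h1
  · exact absurd (Subgroup.eq_of_le_of_card_ge h.le h1.ge) h.ne

theorem wielandt_pgroup {q : ℕ} [hq : Fact q.Prime] {A : Subgroup G}
    (hA : Cfsg.IsElementaryAbelian p A) (hAcard : Nat.card A = p ^ 2) :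
    ∀ (n : ℕ) (K : Subgroup G), Nat.card K ≤ n → IsPGroup q K → ¬ p ∣ Nat.card K →
      A ≤ normalizer (K : Set G) →
      ∏ B ∈ ordP p A, Nat.card ↥(K ⊓ centralizer (B : Set G)) =
        Nat.card K * Nat.card ↥(K ⊓ centralizer (A : Set G)) ^ ((ordP p A).card - 1) := by
  intro n
  induction n with
  | zero =>
    intro K hK
    have := Nat.card_pos (α := K)
    omega
  | succ n ih =>
    intro K hKn hKq hKp hAK
    by_cases hK1 : K = ⊥
    · subst hK1
      simp
    · have hD : ⁅K, K⁆ < K := commutator_lt_of_isPGroup hKq hK1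
      have hfin : {N : Subgroup G | ⁅K, K⁆ ≤ N ∧ N < K ∧ A ≤ normalizer (N : Set G)}.Finite :=
        Set.toFinite _
      obtain ⟨N, hNmax⟩ := hfin.exists_maximal
        ⟨⁅K, K⁆, le_rfl, hD, le_normalizer_commutator hAK hAK⟩
      obtain ⟨⟨hDN, hNK, hAN⟩, hmax⟩ := hNmax
      have hKN : K ≤ normalizer (N : Set G) := by
        apply le_normalizer_of_conj_mem
        intro k hk x hx
        have h1 : k * x * k⁻¹ * x⁻¹ ∈ N := hDN (Subgroup.commutator_mem_commutator hk (hNK.le hx))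
        have e : k * x * k⁻¹ = (k * x * k⁻¹ * x⁻¹) * x := by group
        rw [e]; exact N.mul_mem h1 hx
      have hex : ∃ a ∈ A, a ≠ 1 ∧ K ≤ (K ⊓ centralizer ({a} : Set G)) ⊔ N := by
        by_contra hcon
        simp only [not_exists, not_and] at hcon
        have hle : K ≤ N := by
          apply gen_ne_one hA hAcard.ge hAK hKp N
          intro a ha ha1
          have hM : (K ⊓ centralizer ({a} : Set G)) ⊔ N ∈
              {N : Subgroup G | ⁅K, K⁆ ≤ N ∧ N < K ∧ A ≤ normalizer (N : Set G)} := by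
            refine ⟨hDN.trans le_sup_right, lt_of_le_of_ne (sup_le inf_le_left hNK.le) ?_, ?_⟩
            · intro h
              exact hcon a ha ha1 h.ge
            · exact le_normalizer_sup (le_normalizer_inf hAK
                (comm_le_normalizer_centralizer (ea_comm hA) (Set.singleton_subset_iff.mpr ha)))
                hAN
          exact le_sup_left.trans (hmax hM le_sup_right)
        exact absurd (lt_of_lt_of_le hNK hle) (lt_irrefl _)
      obtain ⟨a, ha, ha1, hKa⟩ := hex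
      have hfac : ∀ k ∈ K, ∃ w ∈ N, ∃ c ∈ K ⊓ centralizer ({a} : Set G), k = w * c := by
        intro k hk
        have h1 : k ∈ N ⊔ (K ⊓ centralizer ({a} : Set G)) := by
          rw [sup_comm]; exact hKa hk
        exact (mem_sup_iff_of_le_normalizer (inf_le_left.trans hKN) k).mp h1
      have hNp : ¬ p ∣ Nat.card N := fun h => hKp (h.trans (Subgroup.card_dvd_of_le hNK.le))
      have hNn : Nat.card N ≤ n := by
        have := card_lt_of_lt hNK
        omega
      exact wielandt_step hA hAcard hNK.le hKN hAN hKp ha ha1 hfac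
        (ih N hNn (hKq.to_le hNK.le) hNp hAN)

theorem card_cent_sylow {q : ℕ} [hq : Fact q.Prime] {A K : Subgroup G}
    (hAc : ∀ a ∈ A, ∀ b ∈ A, a * b = b * a)
    (hAK : A ≤ normalizer (K : Set G)) (hcop : (Nat.card A).Coprime (Nat.card K))
    (Q : Sylow q K) (hQ : A ≤ normalizer ((Q : Subgroup K).map K.subtype : Set G))
    {B : Subgroup G} (hB : B ≤ A) :
    Nat.card ↥((Q : Subgroup K).map K.subtype ⊓ centralizer (B : Set G)) =
      q ^ (Nat.card ↥(K ⊓ centralizer (B : Set G))).factorization q := by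
  haveI : IsMulCommutative A := ⟨⟨fun x y => Subtype.ext (hAc x x.2 y y.2)⟩⟩
  have hsolvA : Group.IsSolvable A := isSolvable_of_isMulCommutative A
  have hAKB : A ≤ normalizer ((K ⊓ centralizer (B : Set G) : Subgroup G) : Set G) :=
    le_normalizer_inf hAK (comm_le_normalizer_centralizer hAc hB)
  have hcopB : (Nat.card A).Coprime (Nat.card ↥(K ⊓ centralizer (B : Set G))) :=
    Nat.Coprime.coprime_dvd_right (Subgroup.card_dvd_of_le inf_le_left) hcop
  obtain ⟨S, hS⟩ := exists_invariant_sylow (p := q) A (K ⊓ centralizer (B : Set G)) hAKB hcopB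
    (Or.inl hsolvA)
  have hS₀card := card_sylow_map (K ⊓ centralizer (B : Set G)) S
  have hS₀KB : (S : Subgroup ↥(K ⊓ centralizer (B : Set G))).map
      (K ⊓ centralizer (B : Set G)).subtype ≤ K ⊓ centralizer (B : Set G) :=
    Subgroup.map_subtype_le _
  have hS₀q : IsPGroup q ↥((S : Subgroup ↥(K ⊓ centralizer (B : Set G))).map
      (K ⊓ centralizer (B : Set G)).subtype) := S.isPGroup'.map _
  obtain ⟨Q', hQ'1, hQ'2⟩ := exists_invariant_sylow_ge (p := q) A K hAK hcop (Or.inl hsolvA) _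
    (hS₀KB.trans inf_le_left) hS₀q hS
  obtain ⟨c, hc, hc2⟩ := invariant_sylow_conj A K hAK hcop (Or.inl hsolvA) Q Q' hQ hQ'2
  have hcA : c ∈ centralizer (A : Set G) := (Subgroup.mem_inf.mp hc).2
  have hcB : c ∈ centralizer (B : Set G) := Subgroup.centralizer_le hB hcA
  have hle : ((S : Subgroup ↥(K ⊓ centralizer (B : Set G))).map
      (K ⊓ centralizer (B : Set G)).subtype).map (MulAut.conj c⁻¹).toMonoidHom ≤
      (Q : Subgroup K).map K.subtype ⊓ centralizer (B : Set G) := by
    rintro _ ⟨x, hx, rfl⟩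
    show c⁻¹ * x * c⁻¹⁻¹ ∈ _
    rw [inv_inv]
    refine Subgroup.mem_inf.mpr ⟨(hc2 x).mp (hQ'1 hx), ?_⟩
    exact Subgroup.mul_mem _ (Subgroup.mul_mem _ (Subgroup.inv_mem _ hcB)
      (Subgroup.mem_inf.mp (hS₀KB hx)).2) hcB
  have h1 : q ^ (Nat.card ↥(K ⊓ centralizer (B : Set G))).factorization q ≤
      Nat.card ↥((Q : Subgroup K).map K.subtype ⊓ centralizer (B : Set G)) := by
    rw [← hS₀card, ← Subgroup.card_map_of_injective
      (show Function.Injective (MulAut.conj c⁻¹).toMonoidHom from (MulAut.conj c⁻¹).injective)]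
    exact Subgroup.card_le_of_le hle
  have hQ₀q : IsPGroup q ↥((Q : Subgroup K).map K.subtype ⊓ centralizer (B : Set G)) :=
    (Q.isPGroup'.map K.subtype).to_le inf_le_left
  obtain ⟨j, hj⟩ := IsPGroup.iff_card.mp hQ₀q
  have hle2 : (Q : Subgroup K).map K.subtype ⊓ centralizer (B : Set G) ≤
      K ⊓ centralizer (B : Set G) := inf_le_inf_right _ (Subgroup.map_subtype_le _)
  have h2 : q ^ j ∣ Nat.card ↥(K ⊓ centralizer (B : Set G)) := hj ▸ Subgroup.card_dvd_of_le hle2
  have h3 : j ≤ (Nat.card ↥(K ⊓ centralizer (B : Set G))).factorization q :=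
    (hq.out.pow_dvd_iff_le_factorization Nat.card_pos.ne').mp h2
  rw [hj] at h1 ⊢
  have h4 := (Nat.pow_le_pow_iff_right hq.out.one_lt).mp h1
  rw [le_antisymm h3 h4]

/-- Wielandt's order formula for a group `A` of order `p²` and exponent `p` acting coprimely
on `K`: `∏_B |C_K(B)| = |K| |C_K(A)|^(n-1)`, `B` over the `n` subgroups of order `p`. -/
theorem wielandt {A K : Subgroup G} (hA : Cfsg.IsElementaryAbelian p A)
    (hAcard : Nat.card A = p ^ 2) (hK : ¬ p ∣ Nat.card K) (hAK : A ≤ normalizer (K : Set G)) :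
    ∏ B ∈ ordP p A, Nat.card ↥(K ⊓ centralizer (B : Set G)) =
      Nat.card K * Nat.card ↥(K ⊓ centralizer (A : Set G)) ^ ((ordP p A).card - 1) := by
  haveI := hA.1
  have hcop := ea_coprime hA hK
  apply Nat.eq_of_factorization_eq
  · exact Finset.prod_ne_zero_iff.mpr (fun B _ => Nat.card_pos.ne')
  · exact (Nat.mul_pos Nat.card_pos (pow_pos Nat.card_pos _)).ne'
  intro q
  by_cases hq : q.Prime
  · haveI := Fact.mk hq
    obtain ⟨Q, hQ⟩ := exists_invariant_sylow (p := q) A K hAK hcop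
      (Or.inl (isSolvable_of_isMulCommutative A))
    have hQ₀K : (Q : Subgroup K).map K.subtype ≤ K := Subgroup.map_subtype_le _
    have hW := wielandt_pgroup (q := q) hA hAcard (Nat.card ↥((Q : Subgroup K).map K.subtype))
      ((Q : Subgroup K).map K.subtype) le_rfl (Q.isPGroup'.map _)
      (fun h => hK (h.trans (Subgroup.card_dvd_of_le hQ₀K))) hQ
    have hc : ∀ B : Subgroup G, B ≤ A →
        Nat.card ↥((Q : Subgroup K).map K.subtype ⊓ centralizer (B : Set G)) =
          q ^ (Nat.card ↥(K ⊓ centralizer (B : Set G))).factorization q :=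
      fun B hB => card_cent_sylow (ea_comm hA) hAK hcop Q hQ hB
    have hQcard : Nat.card ↥((Q : Subgroup K).map K.subtype) = q ^ (Nat.card K).factorization q :=
      card_sylow_map K Q
    rw [Finset.prod_congr rfl (fun B hB => hc B (mem_ordP.mp hB).1), hc A le_rfl, hQcard,
      Finset.prod_pow_eq_pow_sum, ← pow_mul, ← pow_add] at hW
    have hW' := Nat.pow_right_injective hq.two_le hW
    rw [Nat.factorization_prod (fun B _ => Nat.card_pos.ne'),
      Nat.factorization_mul Nat.card_pos.ne' (pow_pos Nat.card_pos _).ne', Nat.factorization_pow]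
    simp only [Finsupp.coe_finset_sum, Finset.sum_apply, Finsupp.coe_add, Pi.add_apply,
      Finsupp.coe_smul, Pi.smul_apply, smul_eq_mul]
    rw [hW', mul_comm]
  · rw [Nat.factorization_eq_zero_of_not_prime _ hq, Nat.factorization_eq_zero_of_not_prime _ hq]


theorem exists_le_card_sq {A : Subgroup G} (hA : Cfsg.IsElementaryAbelian p A)
    (hA2 : p ^ 2 ≤ Nat.card A) : ∃ A₀ : Subgroup G, A₀ ≤ A ∧ Nat.card A₀ = p ^ 2 := by
  obtain ⟨k, hk⟩ := IsPGroup.iff_card.mp (ea_isPGroup hA)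
  have h2 : 2 ≤ k := by
    by_contra h
    have h3 : k ≤ 1 := by omega
    have h4 : p ^ k ≤ p ^ 1 := Nat.pow_le_pow_right hp.out.pos h3
    have h5 : p < p ^ 2 := by have := hp.out.one_lt; nlinarith
    rw [hk] at hA2
    simp at h4
    omega
  obtain ⟨L, hL⟩ := Sylow.exists_subgroup_card_pow_prime p (G := A) (n := 2)
    (by rw [hk]; exact pow_dvd_pow p h2)
  exact ⟨L.map A.subtype, Subgroup.map_subtype_le _,
    by rw [Subgroup.card_map_of_injective A.subtype_injective, hL]⟩

/-- Factorization: if `C_K(a) = C_X(a) C_Y(a)` for all non-identity `a ∈ A` (`A` noncyclic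
elementary abelian acting coprimely), then `K = X Y`. -/
theorem factorization_of_centralizers {A K X Y : Subgroup G} (hA : Cfsg.IsElementaryAbelian p A)
    (hA2 : p ^ 2 ≤ Nat.card A) (hK : ¬ p ∣ Nat.card K) (hAK : A ≤ normalizer (K : Set G))
    (hX : X ≤ K) (hY : Y ≤ K) (hAX : A ≤ normalizer (X : Set G))
    (hAY : A ≤ normalizer (Y : Set G))
    (hfac : ∀ a ∈ A, a ≠ 1 → ((K ⊓ centralizer {a} : Subgroup G) : Set G) =
      ((X ⊓ centralizer {a} : Subgroup G) : Set G) *
        ((Y ⊓ centralizer {a} : Subgroup G) : Set G)) :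
    (K : Set G) = (X : Set G) * (Y : Set G) := by
  obtain ⟨A₀, hA₀A, hA₀card⟩ := exists_le_card_sq hA hA2
  have hA₀ := ea_le hA hA₀A
  haveI := hA₀.1
  have hcop : (Nat.card A₀).Coprime (Nat.card K) := ea_coprime hA₀ hK
  have hsolv : Group.IsSolvable A₀ := isSolvable_of_isMulCommutative A₀
  have hpX : ¬ p ∣ Nat.card X := fun h => hK (h.trans (Subgroup.card_dvd_of_le hX))
  have hpY : ¬ p ∣ Nat.card Y := fun h => hK (h.trans (Subgroup.card_dvd_of_le hY))
  have hpZ : ¬ p ∣ Nat.card (X ⊓ Y : Subgroup G) :=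
    fun h => hK (h.trans (Subgroup.card_dvd_of_le (inf_le_left.trans hX)))
  have hAZ : A₀ ≤ normalizer ((X ⊓ Y : Subgroup G) : Set G) :=
    le_normalizer_inf (hA₀A.trans hAX) (hA₀A.trans hAY)
  -- element-centralizer count
  have hel : ∀ b ∈ A₀, b ≠ 1 → Nat.card ↥(K ⊓ centralizer ({b} : Set G)) *
      Nat.card ↥((X ⊓ Y) ⊓ centralizer ({b} : Set G)) =
      Nat.card ↥(X ⊓ centralizer ({b} : Set G)) * Nat.card ↥(Y ⊓ centralizer ({b} : Set G)) := by
    intro b hb hb1
    have h1 := card_mul_set (X ⊓ centralizer ({b} : Set G)) (Y ⊓ centralizer ({b} : Set G))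
    rw [← hfac b (hA₀A hb) hb1] at h1
    have e : X ⊓ centralizer ({b} : Set G) ⊓ (Y ⊓ centralizer ({b} : Set G)) =
        (X ⊓ Y) ⊓ centralizer ({b} : Set G) := by
      apply le_antisymm
      · exact le_inf (le_inf (inf_le_left.trans inf_le_left) (inf_le_right.trans inf_le_left))
          (inf_le_left.trans inf_le_right)
      · exact le_inf (le_inf (inf_le_left.trans inf_le_left) inf_le_right)
          (le_inf (inf_le_left.trans inf_le_right) inf_le_right)
    rw [e] at h1
    exact h1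
  have hne : ∃ b ∈ A₀, b ≠ 1 := by
    have h1 : A₀ ≠ ⊥ := by
      intro h
      rw [h, Subgroup.card_bot] at hA₀card
      have := hp.out.one_lt
      nlinarith
    obtain ⟨x, hx⟩ := (Subgroup.ne_bot_iff_exists_ne_one (H := A₀)).mp h1
    exact ⟨x.1, x.2, fun h => hx (Subtype.ext h)⟩
  have hsub : ∀ B ∈ ordP p A₀, Nat.card ↥(K ⊓ centralizer (B : Set G)) *
      Nat.card ↥((X ⊓ Y) ⊓ centralizer (B : Set G)) =
      Nat.card ↥(X ⊓ centralizer (B : Set G)) * Nat.card ↥(Y ⊓ centralizer (B : Set G)) := by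
    intro B hB
    obtain ⟨hBA, hBcard⟩ := mem_ordP.mp hB
    have hB1 : B ≠ ⊥ := by
      intro h
      rw [h, Subgroup.card_bot] at hBcard
      exact hp.out.one_lt.ne hBcard
    obtain ⟨x, hx⟩ := (Subgroup.ne_bot_iff_exists_ne_one (H := B)).mp hB1
    have hx1 : (x : G) ≠ 1 := fun h => hx (Subtype.ext h)
    have hz : zpowers (x : G) = B := by
      apply Subgroup.eq_of_le_of_card_ge (by rw [zpowers_le]; exact x.2)
      rw [Nat.card_zpowers, hBcard]
      have h2 : orderOf (x : G) ∣ p := orderOf_dvd_of_pow_eq_one (hA₀.2 _ (hBA x.2))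
      rcases (Nat.dvd_prime hp.out).mp h2 with h | h
      · exact absurd (orderOf_eq_one_iff.mp h) hx1
      · exact h.ge
    rw [← hz, centralizer_zpowers_eq]
    exact hel x (hBA x.2) hx1
  have htop : Nat.card ↥(K ⊓ centralizer (A₀ : Set G)) *
      Nat.card ↥((X ⊓ Y) ⊓ centralizer (A₀ : Set G)) =
      Nat.card ↥(X ⊓ centralizer (A₀ : Set G)) * Nat.card ↥(Y ⊓ centralizer (A₀ : Set G)) := by
    have h1 := card_mul_set (X ⊓ centralizer (A₀ : Set G)) (Y ⊓ centralizer (A₀ : Set G))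
    have hset : ((K ⊓ centralizer (A₀ : Set G) : Subgroup G) : Set G) =
        ((X ⊓ centralizer (A₀ : Set G) : Subgroup G) : Set G) *
          ((Y ⊓ centralizer (A₀ : Set G) : Subgroup G) : Set G) := by
      apply Set.Subset.antisymm
      · intro k hk
        obtain ⟨hkK, hkA⟩ := Subgroup.mem_inf.mp hk
        obtain ⟨b, hb, hb1⟩ := hne
        have hkb : k ∈ ((K ⊓ centralizer ({b} : Set G) : Subgroup G) : Set G) :=
          Subgroup.mem_inf.mpr ⟨hkK,
            Subgroup.centralizer_le (Set.singleton_subset_iff.mpr hb) hkA⟩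
        rw [hfac b (hA₀A hb) hb1] at hkb
        obtain ⟨x, hx, y, hy, rfl⟩ := Set.mem_mul.mp hkb
        obtain ⟨x', hx', y', hy', hxy⟩ := coprime_fixed_mul A₀ K hcop (Or.inl hsolv) X Y hX
          (hA₀A.trans hAX) (hA₀A.trans hAY) x y (Subgroup.mem_inf.mp hx).1
          (Subgroup.mem_inf.mp hy).1 hkA
        rw [hxy]
        exact Set.mul_mem_mul hx' hy'
      · rintro _ ⟨x, hx, y, hy, rfl⟩
        exact Subgroup.mul_mem _ (inf_le_inf_right _ hX hx) (inf_le_inf_right _ hY hy)
    rw [← hset] at h1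
    have e : X ⊓ centralizer (A₀ : Set G) ⊓ (Y ⊓ centralizer (A₀ : Set G)) =
        (X ⊓ Y) ⊓ centralizer (A₀ : Set G) := by
      apply le_antisymm
      · exact le_inf (le_inf (inf_le_left.trans inf_le_left) (inf_le_right.trans inf_le_left))
          (inf_le_left.trans inf_le_right)
      · exact le_inf (le_inf (inf_le_left.trans inf_le_left) inf_le_right)
          (le_inf (inf_le_left.trans inf_le_right) inf_le_right)
    rw [e] at h1
    exact h1
  have wK := wielandt hA₀ hA₀card hK (hA₀A.trans hAK)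
  have wX := wielandt hA₀ hA₀card hpX (hA₀A.trans hAX)
  have wY := wielandt hA₀ hA₀card hpY (hA₀A.trans hAY)
  have wZ := wielandt hA₀ hA₀card hpZ hAZ
  have hprod : (∏ B ∈ ordP p A₀, Nat.card ↥(K ⊓ centralizer (B : Set G))) *
      (∏ B ∈ ordP p A₀, Nat.card ↥((X ⊓ Y) ⊓ centralizer (B : Set G))) =
      (∏ B ∈ ordP p A₀, Nat.card ↥(X ⊓ centralizer (B : Set G))) *
      (∏ B ∈ ordP p A₀, Nat.card ↥(Y ⊓ centralizer (B : Set G))) := by
    rw [← Finset.prod_mul_distrib, ← Finset.prod_mul_distrib]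
    exact Finset.prod_congr rfl hsub
  rw [wK, wX, wY, wZ] at hprod
  have hcard : Nat.card K * Nat.card (X ⊓ Y : Subgroup G) = Nat.card X * Nat.card Y := by
    have hpos : 0 < (Nat.card ↥(K ⊓ centralizer (A₀ : Set G)) *
        Nat.card ↥((X ⊓ Y) ⊓ centralizer (A₀ : Set G))) ^ ((ordP p A₀).card - 1) :=
      pow_pos (Nat.mul_pos Nat.card_pos Nat.card_pos) _
    apply Nat.eq_of_mul_eq_mul_right hpos
    calc Nat.card K * Nat.card (X ⊓ Y : Subgroup G) *
          (Nat.card ↥(K ⊓ centralizer (A₀ : Set G)) *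
            Nat.card ↥((X ⊓ Y) ⊓ centralizer (A₀ : Set G))) ^ ((ordP p A₀).card - 1)
        = Nat.card K * Nat.card ↥(K ⊓ centralizer (A₀ : Set G)) ^ ((ordP p A₀).card - 1) *
          (Nat.card (X ⊓ Y : Subgroup G) *
            Nat.card ↥((X ⊓ Y) ⊓ centralizer (A₀ : Set G)) ^ ((ordP p A₀).card - 1)) := by
          rw [mul_pow]; ring
      _ = Nat.card X * Nat.card ↥(X ⊓ centralizer (A₀ : Set G)) ^ ((ordP p A₀).card - 1) *
          (Nat.card Y * Nat.card ↥(Y ⊓ centralizer (A₀ : Set G)) ^ ((ordP p A₀).card - 1)) :=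
          hprod
      _ = Nat.card X * Nat.card Y *
          (Nat.card ↥(X ⊓ centralizer (A₀ : Set G)) *
            Nat.card ↥(Y ⊓ centralizer (A₀ : Set G))) ^ ((ordP p A₀).card - 1) := by
          rw [mul_pow]; ring
      _ = _ := by rw [htop]
  have hsubset : (X : Set G) * (Y : Set G) ⊆ (K : Set G) := by
    rintro _ ⟨x, hx, y, hy, rfl⟩
    exact K.mul_mem (hX hx) (hY hy)
  have h1 := card_mul_set X Y
  rw [← hcard] at h1
  have h2 : Nat.card ((X : Set G) * (Y : Set G) : Set G) = Nat.card K :=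
    Nat.eq_of_mul_eq_mul_right Nat.card_pos h1
  symm
  apply Set.eq_of_subset_of_ncard_le hsubset _ (Set.toFinite _)
  rw [← Nat.card_coe_set_eq, ← Nat.card_coe_set_eq, h2]
  exact le_of_eq rfl

end

end Cfsg.Agent.Lib.helper7
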