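import Mathlib
import Cfsg.Agent.Lib.helper7.BaerFix
import Cfsg.Agent.Lib.helper7.Balance
import Cfsg.Agent.Lib.helper7.Wielandt
import Cfsg.Agent.Lib.helper3.PLocal

set_option autoImplicit false
set_option linter.style.haveILetI false

namespace Cfsg.Agent.Lib.helper7

open Subgroup Cfsg.Agent.Lib.helper8 Cfsg.Agent.Lib.helper9
open scoped commutatorElement

universe u

/-- Let `p` be odd, `P` a `p`-group, `Q` a `p'`-group and `A` a `p`-group, with `A` normalizing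
`Q` and both normalizing `P`.  If `Q` centralizes every element of order `p` of `C_P(A)`, then
`Q` centralizes `P`. -/
theorem centralize_of_fix_order_p_fixed {X : Type u} [Group X] [Finite X] (p : ℕ)
    [hp : Fact p.Prime] (hp2 : p ≠ 2) (P Q A : Subgroup X) (hP : IsPGroup p ↥P)
    (hQ : ¬ p ∣ Nat.card ↥Q) (hA : IsPGroup p ↥A)
    (hAQ : A ≤ normalizer (Q : Set X)) (hAP : A ≤ normalizer (P : Set X))
    (hQP : Q ≤ normalizer (P : Set X))
    (hyp : ∀ y ∈ P, orderOf y = p → (∀ a ∈ A, a * y = y * a) → ∀ q ∈ Q, q * y = y * q) :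
    Q ≤ centralizer (P : Set X) := by
  classical
  by_contra hcon
  have hfin : {R : Subgroup X | R ≤ P ∧ A ≤ normalizer (R : Set X) ∧
      Q ≤ normalizer (R : Set X) ∧ ¬ Q ≤ centralizer (R : Set X)}.Finite := Set.toFinite _
  obtain ⟨R, ⟨hRP, hAR, hQR, hQRc⟩, hmin⟩ := hfin.exists_minimal ⟨P, le_rfl, hAP, hQP, hcon⟩
  have hRp : IsPGroup p ↥R := hP.to_le hRP
  obtain ⟨n, hn⟩ := IsPGroup.iff_card.mp hRp
  have hcop : (Nat.card ↥Q).Coprime (Nat.card ↥R) := by
    rw [hn]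
    exact Nat.Coprime.pow_right n ((Nat.Prime.coprime_iff_not_dvd hp.out).mpr hQ).symm
  haveI : Group.IsNilpotent ↥R := hRp.isNilpotent
  have hRsolv : Group.IsSolvable ↥R := inferInstance
  have h1 : ⁅R, Q⁆ = R := by
    by_contra hne
    have hle : ⁅R, Q⁆ ≤ R := commutator_le_of_le_normalizer hQR
    have hAc : A ≤ normalizer ((⁅R, Q⁆ : Subgroup X) : Set X) := le_normalizer_commutator hAR hAQ
    have hQc : Q ≤ normalizer ((⁅R, Q⁆ : Subgroup X) : Set X) := le_normalizer_commutator_right hQR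
    have hcen : Q ≤ centralizer ((⁅R, Q⁆ : Subgroup X) : Set X) := by
      by_contra h
      exact hne (le_antisymm hle (hmin ⟨hle.trans hRP, hAc, hQc, h⟩ hle))
    have h2 : ⁅⁅R, Q⁆, Q⁆ = ⊥ := by
      rw [Subgroup.commutator_comm, Subgroup.commutator_eq_bot_iff_le_centralizer]
      exact hcen
    rw [commutator_commutator_eq Q R hQR hcop (Or.inr hRsolv)] at h2
    apply hQRc
    rw [← Subgroup.commutator_eq_bot_iff_le_centralizer, Subgroup.commutator_comm]
    exact h2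
  have hR1 : R ≠ ⊥ := by
    intro h
    apply hQRc
    rw [h]
    intro q _
    rw [mem_centralizer_iff]
    intro z hz
    have hz1 : z = 1 := by simpa using hz
    rw [hz1]
    simp
  have hD : ⁅R, R⁆ < R := commutator_lt_of_isPGroup hRp hR1
  have hDcen : Q ≤ centralizer ((⁅R, R⁆ : Subgroup X) : Set X) := by
    by_contra h
    exact (not_le_of_gt hD) (hmin ⟨hD.le.trans hRP, le_normalizer_commutator hAR hAR,
      le_normalizer_commutator hQR hQR, h⟩ hD.le)
  have h3 : ⁅⁅R, Q⁆, ⁅R, R⁆⁆ = ⊥ := by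
    apply Subgroup.commutator_commutator_eq_bot_of_rotate
    · have : ⁅Q, ⁅R, R⁆⁆ = ⊥ := Subgroup.commutator_eq_bot_iff_le_centralizer.mpr hDcen
      rw [this]
      exact Subgroup.commutator_bot_left R
    · have hle : ⁅⁅R, R⁆, R⁆ ≤ ⁅R, R⁆ := Subgroup.commutator_mono hD.le le_rfl
      have h4 : ⁅⁅R, R⁆, Q⁆ = ⊥ := by
        rw [Subgroup.commutator_comm]
        exact Subgroup.commutator_eq_bot_iff_le_centralizer.mpr hDcen
      have h5 : ⁅⁅⁅R, R⁆, R⁆, Q⁆ ≤ ⁅⁅R, R⁆, Q⁆ := Subgroup.commutator_mono hle le_rfl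
      rw [h4] at h5
      exact le_bot_iff.mp h5
  rw [h1, Subgroup.commutator_eq_bot_iff_le_centralizer] at h3
  haveI : Class2Odd ↥R :=
    { fin := inferInstance
      odd := by
        rw [hn]
        exact (hp.out.odd_of_ne_two hp2).pow
      central := by
        intro x y z
        apply Subtype.ext
        have hc : (⁅x, y⁆ : ↥R).1 ∈ ⁅R, R⁆ := by
          have : (⁅x, y⁆ : ↥R).1 = ⁅(x : X), (y : X)⁆ := by
            simp [commutatorElement_def]
          rw [this]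
          exact Subgroup.commutator_mem_commutator x.2 y.2
        have := (mem_centralizer_iff.mp (h3 z.2)) _ hc
        exact this }
  let ρQ : ↥Q →* MulAut ↥R := R.normalizerMonoidHom.comp (Subgroup.inclusion hQR)
  let ρA : ↥A →* MulAut ↥R := R.normalizerMonoidHom.comp (Subgroup.inclusion hAR)
  have hρQ : ∀ (q : ↥Q) (y : ↥R), ((ρQ q y : ↥R) : X) = q * y * (q : X)⁻¹ := by
    intro q y
    simp [ρQ]
  have hρA : ∀ (a : ↥A) (y : ↥R), ((ρA a y : ↥R) : X) = a * y * (a : X)⁻¹ := by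
    intro a y
    simp [ρA]
  have hnorm : ∀ a : ↥A, ∃ σ : ↥Q ≃ ↥Q, ∀ q y, ρA a (ρQ q y) = ρQ (σ q) (ρA a y) := by
    intro a
    refine ⟨(Q.normalizerMonoidHom ⟨a, hAQ a.2⟩).toEquiv, fun q y => ?_⟩
    apply Subtype.ext
    rw [hρA, hρQ, hρQ, hρA]
    have : (((Q.normalizerMonoidHom ⟨a, hAQ a.2⟩).toEquiv q : ↥Q) : X) = a * q * (a : X)⁻¹ := by
      simp
    rw [this]
    group
  have hnt : ∃ q y, ρQ q y ≠ y := by
    by_contra hall
    push_neg at hall
    apply hQRc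
    intro q hq
    rw [mem_centralizer_iff]
    intro y hy
    have := congrArg Subtype.val (hall ⟨q, hq⟩ ⟨y, hy⟩)
    rw [hρQ] at this
    calc y * q = (q * y * q⁻¹) * q := by rw [this]
      _ = q * y := by group
  obtain ⟨y, hy1, hyp', hyA, q, hq⟩ := exists_fixed_order_p_not_fixed p hRp hA hQ ρQ ρA hnorm hnt
  have hyord : orderOf (y : X) = p := by
    apply orderOf_eq_prime
    · have := congrArg Subtype.val hyp'
      simpa using this
    · intro h
      exact hy1 (Subtype.ext h)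
  have hyAfix : ∀ a ∈ A, a * (y : X) = y * a := by
    intro a ha
    have := congrArg Subtype.val (hyA ⟨a, ha⟩)
    rw [hρA] at this
    calc a * (y : X) = (a * y * a⁻¹) * a := by group
      _ = y * a := by rw [this]
  have hfin := hyp y (hRP y.2) hyord hyAfix q q.2
  apply hq
  apply Subtype.ext
  rw [hρQ, hfin]
  group

/-- In a `p`-constrained group (`p` odd), let `A` be an abelian `p`-subgroup containing every
element of order `p` of its centralizer.  Then every `p'`-subgroup normalized by `A` lies in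
`O_{p'}`. -/
theorem pprime_invariant_le_core {X : Type u} [Group X] [Finite X] (p : ℕ) [hp : Fact p.Prime]
    (hp2 : p ≠ 2) (hX : Cfsg.IsPConstrained p X) (A : Subgroup X) (hAp : IsPGroup p ↥A)
    (hΩ : ∀ x ∈ Subgroup.centralizer (A : Set X), orderOf x = p → x ∈ A) (Q : Subgroup X)
    (hQ : ¬ p ∣ Nat.card ↥Q) (hAQ : A ≤ Subgroup.normalizer (Q : Set X)) :
    Q ≤ Cfsg.pPrimeCore p X := by
  classical
  haveI hNn : (Cfsg.pPrimeCore p X).Normal := ppc_normal p X
  haveI hKn : (Cfsg.pPrimePCore p X).Normal := inferInstance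
  obtain ⟨S, hAS⟩ := hAp.exists_le_sylow
  obtain ⟨P, hP⟩ := Cfsg.Agent.Lib.helper3.exists_sylow_map_eq_inf S (Cfsg.pPrimePCore p X)
  have hP₀p : IsPGroup p ↥((S : Subgroup X) ⊓ Cfsg.pPrimePCore p X) :=
    S.isPGroup'.to_le inf_le_left
  have hAP₀ : A ≤ normalizer (((S : Subgroup X) ⊓ Cfsg.pPrimePCore p X : Subgroup X) : Set X) := by
    apply le_normalizer_of_conj_mem
    intro a ha x hx
    obtain ⟨hx1, hx2⟩ := Subgroup.mem_inf.mp hx
    exact Subgroup.mem_inf.mpr ⟨(S : Subgroup X).mul_mem ((S : Subgroup X).mul_mem (hAS ha) hx1)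
      ((S : Subgroup X).inv_mem (hAS ha)), hKn.conj_mem x hx2 a⟩
  have hNcop : (Nat.card ↥(Cfsg.pPrimeCore p X)).Coprime p := pPrimeCore_coprime p X
  have hNQ : ¬ p ∣ Nat.card ↥(Q ⊔ Cfsg.pPrimeCore p X) := by
    intro h
    have h1 := dvd_trans h (card_sup_dvd_of_normal Q (Cfsg.pPrimeCore p X))
    rcases (Nat.Prime.dvd_mul hp.out).mp h1 with h2 | h2
    · exact hQ h2
    · exact (Nat.Prime.coprime_iff_not_dvd hp.out).mp hNcop.symm h2
  have hQN : Q ≤ normalizer ((Cfsg.pPrimeCore p X : Subgroup X) : Set X) := by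
    rw [Subgroup.normalizer_eq_top]
    exact le_top
  have hmemNQ : ∀ x, x ∈ Q ⊔ Cfsg.pPrimeCore p X ↔
      ∃ n ∈ Cfsg.pPrimeCore p X, ∃ q ∈ Q, x = n * q := by
    intro x
    rw [sup_comm]
    exact mem_sup_iff_of_le_normalizer hQN x
  -- the A-invariant p'-group Q* = NQ ∩ N(P₀)
  have hQsle : (Q ⊔ Cfsg.pPrimeCore p X) ⊓
      normalizer (((S : Subgroup X) ⊓ Cfsg.pPrimePCore p X : Subgroup X) : Set X) ≤
      Q ⊔ Cfsg.pPrimeCore p X := inf_le_left
  have hQs : ¬ p ∣ Nat.card ↥((Q ⊔ Cfsg.pPrimeCore p X) ⊓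
      normalizer (((S : Subgroup X) ⊓ Cfsg.pPrimePCore p X : Subgroup X) : Set X)) :=
    fun h => hNQ (dvd_trans h (Subgroup.card_dvd_of_le hQsle))
  have hAQs : A ≤ normalizer (((Q ⊔ Cfsg.pPrimeCore p X) ⊓
      normalizer (((S : Subgroup X) ⊓ Cfsg.pPrimePCore p X : Subgroup X) : Set X) :
      Subgroup X) : Set X) := by
    apply le_normalizer_of_conj_mem
    intro a ha x hx
    obtain ⟨hx1, hx2⟩ := Subgroup.mem_inf.mp hx
    refine Subgroup.mem_inf.mpr ⟨?_, ?_⟩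
    · rw [hmemNQ] at hx1 ⊢
      obtain ⟨n, hn, q, hq, rfl⟩ := hx1
      refine ⟨a * n * a⁻¹, hNn.conj_mem n hn a, a * q * a⁻¹,
        conj_mem_of_mem_normalizer (hAQ ha) hq, by group⟩
    · exact Subgroup.mul_mem _ (Subgroup.mul_mem _ (hAP₀ ha) hx2) (Subgroup.inv_mem _ (hAP₀ ha))
  have hcent : (Q ⊔ Cfsg.pPrimeCore p X) ⊓
      normalizer (((S : Subgroup X) ⊓ Cfsg.pPrimePCore p X : Subgroup X) : Set X) ≤
      centralizer (((S : Subgroup X) ⊓ Cfsg.pPrimePCore p X : Subgroup X) : Set X) := by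
    apply centralize_of_fix_order_p_fixed p hp2 _ _ A hP₀p hQs hAp hAQs hAP₀ inf_le_right
    intro y hy hyo hyA q hq
    have hyA' : y ∈ A := by
      apply hΩ y _ hyo
      rw [mem_centralizer_iff]
      intro a ha
      exact hyA a ha
    obtain ⟨hq1, hq2⟩ := Subgroup.mem_inf.mp hq
    have hc1 : q * y * q⁻¹ * y⁻¹ ∈ (S : Subgroup X) ⊓ Cfsg.pPrimePCore p X :=
      Subgroup.mul_mem _ (conj_mem_of_mem_normalizer hq2 hy) (Subgroup.inv_mem _ hy)
    have hc2 : q * y * q⁻¹ * y⁻¹ ∈ (Q ⊔ Cfsg.pPrimeCore p X) ⊓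
        normalizer (((S : Subgroup X) ⊓ Cfsg.pPrimePCore p X : Subgroup X) : Set X) := by
      have := conj_mem_of_mem_normalizer (hAQs hyA') (Subgroup.inv_mem _ hq)
      have h2 := Subgroup.mul_mem _ hq this
      have e : q * (y * q⁻¹ * y⁻¹) = q * y * q⁻¹ * y⁻¹ := by group
      rwa [e] at h2
    obtain ⟨k, hk⟩ := hP₀p ⟨_, hc1⟩
    have hk' : (q * y * q⁻¹ * y⁻¹) ^ p ^ k = 1 := by
      have := congrArg Subtype.val hk
      simpa using this
    have hd1 : orderOf (q * y * q⁻¹ * y⁻¹) ∣ p ^ k := orderOf_dvd_of_pow_eq_one hk'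
    have hd2 := Subgroup.orderOf_dvd_natCard _ hc2
    have hcop : (p ^ k).Coprime (Nat.card ↥((Q ⊔ Cfsg.pPrimeCore p X) ⊓
        normalizer (((S : Subgroup X) ⊓ Cfsg.pPrimePCore p X : Subgroup X) : Set X))) :=
      Nat.Coprime.pow_left k ((Nat.Prime.coprime_iff_not_dvd hp.out).mpr hQs)
    have h1 : orderOf (q * y * q⁻¹ * y⁻¹) = 1 := Nat.eq_one_of_dvd_coprimes hcop hd1 hd2
    have h2 : q * y * q⁻¹ * y⁻¹ = 1 := orderOf_eq_one_iff.mp h1
    have h3 : q * y * q⁻¹ = y := mul_inv_eq_one.mp h2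
    exact mul_inv_eq_iff_eq_mul.mp h3
  have hQsK : (Q ⊔ Cfsg.pPrimeCore p X) ⊓
      normalizer (((S : Subgroup X) ⊓ Cfsg.pPrimePCore p X : Subgroup X) : Set X) ≤
      Cfsg.pPrimePCore p X := by
    have := hX P
    rw [hP] at this
    exact hcent.trans this
  have hQsN : (Q ⊔ Cfsg.pPrimeCore p X) ⊓
      normalizer (((S : Subgroup X) ⊓ Cfsg.pPrimePCore p X : Subgroup X) : Set X) ≤
      Cfsg.pPrimeCore p X := by
    intro x hx
    apply mem_core_of_mem_pPrimePCore (hQsK hx)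
    have hd := Subgroup.orderOf_dvd_natCard _ hx
    exact Nat.Coprime.coprime_dvd_left hd ((Nat.Prime.coprime_iff_not_dvd hp.out).mpr hQs).symm
  -- Frattini argument
  have hfr := Sylow.normalizer_sup_eq_top P
  rw [hP] at hfr
  intro g hg
  have hgtop : g ∈ Cfsg.pPrimePCore p X ⊔ normalizer
      (((S : Subgroup X) ⊓ Cfsg.pPrimePCore p X : Subgroup X) : Set X) := by
    rw [sup_comm, hfr]
    trivial
  have hnK : normalizer (((S : Subgroup X) ⊓ Cfsg.pPrimePCore p X : Subgroup X) : Set X) ≤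
      normalizer ((Cfsg.pPrimePCore p X : Subgroup X) : Set X) := by
    have hKtop : normalizer ((Cfsg.pPrimePCore p X : Subgroup X) : Set X) = ⊤ :=
      Subgroup.normalizer_eq_top _
    rw [hKtop]
    exact le_top
  obtain ⟨k, hk, m, hm, rfl⟩ := (mem_sup_iff_of_le_normalizer hnK g).mp hgtop
  -- k = u * n' with u ∈ P₀, n' ∈ N
  have hmap := sylow_pPrimePCore_map P
  rw [hP] at hmap
  have hk' : QuotientGroup.mk' (Cfsg.pPrimeCore p X) k ∈
      Cfsg.pCore p (X ⧸ Cfsg.pPrimeCore p X) := hk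
  rw [← hmap] at hk'
  obtain ⟨u, hu, huk⟩ := hk'
  have hn' : u⁻¹ * k ∈ Cfsg.pPrimeCore p X := by
    have := QuotientGroup.eq.mp huk
    exact this
  have hn'' : m⁻¹ * (u⁻¹ * k) * m ∈ Cfsg.pPrimeCore p X := by
    have := hNn.conj_mem _ hn' m⁻¹
    simpa using this
  have hum : u * m ∈ normalizer (((S : Subgroup X) ⊓ Cfsg.pPrimePCore p X : Subgroup X) : Set X) :=
    Subgroup.mul_mem _ (Subgroup.le_normalizer hu) hm
  have hum' : u * m ∈ (Q ⊔ Cfsg.pPrimeCore p X) ⊓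
      normalizer (((S : Subgroup X) ⊓ Cfsg.pPrimePCore p X : Subgroup X) : Set X) := by
    refine Subgroup.mem_inf.mpr ⟨?_, hum⟩
    have e : u * m = (k * m) * (m⁻¹ * (u⁻¹ * k) * m)⁻¹ := by group
    rw [e]
    exact Subgroup.mul_mem _ (le_sup_left (α := Subgroup X) hg)
      (Subgroup.inv_mem _ (le_sup_right (α := Subgroup X) hn''))
  have e : k * m = (u * m) * (m⁻¹ * (u⁻¹ * k) * m) := by group
  rw [e]
  exact Subgroup.mul_mem _ (hQsN hum') hn''

end Cfsg.Agent.Lib.helper7
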