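import Mathlib
import Cfsg.Agent.Lib.helper7.Layer2
import Cfsg.Agent.Lib.helper1.Dihedral

set_option autoImplicit false

namespace Cfsg.Agent.Lib.helper7

open Subgroup

universe u

/-- Eigen-elements modulo `U` for a family of commuting involutions: auxiliary finset induction. -/
theorem exists_eigen_mod_aux {G : Type*} [Group G] (A : Subgroup G)
    (hcomm : ∀ a ∈ A, ∀ b ∈ A, a * b = b * a) (hsq : ∀ a ∈ A, a * a = 1)
    (U T : Subgroup G)
    (hAT : ∀ a ∈ A, ∀ t ∈ T, a * t * a⁻¹ ∈ T) (hAU : ∀ a ∈ A, ∀ u ∈ U, a * u * a⁻¹ ∈ U)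
    (hTT : ∀ s ∈ T, ∀ t ∈ T, s * t * s⁻¹ * t⁻¹ ∈ U) (hne : ¬ T ≤ U) (S : Finset G) :
    (∀ s ∈ S, s ∈ A) → ∃ V : Subgroup G, V ≤ T ∧ (∀ a ∈ A, ∀ v ∈ V, a * v * a⁻¹ ∈ V) ∧ ¬ V ≤ U ∧
      ∀ s ∈ S, (∀ v ∈ V, v⁻¹ * (s * v * s⁻¹) ∈ U) ∨ (∀ v ∈ V, v * (s * v * s⁻¹) ∈ U) := by
  classical
  induction S using Finset.induction_on with
  | empty => intro _; exact ⟨T, le_rfl, hAT, hne, by simp⟩
  | insert s S hs ih =>
    intro hS
    obtain ⟨V, hVT, hAV, hVU, hV⟩ := ih (fun t ht => hS t (Finset.mem_insert_of_mem ht))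
    have hsA : s ∈ A := hS s (Finset.mem_insert_self s S)
    by_cases hc : ∀ v ∈ V, v⁻¹ * (s * v * s⁻¹) ∈ U
    · refine ⟨V, hVT, hAV, hVU, ?_⟩
      intro t ht
      rcases Finset.mem_insert.mp ht with rfl | ht
      · exact Or.inl hc
      · exact hV t ht
    · push_neg at hc
      obtain ⟨v₀, hv₀, hv₀U⟩ := hc
      let V' : Subgroup G :=
        { carrier := {v | v ∈ V ∧ v * (s * v * s⁻¹) ∈ U}
          one_mem' := ⟨V.one_mem, by simp⟩
          mul_mem' := by
            rintro v w ⟨hv, hv'⟩ ⟨hw, hw'⟩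
            refine ⟨V.mul_mem hv hw, ?_⟩
            have h1 : (s * v * s⁻¹)⁻¹ * w * (s * v * s⁻¹) * w⁻¹ ∈ U := by
              have := hTT (s * v * s⁻¹)⁻¹ (T.inv_mem (hAT s hsA v (hVT hv))) w (hVT hw)
              simpa using this
            have e : v * w * (s * (v * w) * s⁻¹) = (v * (s * v * s⁻¹)) *
                ((s * v * s⁻¹)⁻¹ * w * (s * v * s⁻¹) * w⁻¹) * (w * (s * w * s⁻¹)) := by group
            rw [e]
            exact U.mul_mem (U.mul_mem hv' h1) hw'
          inv_mem' := by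
            rintro v ⟨hv, hv'⟩
            refine ⟨V.inv_mem hv, ?_⟩
            have h1 : (s * v * s⁻¹) * v * (s * v * s⁻¹)⁻¹ * v⁻¹ ∈ U :=
              hTT _ (hAT s hsA v (hVT hv)) v (hVT hv)
            have e : v⁻¹ * (s * v⁻¹ * s⁻¹) =
                ((s * v * s⁻¹) * v * (s * v * s⁻¹)⁻¹ * v⁻¹ * (v * (s * v * s⁻¹)))⁻¹ := by group
            rw [e]
            exact U.inv_mem (U.mul_mem h1 hv') }
      have hV'V : V' ≤ V := fun v hv => hv.1
      refine ⟨V', hV'V.trans hVT, ?_, ?_, ?_⟩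
      · intro b hb v hv
        refine ⟨hAV b hb v hv.1, ?_⟩
        have h1 : s * b = b * s := hcomm s hsA b hb
        have e : b * v * b⁻¹ * (s * (b * v * b⁻¹) * s⁻¹) = b * (v * (s * v * s⁻¹)) * b⁻¹ := by
          calc b * v * b⁻¹ * (s * (b * v * b⁻¹) * s⁻¹)
              = b * v * b⁻¹ * ((s * b) * v * (s * b)⁻¹) := by group
            _ = b * v * b⁻¹ * ((b * s) * v * (b * s)⁻¹) := by rw [h1]
            _ = b * (v * (s * v * s⁻¹)) * b⁻¹ := by group
        rw [e]
        exact hAU b hb _ hv.2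
      · intro hle
        apply hv₀U
        have hw : v₀⁻¹ * (s * v₀ * s⁻¹) ∈ V' := by
          refine ⟨V.mul_mem (V.inv_mem hv₀) (hAV s hsA v₀ hv₀), ?_⟩
          have e : v₀⁻¹ * (s * v₀ * s⁻¹) * (s * (v₀⁻¹ * (s * v₀ * s⁻¹)) * s⁻¹) =
              v₀⁻¹ * ((s * s) * v₀ * (s * s)⁻¹) := by group
          rw [e, hsq s hsA]
          simp
        exact hle hw
      · intro t ht
        rcases Finset.mem_insert.mp ht with rfl | ht
        · exact Or.inr (fun v hv => hv.2)
        · rcases hV t ht with h | h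
          · exact Or.inl (fun v hv => h v hv.1)
          · exact Or.inr (fun v hv => h v hv.1)

/-- Eigen-elements modulo `U` for an abelian group `A` of exponent two acting on `T`, where
`T/U` is abelian. -/
theorem exists_eigen_mod {G : Type*} [Group G] [Finite G] (A : Subgroup G)
    (hcomm : ∀ a ∈ A, ∀ b ∈ A, a * b = b * a) (hsq : ∀ a ∈ A, a * a = 1)
    (U T : Subgroup G)
    (hAT : ∀ a ∈ A, ∀ t ∈ T, a * t * a⁻¹ ∈ T) (hAU : ∀ a ∈ A, ∀ u ∈ U, a * u * a⁻¹ ∈ U)
    (hTT : ∀ s ∈ T, ∀ t ∈ T, s * t * s⁻¹ * t⁻¹ ∈ U) (hne : ¬ T ≤ U) :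
    ∃ x ∈ T, x ∉ U ∧ ∀ a ∈ A, x⁻¹ * (a * x * a⁻¹) ∈ U ∨ x * (a * x * a⁻¹) ∈ U := by
  classical
  obtain ⟨V, hVT, -, hVU, hV⟩ := exists_eigen_mod_aux A hcomm hsq U T hAT hAU hTT hne
    (Set.toFinite (A : Set G)).toFinset (by intro s hs; simpa using hs)
  obtain ⟨x, hxV, hxU⟩ := SetLike.not_le_iff_exists.mp hVU
  refine ⟨x, hVT hxV, hxU, fun a ha => ?_⟩
  rcases hV a (by simpa using ha) with h | h
  · exact Or.inl (h x hxV)
  · exact Or.inr (h x hxV)

/-- An eigen-element inverted by a given `a` acting nontrivially on the abelian group `E`. -/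
theorem exists_eigen_inverted {G : Type*} [Group G] [Finite G] (A E : Subgroup G)
    (hcomm : ∀ a ∈ A, ∀ b ∈ A, a * b = b * a) (hsq : ∀ a ∈ A, a * a = 1)
    (hEab : ∀ x ∈ E, ∀ y ∈ E, x * y = y * x) (hAE : ∀ a ∈ A, ∀ e ∈ E, a * e * a⁻¹ ∈ E)
    (a : G) (ha : a ∈ A) (hne : ¬ ∀ e ∈ E, a * e * a⁻¹ = e) :
    ∃ x ∈ E, x ≠ 1 ∧ a * x * a⁻¹ = x⁻¹ ∧ ∀ c ∈ A, c * x * c⁻¹ = x ∨ c * x * c⁻¹ = x⁻¹ := by
  classical
  let T : Subgroup G :=
    { carrier := {x | x ∈ E ∧ a * x * a⁻¹ = x⁻¹}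
      one_mem' := ⟨E.one_mem, by simp⟩
      mul_mem' := by
        rintro x y ⟨hx, hx'⟩ ⟨hy, hy'⟩
        refine ⟨E.mul_mem hx hy, ?_⟩
        have : a * (x * y) * a⁻¹ = (a * x * a⁻¹) * (a * y * a⁻¹) := by group
        rw [this, hx', hy', mul_inv_rev]
        exact hEab _ (E.inv_mem hx) _ (E.inv_mem hy)
      inv_mem' := by
        rintro x ⟨hx, hx'⟩
        refine ⟨E.inv_mem hx, ?_⟩
        have : a * x⁻¹ * a⁻¹ = (a * x * a⁻¹)⁻¹ := by group
        rw [this, hx'] }
  have hAT : ∀ c ∈ A, ∀ t ∈ T, c * t * c⁻¹ ∈ T := by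
    rintro c hc t ⟨ht, ht'⟩
    refine ⟨hAE c hc t ht, ?_⟩
    have h1 : a * c = c * a := hcomm a ha c hc
    calc a * (c * t * c⁻¹) * a⁻¹ = (a * c) * t * (a * c)⁻¹ := by group
      _ = (c * a) * t * (c * a)⁻¹ := by rw [h1]
      _ = c * (a * t * a⁻¹) * c⁻¹ := by group
      _ = (c * t * c⁻¹)⁻¹ := by rw [ht']; group
  have hne' : ¬ T ≤ ⊥ := by
    intro hle
    apply hne
    intro e he
    have hw : e⁻¹ * (a * e * a⁻¹) ∈ T := by
      refine ⟨E.mul_mem (E.inv_mem he) (hAE a ha e he), ?_⟩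
      have : a * (e⁻¹ * (a * e * a⁻¹)) * a⁻¹ = (a * e * a⁻¹)⁻¹ * ((a * a) * e * (a * a)⁻¹) := by
        group
      rw [this, hsq a ha]
      group
    have := hle hw
    rw [Subgroup.mem_bot] at this
    exact (inv_mul_eq_one.mp this).symm
  obtain ⟨x, hxT, hx1, hx⟩ := exists_eigen_mod A hcomm hsq ⊥ T hAT
    (by intro c _ u hu; rw [Subgroup.mem_bot] at hu ⊢; rw [hu]; group)
    (by rintro s ⟨hs, -⟩ t ⟨ht, -⟩; rw [Subgroup.mem_bot, hEab s hs t ht]; group) hne'
  refine ⟨x, hxT.1, by simpa using hx1, hxT.2, fun c hc => ?_⟩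
  rcases hx c hc with h | h
  · left; rw [Subgroup.mem_bot] at h; exact (inv_mul_eq_one.mp h).symm
  · right; rw [Subgroup.mem_bot] at h; exact eq_inv_of_mul_eq_one_right h

/-- A nilpotent group of odd order on which an abelian group `A` of exponent two acts has an
`A`-invariant abelian subgroup `E` such that every element of `A` centralizing `E` centralizes
the whole group. -/
theorem exists_faithful_abelian {G : Type*} [Group G] [Finite G] (F A : Subgroup G)
    (hnil : Group.IsNilpotent ↥F) (hodd : Odd (Nat.card ↥F))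
    (hcomm : ∀ a ∈ A, ∀ b ∈ A, a * b = b * a) (hsq : ∀ a ∈ A, a * a = 1)
    (hAF : ∀ a ∈ A, ∀ f ∈ F, a * f * a⁻¹ ∈ F) :
    ∃ E : Subgroup G, E ≤ F ∧ (∀ x ∈ E, ∀ y ∈ E, x * y = y * x) ∧
      (∀ a ∈ A, ∀ e ∈ E, a * e * a⁻¹ ∈ E) ∧
      ∀ a ∈ A, (∀ e ∈ E, a * e * a⁻¹ = e) → ∀ f ∈ F, a * f * a⁻¹ = f := by
  classical
  have hfin : {E : Subgroup G | E ≤ F ∧ (∀ x ∈ E, ∀ y ∈ E, x * y = y * x) ∧
      (∀ a ∈ A, ∀ e ∈ E, a * e * a⁻¹ ∈ E) ∧ (∀ f ∈ F, ∀ e ∈ E, f * e * f⁻¹ ∈ E)}.Finite :=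
    Set.toFinite _
  obtain ⟨E, ⟨hEF, hEab, hAE, hFE⟩, hmax⟩ := hfin.exists_maximal
    ⟨⊥, bot_le, by simp, by simp, by simp⟩
  have hC : ∀ x ∈ F, (∀ e ∈ E, x * e = e * x) → x ∈ E := by
    by_contra hcon
    push_neg at hcon
    obtain ⟨x₀, hx₀F, hx₀c, hx₀E⟩ := hcon
    let Z : ℕ → Subgroup G := fun i => (Subgroup.upperCentralSeries ↥F i).map F.subtype
    let C : Subgroup G := F ⊓ centralizer (E : Set G)
    have hCmem : ∀ c, c ∈ C ↔ c ∈ F ∧ ∀ e ∈ E, e * c = c * e := by
      intro c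
      show c ∈ F ⊓ centralizer (E : Set G) ↔ _
      rw [Subgroup.mem_inf, mem_centralizer_iff]
      rfl
    have hZmem : ∀ i c, c ∈ Z i ↔ ∃ c' : ↥F, c' ∈ Subgroup.upperCentralSeries ↥F i ∧ (c' : G) = c := by
      intro i c
      show c ∈ (Subgroup.upperCentralSeries ↥F i).map F.subtype ↔ _
      rw [Subgroup.mem_map]
      rfl
    obtain ⟨n, hn⟩ := Group.IsNilpotent.nilpotent ↥F
    have hP : ∃ i, ¬ (C ⊓ Z i ≤ E) := by
      refine ⟨n, fun hle => hx₀E (hle (Subgroup.mem_inf.mpr ⟨?_, ?_⟩))⟩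
      · rw [hCmem]; exact ⟨hx₀F, fun e he => (hx₀c e he).symm⟩
      · rw [hZmem]; exact ⟨⟨x₀, hx₀F⟩, by rw [hn]; trivial, rfl⟩
    have hk : ¬ (C ⊓ Z (Nat.find hP) ≤ E) := Nat.find_spec hP
    have hk0 : Nat.find hP ≠ 0 := by
      intro h0
      apply hk
      rw [h0]
      intro x hx
      obtain ⟨-, hx2⟩ := Subgroup.mem_inf.mp hx
      rw [hZmem] at hx2
      obtain ⟨y, hy, rfl⟩ := hx2
      rw [Subgroup.upperCentralSeries_zero, Subgroup.mem_bot] at hy
      rw [hy]
      exact E.one_mem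
    obtain ⟨j, hj⟩ := Nat.exists_eq_succ_of_ne_zero hk0
    have hj' : C ⊓ Z j ≤ E := by
      by_contra h
      have := Nat.find_min' hP h
      omega
    rw [hj] at hk
    have hCF : ∀ f ∈ F, ∀ c ∈ C, f * c * f⁻¹ ∈ C := by
      intro f hf c hc
      rw [hCmem] at hc ⊢
      obtain ⟨hcF, hcc⟩ := hc
      refine ⟨F.mul_mem (F.mul_mem hf hcF) (F.inv_mem hf), ?_⟩
      intro e he
      have h1 := hcc (f⁻¹ * e * f) (by simpa using hFE f⁻¹ (F.inv_mem hf) e he)
      calc e * (f * c * f⁻¹) = f * ((f⁻¹ * e * f) * c) * f⁻¹ := by group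
        _ = f * (c * (f⁻¹ * e * f)) * f⁻¹ := by rw [h1]
        _ = f * c * f⁻¹ * e := by group
    have hAC : ∀ a ∈ A, ∀ c ∈ C, a * c * a⁻¹ ∈ C := by
      intro a ha c hc
      rw [hCmem] at hc ⊢
      obtain ⟨hcF, hcc⟩ := hc
      refine ⟨hAF a ha c hcF, ?_⟩
      intro e he
      have h1 := hcc (a⁻¹ * e * a) (by simpa using hAE a⁻¹ (A.inv_mem ha) e he)
      calc e * (a * c * a⁻¹) = a * ((a⁻¹ * e * a) * c) * a⁻¹ := by group
        _ = a * (c * (a⁻¹ * e * a)) * a⁻¹ := by rw [h1]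
        _ = a * c * a⁻¹ * e := by group
    have hAZ : ∀ i, ∀ a ∈ A, ∀ t ∈ Z i, a * t * a⁻¹ ∈ Z i := by
      intro i a ha t ht
      rw [hZmem] at ht ⊢
      obtain ⟨t', ht', rfl⟩ := ht
      have haN : a ∈ normalizer (F : Set G) := by
        rw [mem_normalizer_iff]
        intro h
        constructor
        · exact hAF a ha h
        · intro hh
          have := hAF a⁻¹ (A.inv_mem ha) _ hh
          simpa [mul_assoc] using this
      have hchar := (Subgroup.characteristic_iff_map_le.mp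
        (inferInstance : (Subgroup.upperCentralSeries ↥F i).Characteristic))
        (F.normalizerMonoidHom ⟨a, haN⟩)
      exact ⟨_, hchar ⟨t', ht', rfl⟩, by simp⟩
    let T : Subgroup G := C ⊓ Z (j + 1)
    have hTC : T ≤ C := inf_le_left
    have hTZ : T ≤ Z (j + 1) := inf_le_right
    have hCFle : C ≤ F := inf_le_left
    have hTF : T ≤ F := hTC.trans hCFle
    have hTFE : ∀ s ∈ T, ∀ f ∈ F, s * f * s⁻¹ * f⁻¹ ∈ E := by
      intro s hs f hf
      have hsC := hTC hs
      have hsZ := hTZ hs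
      rw [hZmem] at hsZ
      obtain ⟨s', hs', rfl⟩ := hsZ
      apply hj'
      apply Subgroup.mem_inf.mpr
      constructor
      · have h1 := hCF f hf _ (C.inv_mem hsC)
        have := C.mul_mem hsC h1
        simpa [mul_assoc] using this
      · rw [hZmem]
        have := Subgroup.mem_upperCentralSeries_succ_iff.mp hs' ⟨f, hf⟩
        exact ⟨_, this, by simp [commutatorElement_def]⟩
    obtain ⟨x, hxT, hxE, hx⟩ := exists_eigen_mod A hcomm hsq E T
      (fun a ha t ht => Subgroup.mem_inf.mpr ⟨hAC a ha t (hTC ht), hAZ _ a ha t (hTZ ht)⟩) hAE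
      (fun s hs t ht => hTFE s hs t (hTF ht)) hk
    have hxF : x ∈ F := hTF hxT
    have hxc : ∀ e ∈ E, e * x = x * e := ((hCmem x).mp (hTC hxT)).2
    have hE' : E ⊔ zpowers x ∈ {E : Subgroup G | E ≤ F ∧ (∀ x ∈ E, ∀ y ∈ E, x * y = y * x) ∧
      (∀ a ∈ A, ∀ e ∈ E, a * e * a⁻¹ ∈ E) ∧ (∀ f ∈ F, ∀ e ∈ E, f * e * f⁻¹ ∈ E)} := by
      refine ⟨sup_le hEF (zpowers_le.mpr hxF), ?_, ?_, ?_⟩
      · have h1 : E ⊔ zpowers x ≤ centralizer ((E ⊔ zpowers x : Subgroup G) : Set G) := by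
          apply sup_le
          · intro e he
            have h2 : E ⊔ zpowers x ≤ centralizer ({e} : Set G) := by
              apply sup_le
              · intro z hz
                rw [mem_centralizer_iff]
                rintro _ rfl
                exact hEab _ he z hz
              · rw [zpowers_le, mem_centralizer_iff]
                rintro _ rfl
                exact hxc _ he
            rw [mem_centralizer_iff]
            intro y hy
            exact ((mem_centralizer_iff.mp (h2 hy)) e rfl).symm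
          · rw [zpowers_le]
            have h2 : E ⊔ zpowers x ≤ centralizer ({x} : Set G) := by
              apply sup_le
              · intro z hz
                rw [mem_centralizer_iff]
                rintro _ rfl
                exact (hxc z hz).symm
              · rw [zpowers_le, mem_centralizer_iff]
                rintro _ rfl
                rfl
            rw [mem_centralizer_iff]
            intro y hy
            exact ((mem_centralizer_iff.mp (h2 hy)) x rfl).symm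
        intro y hy z hz
        exact (mem_centralizer_iff.mp (h1 hz)) y hy
      · intro a ha
        have h1 : E ⊔ zpowers x ≤ (E ⊔ zpowers x).comap (MulAut.conj a).toMonoidHom := by
          apply sup_le
          · intro e he
            rw [mem_comap]
            exact le_sup_left (α := Subgroup G) (by simpa using hAE a ha e he)
          · rw [zpowers_le, mem_comap]
            show a * x * a⁻¹ ∈ E ⊔ zpowers x
            have hxm : x ∈ E ⊔ zpowers x := le_sup_right (α := Subgroup G) (mem_zpowers x)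
            rcases hx a ha with h | h
            · have e1 : a * x * a⁻¹ = x * (x⁻¹ * (a * x * a⁻¹)) := by group
              rw [e1]
              exact mul_mem hxm (le_sup_left (α := Subgroup G) h)
            · have e1 : a * x * a⁻¹ = x⁻¹ * (x * (a * x * a⁻¹)) := by group
              rw [e1]
              exact mul_mem (inv_mem hxm) (le_sup_left (α := Subgroup G) h)
        intro e he
        have := h1 he
        rw [mem_comap] at this
        simpa using this
      · intro f hf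
        have h1 : E ⊔ zpowers x ≤ (E ⊔ zpowers x).comap (MulAut.conj f).toMonoidHom := by
          apply sup_le
          · intro e he
            rw [mem_comap]
            exact le_sup_left (α := Subgroup G) (by simpa using hFE f hf e he)
          · rw [zpowers_le, mem_comap]
            show f * x * f⁻¹ ∈ E ⊔ zpowers x
            have hxm : x ∈ E ⊔ zpowers x := le_sup_right (α := Subgroup G) (mem_zpowers x)
            have e1 : f * x * f⁻¹ = (x * f * x⁻¹ * f⁻¹)⁻¹ * x := by group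
            rw [e1]
            exact mul_mem (inv_mem (le_sup_left (α := Subgroup G) (hTFE x hxT f hf))) hxm
        intro e he
        have := h1 he
        rw [mem_comap] at this
        simpa using this
    have := hmax hE' le_sup_left
    exact hxE (this (le_sup_right (α := Subgroup G) (mem_zpowers x)))
  refine ⟨E, hEF, hEab, hAE, ?_⟩
  intro a ha hcE f hf
  have hc : a * f * a⁻¹ * f⁻¹ ∈ E := by
    apply hC _ (F.mul_mem (hAF a ha f hf) (F.inv_mem hf))
    intro e he
    have h1 : a * (f⁻¹ * e * f) * a⁻¹ = f⁻¹ * e * f :=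
      hcE _ (by simpa using hFE f⁻¹ (F.inv_mem hf) e he)
    have h2 : a * e * a⁻¹ = e := hcE e he
    have h1' : a⁻¹ * (f⁻¹ * e * f) = (f⁻¹ * e * f) * a⁻¹ := by
      calc a⁻¹ * (f⁻¹ * e * f) = a⁻¹ * (a * (f⁻¹ * e * f) * a⁻¹) := by rw [h1]
        _ = (f⁻¹ * e * f) * a⁻¹ := by group
    calc a * f * a⁻¹ * f⁻¹ * e = a * f * (a⁻¹ * (f⁻¹ * e * f)) * f⁻¹ := by group
      _ = a * f * ((f⁻¹ * e * f) * a⁻¹) * f⁻¹ := by rw [h1']
      _ = (a * e * a⁻¹) * (a * f * a⁻¹ * f⁻¹) := by group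
      _ = e * (a * f * a⁻¹ * f⁻¹) := by rw [h2]
  have h3 : a * (a * f * a⁻¹ * f⁻¹) * a⁻¹ = a * f * a⁻¹ * f⁻¹ := hcE _ hc
  have h4 : (a * f * a⁻¹ * f⁻¹) * (a * f * a⁻¹ * f⁻¹) = 1 := by
    have e : a * (a * f * a⁻¹ * f⁻¹) * a⁻¹ * (a * f * a⁻¹ * f⁻¹) =
        (a * a) * f * (a * a)⁻¹ * f⁻¹ := by group
    rw [h3, hsq a ha] at e
    rw [e]
    group
  have h5 : orderOf (a * f * a⁻¹ * f⁻¹) ∣ 2 :=
    orderOf_dvd_of_pow_eq_one (by rw [pow_two]; exact h4)
  have h6 : orderOf (a * f * a⁻¹ * f⁻¹) ∣ Nat.card ↥F :=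
    Subgroup.orderOf_dvd_natCard F (hEF hc)
  have h7 : orderOf (a * f * a⁻¹ * f⁻¹) = 1 := by
    rcases (Nat.dvd_prime Nat.prime_two).mp h5 with h | h
    · exact h
    · exfalso
      rw [h] at h6
      exact (Nat.not_even_iff_odd.mpr hodd) (even_iff_two_dvd.mpr h6)
  have h8 : a * f * a⁻¹ * f⁻¹ = 1 := orderOf_eq_one_iff.mp h7
  exact mul_inv_eq_one.mp h8

/-- A "basis" of eigen-elements realizing every sign pattern. -/
theorem exists_eigen_basis {G : Type*} [Group G] [Finite G] (A' E : Subgroup G)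
    (hcomm : ∀ a ∈ A', ∀ b ∈ A', a * b = b * a) (hsq : ∀ a ∈ A', a * a = 1)
    (hEab : ∀ x ∈ E, ∀ y ∈ E, x * y = y * x) (hAE : ∀ a ∈ A', ∀ e ∈ E, a * e * a⁻¹ ∈ E)
    (hE2 : ∀ e ∈ E, e * e = 1 → e = 1) :
    ∀ (d : ℕ) (A : Subgroup G), A ≤ A' → Nat.card ↥A = 2 ^ d →
      (∀ a ∈ A, (∀ e ∈ E, a * e * a⁻¹ = e) → a = 1) →
      ∃ x : Fin d → G, (∀ i, x i ∈ E ∧ x i ≠ 1 ∧
          ∀ c ∈ A', c * x i * c⁻¹ = x i ∨ c * x i * c⁻¹ = (x i)⁻¹) ∧
        ∀ ε : Fin d → Bool, ∃ c ∈ A, ∀ i, c * x i * c⁻¹ = if ε i then (x i)⁻¹ else x i := by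
  classical
  intro d
  induction d with
  | zero =>
    intro A _ _ _
    exact ⟨Fin.elim0, fun i => i.elim0, fun ε => ⟨1, A.one_mem, fun i => i.elim0⟩⟩
  | succ d ih =>
    intro A hAA' hcard hfaith
    have hAne : A ≠ ⊥ := by
      intro h
      rw [h, Subgroup.card_bot] at hcard
      have := Nat.one_lt_two_pow (n := d + 1) (by omega)
      omega
    obtain ⟨a, haA, ha1⟩ : ∃ a ∈ A, a ≠ 1 := by
      by_contra hcon
      push_neg at hcon
      exact hAne ((Subgroup.eq_bot_iff_forall A).mpr hcon)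
    obtain ⟨x₁, hx₁E, hx₁1, hax₁, hx₁eig⟩ := exists_eigen_inverted A' E hcomm hsq hEab hAE a
      (hAA' haA) (fun h => ha1 (hfaith a haA h))
    have hx₁ne : x₁ ≠ x₁⁻¹ := by
      intro h
      apply hx₁1
      apply hE2 x₁ hx₁E
      exact (congrArg (fun t => x₁ * t) h).trans (mul_inv_cancel x₁)
    let B : Subgroup G := A ⊓ centralizer ({x₁} : Set G)
    have hBA : B ≤ A := inf_le_left
    have hmemB : ∀ c ∈ A, c * x₁ * c⁻¹ = x₁ → c ∈ B := by
      intro c hc h
      refine Subgroup.mem_inf.mpr ⟨hc, ?_⟩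
      rw [mem_centralizer_iff]
      intro z hz
      rw [Set.mem_singleton_iff] at hz
      rw [hz]
      calc x₁ * c = (c * x₁ * c⁻¹) * c := by rw [h]
        _ = c * x₁ := by group
    have hBcent : ∀ c ∈ B, c * x₁ * c⁻¹ = x₁ := by
      intro c hc
      have := (mem_centralizer_iff.mp (Subgroup.mem_inf.mp hc).2) x₁ rfl
      rw [← this]
      group
    have haB : a ∉ B := fun h => hx₁ne ((hBcent a h).symm.trans hax₁)
    have hidx : B.relIndex A = 2 := by
      rw [Subgroup.relIndex_eq_two_iff]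
      refine ⟨a, haA, fun b hb => ?_⟩
      by_cases hbB : b ∈ B
      · refine Or.inr ⟨hbB, fun h => haB ?_⟩
        have := B.mul_mem (B.inv_mem hbB) h
        simpa using this
      · refine Or.inl ⟨?_, hbB⟩
        apply hmemB _ (A.mul_mem hb haA)
        rcases hx₁eig b (hAA' hb) with h | h
        · exact absurd (hmemB b hb h) hbB
        · calc b * a * x₁ * (b * a)⁻¹ = b * (a * x₁ * a⁻¹) * b⁻¹ := by group
            _ = (b * x₁ * b⁻¹)⁻¹ := by rw [hax₁]; group
            _ = x₁ := by rw [h, inv_inv]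
    have hcardB : Nat.card ↥B = 2 ^ d := by
      have h1 := card_mul_relIndex_of_le hBA
      rw [hidx, hcard, pow_succ] at h1
      exact Nat.eq_of_mul_eq_mul_right (by norm_num) h1
    obtain ⟨y, hy, hyreal⟩ := ih B (hBA.trans hAA') hcardB (fun c hc => hfaith c (hBA hc))
    obtain ⟨ca, hcaB, hca⟩ := hyreal (fun i => decide (a * y i * a⁻¹ = (y i)⁻¹))
    have ha₁y : ∀ i, (a * ca) * y i * (a * ca)⁻¹ = y i := by
      intro i
      have e : (a * ca) * y i * (a * ca)⁻¹ = a * (ca * y i * ca⁻¹) * a⁻¹ := by group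
      rw [e, hca i]
      by_cases h : a * y i * a⁻¹ = (y i)⁻¹
      · simp only [h, decide_true, if_true]
        have : a * (y i)⁻¹ * a⁻¹ = (a * y i * a⁻¹)⁻¹ := by group
        rw [this, h, inv_inv]
      · simp only [h, decide_false, Bool.false_eq_true, if_false]
        rcases (hy i).2.2 a (hAA' haA) with h' | h'
        · exact h'
        · exact absurd h' h
    have ha₁x : (a * ca) * x₁ * (a * ca)⁻¹ = x₁⁻¹ := by
      have e : (a * ca) * x₁ * (a * ca)⁻¹ = a * (ca * x₁ * ca⁻¹) * a⁻¹ := by group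
      rw [e, hBcent ca hcaB, hax₁]
    refine ⟨Fin.cons x₁ y, ?_, ?_⟩
    · intro i
      refine Fin.cases ?_ (fun j => ?_) i
      · simpa using ⟨hx₁E, hx₁1, hx₁eig⟩
      · simpa using hy j
    · intro ε
      obtain ⟨c₀, hc₀B, hc₀⟩ := hyreal (fun j => ε j.succ)
      by_cases h0 : ε 0 = true
      · refine ⟨(a * ca) * c₀, A.mul_mem (A.mul_mem haA (hBA hcaB)) (hBA hc₀B), fun i => ?_⟩
        refine Fin.cases ?_ (fun j => ?_) i
        · simp only [Fin.cons_zero, h0, if_true]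
          have e : (a * ca) * c₀ * x₁ * ((a * ca) * c₀)⁻¹ =
              (a * ca) * (c₀ * x₁ * c₀⁻¹) * (a * ca)⁻¹ := by group
          rw [e, hBcent c₀ hc₀B, ha₁x]
        · simp only [Fin.cons_succ]
          have e : (a * ca) * c₀ * y j * ((a * ca) * c₀)⁻¹ =
              (a * ca) * (c₀ * y j * c₀⁻¹) * (a * ca)⁻¹ := by group
          rw [e, hc₀ j]
          split_ifs
          · have : (a * ca) * (y j)⁻¹ * (a * ca)⁻¹ = ((a * ca) * y j * (a * ca)⁻¹)⁻¹ := by group
            rw [this, ha₁y j]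
          · exact ha₁y j
      · refine ⟨c₀, hBA hc₀B, fun i => ?_⟩
        refine Fin.cases ?_ (fun j => ?_) i
        · simp only [Fin.cons_zero, h0, if_false]
          exact hBcent c₀ hc₀B
        · simp only [Fin.cons_succ]
          exact hc₀ j

/-- **Thompson's dihedral lemma** for a solvable group of odd order. -/
theorem thompson_dihedral {G : Type u} [Group G] [Finite G] (L A : Subgroup G)
    (hLs : Group.IsSolvable ↥L) (hLodd : Odd (Nat.card ↥L)) (hA : Cfsg.IsElementaryAbelian 2 A)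
    (d : ℕ) (hAd : Nat.card ↥A = 2 ^ d) (hAL : A ≤ Subgroup.normalizer (L : Set G))
    (hfaith : A ⊓ Subgroup.centralizer (L : Set G) = ⊥) :
    ∃ (Ai : Fin d → Subgroup G) (Li : Fin d → Subgroup G) (n : Fin d → ℕ),
      (∀ i, Ai i ≤ A ∧ Nat.card ↥(Ai i) = 2 ∧ Li i ≤ L ∧ Odd (n i) ∧ 3 ≤ n i ∧
        Nonempty (↥(Ai i ⊔ Li i) ≃* DihedralGroup (n i))) ∧ (⨆ i, Ai i) = A ∧
      ∀ i j, i ≠ j → ∀ x ∈ Ai i ⊔ Li i, ∀ y ∈ Ai j ⊔ Li j, x * y = y * x := by
  classical
  obtain ⟨hAcomm', hA2'⟩ := hA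
  have hcomm : ∀ a ∈ A, ∀ b ∈ A, a * b = b * a := by
    intro a ha b hb
    have := (isMulCommutative_iff.mp hAcomm') (⟨a, ha⟩ : ↥A) ⟨b, hb⟩
    exact congrArg Subtype.val this
  have hsq : ∀ a ∈ A, a * a = 1 := fun a ha => by rw [← pow_two]; exact hA2' a ha
  let F : Subgroup G := (Cfsg.fittingSubgroup ↥L).map L.subtype
  have hFL : F ≤ L := Subgroup.map_subtype_le _
  have hFmem : ∀ f, f ∈ F ↔ ∃ f' : ↥L, f' ∈ Cfsg.fittingSubgroup ↥L ∧ (f' : G) = f := by
    intro f
    show f ∈ (Cfsg.fittingSubgroup ↥L).map L.subtype ↔ _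
    rw [Subgroup.mem_map]
    rfl
  have hnil : Group.IsNilpotent ↥F := by
    haveI := fitting_nilpotent ↥L
    exact Group.nilpotent_of_mulEquiv
      ((Cfsg.fittingSubgroup ↥L).equivMapOfInjective _ (Subgroup.subtype_injective _))
  have hFodd : Odd (Nat.card ↥F) := hLodd.of_dvd_nat (Subgroup.card_dvd_of_le hFL)
  have hAF : ∀ a ∈ A, ∀ f ∈ F, a * f * a⁻¹ ∈ F := by
    intro a ha f hf
    rw [hFmem] at hf ⊢
    obtain ⟨f', hf', rfl⟩ := hf
    have hchar := (Subgroup.characteristic_iff_map_le.mp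
      (inferInstance : (Cfsg.fittingSubgroup ↥L).Characteristic))
      (L.normalizerMonoidHom ⟨a, hAL ha⟩)
    exact ⟨_, hchar ⟨f', hf', rfl⟩, by simp⟩
  have hLF : ∀ l ∈ L, ∀ f ∈ F, l * f * l⁻¹ ∈ F := by
    intro l hl f hf
    rw [hFmem] at hf ⊢
    obtain ⟨f', hf', rfl⟩ := hf
    haveI : (Cfsg.fittingSubgroup ↥L).Normal := Subgroup.normal_of_characteristic _
    exact ⟨⟨l, hl⟩ * f' * ⟨l, hl⟩⁻¹, Subgroup.Normal.conj_mem inferInstance f' hf' ⟨l, hl⟩, by simp⟩
  obtain ⟨E, hEF, hEab, hAE, hEfaith⟩ := exists_faithful_abelian F A hnil hFodd hcomm hsq hAF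
  have hLno2 : ∀ c ∈ L, c * c = 1 → c = 1 := by
    intro c hc h
    have h1 : orderOf c ∣ 2 := orderOf_dvd_of_pow_eq_one (by rw [pow_two]; exact h)
    have h2 : orderOf c ∣ Nat.card ↥L := Subgroup.orderOf_dvd_natCard L hc
    have h3 : orderOf c = 1 := by
      rcases (Nat.dvd_prime Nat.prime_two).mp h1 with h | h
      · exact h
      · exfalso
        rw [h] at h2
        exact (Nat.not_even_iff_odd.mpr hLodd) (even_iff_two_dvd.mpr h2)
    exact orderOf_eq_one_iff.mp h3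
  have hfaithE : ∀ a ∈ A, (∀ e ∈ E, a * e * a⁻¹ = e) → a = 1 := by
    intro a ha hE
    have hF := hEfaith a ha hE
    have hLc : ∀ l ∈ L, a * l * a⁻¹ = l := by
      intro l hl
      have hal : a * l * a⁻¹ ∈ L := (mem_normalizer_iff.mp (hAL ha) l).mp hl
      have hcL : a * l * a⁻¹ * l⁻¹ ∈ L := L.mul_mem hal (L.inv_mem hl)
      have hcF : a * l * a⁻¹ * l⁻¹ ∈ F := by
        have hcent : (⟨a * l * a⁻¹ * l⁻¹, hcL⟩ : ↥L) ∈
            Subgroup.centralizer (Cfsg.fittingSubgroup ↥L : Set ↥L) := by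
          rw [mem_centralizer_iff]
          intro f hf
          apply Subtype.ext
          have hfF : (f : G) ∈ F := (hFmem _).mpr ⟨f, hf, rfl⟩
          have hf₁ : l⁻¹ * (f : G) * l ∈ F := by simpa using hLF l⁻¹ (L.inv_mem hl) _ hfF
          have h1 : a * (l⁻¹ * (f : G) * l) * a⁻¹ = l⁻¹ * (f : G) * l := hF _ hf₁
          have h2 : a * (f : G) * a⁻¹ = (f : G) := hF _ hfF
          have h1' : a⁻¹ * (l⁻¹ * (f : G) * l) = (l⁻¹ * (f : G) * l) * a⁻¹ := by
            calc a⁻¹ * (l⁻¹ * (f : G) * l) = a⁻¹ * (a * (l⁻¹ * (f : G) * l) * a⁻¹) := by rw [h1]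
              _ = (l⁻¹ * (f : G) * l) * a⁻¹ := by group
          show (f : G) * (a * l * a⁻¹ * l⁻¹) = (a * l * a⁻¹ * l⁻¹) * (f : G)
          symm
          calc a * l * a⁻¹ * l⁻¹ * (f : G) = a * l * (a⁻¹ * (l⁻¹ * (f : G) * l)) * l⁻¹ := by group
            _ = a * l * ((l⁻¹ * (f : G) * l) * a⁻¹) * l⁻¹ := by rw [h1']
            _ = (a * (f : G) * a⁻¹) * (a * l * a⁻¹ * l⁻¹) := by group
            _ = (f : G) * (a * l * a⁻¹ * l⁻¹) := by rw [h2]
        exact (hFmem _).mpr ⟨_, centralizer_fitting_le_of_solvable ↥L hLs hcent, rfl⟩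
      have h3 : a * (a * l * a⁻¹ * l⁻¹) * a⁻¹ = a * l * a⁻¹ * l⁻¹ := hF _ hcF
      have h4 : (a * l * a⁻¹ * l⁻¹) * (a * l * a⁻¹ * l⁻¹) = 1 := by
        have e : a * (a * l * a⁻¹ * l⁻¹) * a⁻¹ * (a * l * a⁻¹ * l⁻¹) =
            (a * a) * l * (a * a)⁻¹ * l⁻¹ := by group
        rw [h3, hsq a ha] at e
        rw [e]
        group
      exact mul_inv_eq_one.mp (hLno2 _ hcL h4)
    have hmem : a ∈ A ⊓ Subgroup.centralizer (L : Set G) := by
      refine Subgroup.mem_inf.mpr ⟨ha, ?_⟩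
      rw [mem_centralizer_iff]
      intro l hl
      have := hLc l hl
      calc l * a = (a * l * a⁻¹) * a := by rw [this]
        _ = a * l := by group
    rw [hfaith, Subgroup.mem_bot] at hmem
    exact hmem
  obtain ⟨x, hx, hreal⟩ := exists_eigen_basis A E hcomm hsq hEab hAE
    (fun e he => hLno2 e (hFL (hEF he))) d A le_rfl hAd hfaithE
  choose a haA ha using fun i : Fin d => hreal (fun j => decide (j = i))
  have hxL : ∀ i, x i ∈ L := fun i => hFL (hEF (hx i).1)
  have hxne : ∀ i, x i ≠ (x i)⁻¹ := by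
    intro i h
    apply (hx i).2.1
    apply hLno2 _ (hxL i)
    exact (congrArg (fun t => x i * t) h).trans (mul_inv_cancel (x i))
  have haii : ∀ i, a i * x i * (a i)⁻¹ = (x i)⁻¹ := fun i => by simpa using ha i i
  have haij : ∀ i j, j ≠ i → a i * x j * (a i)⁻¹ = x j := fun i j hji => by
    simpa [hji] using ha i j
  have ha1 : ∀ i, a i ≠ 1 := by
    intro i h
    apply hxne i
    have := haii i
    rw [h] at this
    simpa using this
  refine ⟨fun i => zpowers (a i), fun i => zpowers (x i), fun i => orderOf (x i), ?_, ?_, ?_⟩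
  · intro i
    have hodd : Odd (orderOf (x i)) := hLodd.of_dvd_nat (Subgroup.orderOf_dvd_natCard L (hxL i))
    refine ⟨zpowers_le.mpr (haA i), ?_, zpowers_le.mpr (hxL i), hodd, ?_, ?_⟩
    · rw [Nat.card_zpowers]
      haveI : Fact (Nat.Prime 2) := ⟨Nat.prime_two⟩
      exact orderOf_eq_prime (by rw [pow_two]; exact hsq _ (haA i)) (ha1 i)
    · have h1 : orderOf (x i) ≠ 1 := fun h => (hx i).2.1 (orderOf_eq_one_iff.mp h)
      have h0 := orderOf_pos (x i)
      obtain ⟨k, hk⟩ := hodd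
      show 3 ≤ orderOf (x i)
      omega
    · have hnot : a i ∉ zpowers (x i) := by
        intro hmem
        obtain ⟨k, hk⟩ := Subgroup.mem_zpowers_iff.mp hmem
        apply hxne i
        rw [← haii i, ← hk]
        have : Commute (x i ^ k) (x i) := (Commute.refl (x i)).zpow_left k
        rw [this.eq]
        group
      have hinj := Cfsg.Agent.Lib.helper1.dihHom_injective (a i) (x i) (hsq _ (haA i)) (haii i) hnot
      have hrange : (Cfsg.Agent.Lib.helper1.dihHom (a i) (x i) (hsq _ (haA i)) (haii i)).range =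
          zpowers (a i) ⊔ zpowers (x i) := by
        apply le_antisymm
        · rintro _ ⟨g, rfl⟩
          rcases g with k | k
          · rw [Cfsg.Agent.Lib.helper1.dihHom_r]
            exact le_sup_right (α := Subgroup G) (Cfsg.Agent.Lib.helper1.zmodPow_mem_zpowers _ k)
          · rw [Cfsg.Agent.Lib.helper1.dihHom_sr]
            exact mul_mem (le_sup_left (α := Subgroup G) (mem_zpowers (a i)))
              (le_sup_right (α := Subgroup G) (Cfsg.Agent.Lib.helper1.zmodPow_mem_zpowers _ k))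
        · apply sup_le
          · rw [zpowers_le]
            refine ⟨DihedralGroup.sr 0, ?_⟩
            rw [Cfsg.Agent.Lib.helper1.dihHom_sr, Cfsg.Agent.Lib.helper1.zmodPow_zero, mul_one]
          · rw [zpowers_le]
            refine ⟨DihedralGroup.r 1, ?_⟩
            rw [Cfsg.Agent.Lib.helper1.dihHom_r, Cfsg.Agent.Lib.helper1.zmodPow_one]
      exact ⟨(MulEquiv.subgroupCongr hrange).symm.trans (MonoidHom.ofInjective hinj).symm⟩
  · apply le_antisymm (iSup_le fun i => zpowers_le.mpr (haA i))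
    intro c hc
    have hclaim : ∀ I : Finset (Fin d), ∃ c' ∈ ⨆ i, zpowers (a i),
        ∀ j, c' * x j * c'⁻¹ = if j ∈ I then (x j)⁻¹ else x j := by
      intro I
      induction I using Finset.induction_on with
      | empty => exact ⟨1, Subgroup.one_mem _, fun j => by simp⟩
      | insert i I hi ih =>
        obtain ⟨c', hc', h⟩ := ih
        refine ⟨a i * c', Subgroup.mul_mem _
          (le_iSup (fun i => zpowers (a i)) i (mem_zpowers (a i))) hc', fun j => ?_⟩
        have e : a i * c' * x j * (a i * c')⁻¹ = a i * (c' * x j * c'⁻¹) * (a i)⁻¹ := by group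
        rw [e, h j]
        by_cases hji : j = i
        · rw [hji]
          simp only [hi, if_false, Finset.mem_insert_self, if_true]
          exact haii i
        · have hj : (j ∈ insert i I) ↔ j ∈ I := by simp [hji]
          simp only [hj]
          split_ifs
          · have : a i * (x j)⁻¹ * (a i)⁻¹ = (a i * x j * (a i)⁻¹)⁻¹ := by group
            rw [this, haij i j hji]
          · exact haij i j hji
    let Φ : ↥A → (Fin d → Bool) := fun c j => decide ((c : G) * x j * (c : G)⁻¹ = (x j)⁻¹)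
    have hsurj : Function.Surjective Φ := by
      intro ε
      obtain ⟨c, hcA, hc⟩ := hreal ε
      refine ⟨⟨c, hcA⟩, funext fun j => ?_⟩
      show decide (c * x j * c⁻¹ = (x j)⁻¹) = ε j
      rw [hc j]
      cases hε : ε j
      · simp [hxne j]
      · simp
    have hbij := hsurj.bijective_of_nat_card_le (by rw [hAd]; simp [Nat.card_eq_fintype_card])
    obtain ⟨c', hc'A₀, hc'⟩ := hclaim (Finset.univ.filter (fun j => c * x j * c⁻¹ = (x j)⁻¹))
    have hc'A : c' ∈ A := (iSup_le fun i => zpowers_le.mpr (haA i)) hc'A₀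
    have heq : (⟨c', hc'A⟩ : ↥A) = ⟨c, hc⟩ := by
      apply hbij.1
      funext j
      show decide (c' * x j * c'⁻¹ = (x j)⁻¹) = decide (c * x j * c⁻¹ = (x j)⁻¹)
      rw [hc' j]
      by_cases h : c * x j * c⁻¹ = (x j)⁻¹
      · simp [h]
      · simp [h, hxne j]
    have heq' : c' = c := congrArg Subtype.val heq
    rw [← heq']
    exact hc'A₀
  · intro i j hij
    have hcent : ∀ g, g * a j = a j * g → g * x j = x j * g →
        zpowers (a j) ⊔ zpowers (x j) ≤ centralizer ({g} : Set G) := by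
      intro g h1 h2
      apply sup_le
      · rw [zpowers_le, mem_centralizer_iff]
        rintro _ rfl
        exact h1
      · rw [zpowers_le, mem_centralizer_iff]
        rintro _ rfl
        exact h2
    have h1 : a i * a j = a j * a i := hcomm _ (haA i) _ (haA j)
    have h2 : a i * x j = x j * a i := mul_inv_eq_iff_eq_mul.mp (haij i j hij.symm)
    have h3 : x i * a j = a j * x i := (mul_inv_eq_iff_eq_mul.mp (haij j i hij)).symm
    have h4 : x i * x j = x j * x i := hEab _ (hx i).1 _ (hx j).1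
    have hle : zpowers (a i) ⊔ zpowers (x i) ≤
        centralizer ((zpowers (a j) ⊔ zpowers (x j) : Subgroup G) : Set G) := by
      apply sup_le
      · rw [zpowers_le, mem_centralizer_iff]
        intro y hy
        exact ((mem_centralizer_iff.mp (hcent (a i) h1 h2 hy)) (a i) rfl).symm
      · rw [zpowers_le, mem_centralizer_iff]
        intro y hy
        exact ((mem_centralizer_iff.mp (hcent (x i) h3 h4 hy)) (x i) rfl).symm
    intro x' hx' y hy
    exact ((mem_centralizer_iff.mp (hle hx')) y hy).symm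

end Cfsg.Agent.Lib.helper7
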