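import Mathlib
import Cfsg.Agent.S0071
import Cfsg.Agent.Lib.helper6.DihK4
import Cfsg.Agent.Lib.helper8.CoprimeAction
import Cfsg.Agent.Lib.helper7.Fitting

set_option autoImplicit false
set_option linter.style.haveILetI false

namespace Cfsg.Agent.Lib.helper7

open Subgroup Cfsg.Agent.Lib.helper8

universe u

theorem mem_normalizer_of_conj_mem_fin {G : Type*} [Group G] [Finite G] (K : Subgroup G) (g : G)
    (h : ∀ w ∈ K, g * w * g⁻¹ ∈ K) : g ∈ Subgroup.normalizer (K : Set G) := by
  rw [Subgroup.mem_normalizer_iff]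
  intro x
  refine ⟨h x, fun hx => ?_⟩
  let f : K → K := fun w => ⟨g * w * g⁻¹, h w w.2⟩
  have hinj : Function.Injective f := by
    intro a b hab
    have := congrArg Subtype.val hab
    apply Subtype.ext
    simpa [f] using this
  have hsurj : Function.Surjective f := Finite.injective_iff_surjective.mp hinj
  obtain ⟨w, hw⟩ := hsurj ⟨g * x * g⁻¹, hx⟩
  have := congrArg Subtype.val hw
  have h2 : (w : G) = x := by simpa [f] using this
  rw [← h2]
  exact w.2

/-- An element of odd order normalizing a cyclic `2`-group centralizes it. -/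
theorem odd_centralizes_cyclic {X : Type*} [Group X] [Finite X] (Q : Subgroup X)
    (hc : IsCyclic ↥Q) (hQ : IsPGroup 2 ↥Q) (g : X) (hg : g ∈ normalizer (Q : Set X))
    (hodd : Nat.Coprime (orderOf g) 2) : ∀ q ∈ Q, g * q * g⁻¹ = q := by
  obtain ⟨n, hn⟩ := IsPGroup.iff_card.mp hQ
  have h1 : orderOf (Q.normalizerMonoidHom ⟨g, hg⟩) ∣ orderOf g := by
    have := orderOf_map_dvd Q.normalizerMonoidHom (⟨g, hg⟩ : normalizer (Q : Set X))
    rwa [Subgroup.orderOf_mk] at this
  have h2 : orderOf (Q.normalizerMonoidHom ⟨g, hg⟩) ∣ 2 ^ n := by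
    have h3 : orderOf (Q.normalizerMonoidHom ⟨g, hg⟩) ∣ Nat.card (MulAut ↥Q) :=
      orderOf_dvd_natCard _
    rw [IsCyclic.card_mulAut, hn] at h3
    refine dvd_trans h3 ?_
    rcases Nat.eq_zero_or_pos n with h0 | h0
    · rw [h0]; simp
    · rw [Nat.totient_prime_pow Nat.prime_two h0]
      simp only [Nat.add_one_sub_one, mul_one]
      exact pow_dvd_pow 2 (by omega)
  have h4 : orderOf (Q.normalizerMonoidHom ⟨g, hg⟩) = 1 :=
    Nat.eq_one_of_dvd_coprimes (Nat.Coprime.pow_right n hodd) h1 h2
  have h5 := orderOf_eq_one_iff.mp h4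
  intro q hq
  have := congrArg (fun φ : MulAut ↥Q => ((φ ⟨q, hq⟩ : ↥Q) : X)) h5
  simpa using this

/-- The index-two step for odd-order elements acting on a `2`-group. -/
theorem odd_centralizes_of_step {X : Type*} [Group X] [Finite X] (Q Q₁ : Subgroup X)
    (hQ₁ : IsPGroup 2 ↥Q₁) (g : X) (hodd : Nat.Coprime (orderOf g) 2)
    (hcen : ∀ y ∈ Q₁, g * y * g⁻¹ = y) (hstep : ∀ x ∈ Q, (g * x * g⁻¹) * x⁻¹ ∈ Q₁) :
    ∀ x ∈ Q, g * x * g⁻¹ = x := by
  intro x hx
  obtain ⟨d, hdQ, hdx⟩ : ∃ d ∈ Q₁, g * x * g⁻¹ = d * x :=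
    ⟨(g * x * g⁻¹) * x⁻¹, hstep x hx, by group⟩
  have hpow : ∀ k : ℕ, g ^ k * x * (g ^ k)⁻¹ = d ^ k * x := by
    intro k
    induction k with
    | zero => simp
    | succ k ih =>
      have e : g ^ (k + 1) * x * (g ^ (k + 1))⁻¹ = g * (g ^ k * x * (g ^ k)⁻¹) * g⁻¹ := by
        rw [pow_succ']; group
      have e2 : g * (d ^ k * x) * g⁻¹ = (g * d ^ k * g⁻¹) * (g * x * g⁻¹) := by group
      rw [e, ih, e2, ← conj_pow, hcen d hdQ, hdx, ← mul_assoc, ← pow_succ]
  have h1 := hpow (orderOf g)
  rw [pow_orderOf_eq_one] at h1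
  have h2 : d ^ orderOf g = 1 := by
    have : x = d ^ orderOf g * x := by simpa using h1
    have h3 : d ^ orderOf g * x = 1 * x := by rw [one_mul]; exact this.symm
    exact mul_right_cancel h3
  obtain ⟨j, hj⟩ := hQ₁ ⟨d, hdQ⟩
  have h3 : d ^ 2 ^ j = 1 := by simpa using congrArg Subtype.val hj
  have h4 : orderOf d ∣ orderOf g := orderOf_dvd_of_pow_eq_one h2
  have h5 : orderOf d ∣ 2 ^ j := orderOf_dvd_of_pow_eq_one h3
  have h6 : orderOf d = 1 := Nat.eq_one_of_dvd_coprimes (Nat.Coprime.pow_right j hodd) h4 h5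
  have h7 : d = 1 := orderOf_eq_one_iff.mp h6
  rw [hdx, h7, one_mul]

/-- The rotation subgroup of a group isomorphic to a dihedral group. -/
theorem dih_struct {X : Type*} [Group X] (S : Subgroup X) (m : ℕ) (eS : ↥S ≃* DihedralGroup m) :
    ∃ ρ ∈ S, (∀ x ∈ S, x ∉ zpowers ρ → x * x = 1) ∧
      (∀ x ∈ S, ∀ y ∈ S, x ∉ zpowers ρ → y ∉ zpowers ρ → y * x⁻¹ ∈ zpowers ρ) := by
  have key : ∀ x (hx : x ∈ S) (i : ZMod m), eS ⟨x, hx⟩ = DihedralGroup.r i →
      x ∈ zpowers ((eS.symm (DihedralGroup.r 1) : ↥S) : X) := by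
    intro x hx i hi
    have h1 : (⟨x, hx⟩ : ↥S) = (eS.symm (DihedralGroup.r 1)) ^ (ZMod.cast i : ℤ) := by
      apply eS.injective
      rw [map_zpow, MulEquiv.apply_symm_apply, DihedralGroup.r_one_zpow, ZMod.intCast_zmod_cast, hi]
    rw [Subgroup.mem_zpowers_iff]
    refine ⟨(ZMod.cast i : ℤ), ?_⟩
    have := congrArg Subtype.val h1
    simpa using this.symm
  refine ⟨(eS.symm (DihedralGroup.r 1) : ↥S), (eS.symm (DihedralGroup.r 1)).2, ?_, ?_⟩
  · intro x hx hxR
    rcases h : eS ⟨x, hx⟩ with i | i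
    · exact absurd (key x hx i h) hxR
    · have h1 : (⟨x, hx⟩ : ↥S) * ⟨x, hx⟩ = 1 := by
        apply eS.injective
        rw [map_mul, h, DihedralGroup.sr_mul_self, map_one]
      have := congrArg Subtype.val h1
      simpa using this
  · intro x hx y hy hxR hyR
    rcases h : eS ⟨x, hx⟩ with i | i
    · exact absurd (key x hx i h) hxR
    · rcases h' : eS ⟨y, hy⟩ with j | j
      · exact absurd (key y hy j h') hyR
      · have h1 : eS ⟨y * x⁻¹, S.mul_mem hy (S.inv_mem hx)⟩ = DihedralGroup.r (i - j) := by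
          have e : (⟨y * x⁻¹, S.mul_mem hy (S.inv_mem hx)⟩ : ↥S) = ⟨y, hy⟩ * (⟨x, hx⟩)⁻¹ := rfl
          rw [e, map_mul, map_inv, h, h']
          simp
        exact key _ _ _ h1

/-- In a group with a normal complement `N` to the subgroup `S`, the normalizer of a subgroup
`U` of `S` is `C(U) (S ∩ N(U))`. -/
theorem normalizer_eq_of_complement {X : Type*} [Group X] (S N U : Subgroup X) [hN : N.Normal]
    (hdisj : N ⊓ S = ⊥) (hprod : ∀ x : X, ∃ n ∈ N, ∃ s ∈ S, x = n * s) (hU : U ≤ S) :
    normalizer (U : Set X) = centralizer (U : Set X) ⊔ (S ⊓ normalizer (U : Set X)) := by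
  apply le_antisymm
  · intro x hx
    obtain ⟨n, hn, s, hs, rfl⟩ := hprod x
    have hconj : ∀ u ∈ U, n * s * u * (n * s)⁻¹ = s * u * s⁻¹ := by
      intro u hu
      have h1 : n * s * u * (n * s)⁻¹ ∈ U := (mem_normalizer_iff.mp hx u).mp hu
      have hv : s * u * s⁻¹ ∈ S := S.mul_mem (S.mul_mem hs (hU hu)) (S.inv_mem hs)
      have hw1 : n * (s * u * s⁻¹) * n⁻¹ * (s * u * s⁻¹)⁻¹ ∈ N := by
        have := hN.conj_mem n⁻¹ (N.inv_mem hn) (s * u * s⁻¹)
        have h2 := N.mul_mem hn this
        have e : n * ((s * u * s⁻¹) * n⁻¹ * (s * u * s⁻¹)⁻¹) =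
            n * (s * u * s⁻¹) * n⁻¹ * (s * u * s⁻¹)⁻¹ := by group
        rwa [e] at h2
      have hw2 : n * (s * u * s⁻¹) * n⁻¹ * (s * u * s⁻¹)⁻¹ ∈ S := by
        have e : n * (s * u * s⁻¹) * n⁻¹ = n * s * u * (n * s)⁻¹ := by group
        rw [e]
        exact S.mul_mem (hU h1) (S.inv_mem hv)
      have hw : n * (s * u * s⁻¹) * n⁻¹ * (s * u * s⁻¹)⁻¹ ∈ N ⊓ S := Subgroup.mem_inf.mpr ⟨hw1, hw2⟩
      rw [hdisj, Subgroup.mem_bot] at hw
      have e : n * s * u * (n * s)⁻¹ = n * (s * u * s⁻¹) * n⁻¹ := by group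
      rw [e]
      exact mul_inv_eq_one.mp hw
    have hc : s⁻¹ * (n * s) ∈ centralizer (U : Set X) := by
      rw [mem_centralizer_iff]
      intro u hu
      have h1 := hconj u hu
      have e : s⁻¹ * (n * s) * u = s⁻¹ * (n * s * u * (n * s)⁻¹) * (n * s) := by group
      rw [e, h1]
      group
    have hsN : s ∈ normalizer (U : Set X) := by
      have h1 : n * s ∈ normalizer (U : Set X) := hx
      have h2 := (normalizer (U : Set X)).mul_mem h1
        ((normalizer (U : Set X)).inv_mem (Subgroup.centralizer_le_normalizer _ hc))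
      have e : n * s * (s⁻¹ * (n * s))⁻¹ = s := by group
      rwa [e] at h2
    have e : n * s = s * (s⁻¹ * (n * s)) := by group
    rw [e]
    exact mul_mem (le_sup_right (α := Subgroup X) (Subgroup.mem_inf.mpr ⟨hs, hsN⟩))
      (le_sup_left (α := Subgroup X) hc)
  · exact sup_le (Subgroup.centralizer_le_normalizer _) inf_le_right

/-- Dihedral Sylow `2`-subgroups: normal `2`-complement iff the four-groups have `2`-group
automizers realized in `S`. -/
theorem dihedral_sylow_normal_complement_iff {X : Type u} [Group X] [Finite X] (S : Sylow 2 X)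
    (m : ℕ) (eS : (S : Subgroup X) ≃* DihedralGroup m) :
    Cfsg.HasNormalPComplement 2 X ↔ ∀ U : Subgroup X, U ≤ S → IsKleinFour U →
      Subgroup.normalizer (U : Set X) =
        Subgroup.centralizer (U : Set X) ⊔ ((S : Subgroup X) ⊓ Subgroup.normalizer (U : Set X)) := by
  classical
  haveI : Fact (Nat.Prime 2) := ⟨Nat.prime_two⟩
  constructor
  · rintro ⟨P, N, hN, hc⟩ U hU _
    have hcard := hc.card_mul_card
    have hPS : Nat.card ↥(P : Subgroup X) = Nat.card ↥(S : Subgroup X) := by
      rw [Sylow.card_eq_multiplicity, Sylow.card_eq_multiplicity]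
    have hcop : (Nat.card ↥N).Coprime (Nat.card ↥(S : Subgroup X)) := by
      have h1 := Subgroup.card_mul_index (P : Subgroup X)
      have h2 : Nat.card ↥N = (P : Subgroup X).index := by
        have h3 : Nat.card ↥N * Nat.card ↥(P : Subgroup X) =
            (P : Subgroup X).index * Nat.card ↥(P : Subgroup X) := by rw [hcard, ← h1, mul_comm]
        exact Nat.eq_of_mul_eq_mul_right Nat.card_pos h3
      rw [h2, ← hPS]
      exact (Sylow.card_coprime_index P).symm
    have hc' : N.IsComplement' (S : Subgroup X) :=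
      Subgroup.isComplement'_of_coprime (by rw [← hPS]; exact hcard) hcop
    have hdisj : N ⊓ (S : Subgroup X) = ⊥ := disjoint_iff.mp hc'.disjoint
    have hSN : (S : Subgroup X) ≤ normalizer (N : Set X) := by
      rw [Subgroup.normalizer_eq_top]
      exact le_top
    have hprod : ∀ x : X, ∃ n ∈ N, ∃ s ∈ (S : Subgroup X), x = n * s := by
      intro x
      have hx : x ∈ N ⊔ (S : Subgroup X) := by rw [hc'.sup_eq_top]; trivial
      exact (mem_sup_iff_of_le_normalizer hSN x).mp hx
    exact normalizer_eq_of_complement (S : Subgroup X) N U hdisj hprod hU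
  · intro hyp
    obtain ⟨ρ, hρS, hF2, hF3⟩ := dih_struct (S : Subgroup X) m eS
    have hfrob : ∀ Q : Subgroup X, Q ≤ (S : Subgroup X) → ∀ g ∈ Subgroup.normalizer (Q : Set X),
        Nat.Coprime (orderOf g) 2 → g ∈ Subgroup.centralizer (Q : Set X) := by
      intro Q hQS g hg hodd
      have hconj : ∀ q ∈ Q, g * q * g⁻¹ ∈ Q := fun q hq => (mem_normalizer_iff.mp hg q).mp hq
      have hcent_of : (∀ q ∈ Q, g * q * g⁻¹ = q) → g ∈ Subgroup.centralizer (Q : Set X) := by
        intro h
        rw [mem_centralizer_iff]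
        intro q hq
        have := h q hq
        calc q * g = (g * q * g⁻¹) * g := by rw [this]
          _ = g * q := by group
      have hRS : zpowers ρ ≤ (S : Subgroup X) := zpowers_le.mpr hρS
      have hQ₁p : IsPGroup 2 ↥(Q ⊓ zpowers ρ) := S.isPGroup'.to_le (inf_le_left.trans hQS)
      haveI hcyc : IsCyclic ↥(Q ⊓ zpowers ρ) := by
        haveI : IsCyclic ↥((Q ⊓ zpowers ρ).subgroupOf (zpowers ρ)) := inferInstance
        exact isCyclic_of_surjective
          (Subgroup.subgroupOfEquivOfLe (inf_le_right : Q ⊓ zpowers ρ ≤ zpowers ρ))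
          (Subgroup.subgroupOfEquivOfLe (inf_le_right : Q ⊓ zpowers ρ ≤ zpowers ρ)).surjective
      obtain ⟨c, hc⟩ := IsCyclic.exists_generator (α := ↥(Q ⊓ zpowers ρ))
      have hcQ : (c : X) ∈ Q := (Subgroup.mem_inf.mp c.2).1
      have hgen : ∀ y ∈ Q ⊓ zpowers ρ, ∃ k : ℤ, (c : X) ^ k = y := by
        intro y hy
        obtain ⟨k, hk⟩ := Subgroup.mem_zpowers_iff.mp (hc ⟨y, hy⟩)
        refine ⟨k, ?_⟩
        have := congrArg Subtype.val hk
        simpa using this
      -- when `g` maps `c` into `Q ⊓ R`, everything follows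
      have hmain : g * (c : X) * g⁻¹ ∈ Q ⊓ zpowers ρ → g ∈ Subgroup.centralizer (Q : Set X) := by
        intro hgc
        have hnorm : g ∈ normalizer ((Q ⊓ zpowers ρ : Subgroup X) : Set X) := by
          apply mem_normalizer_of_conj_mem_fin
          intro y hy
          obtain ⟨k, rfl⟩ := hgen y hy
          have e : g * (c : X) ^ k * g⁻¹ = (g * (c : X) * g⁻¹) ^ k := by
            rw [conj_zpow]
          rw [e]
          exact Subgroup.zpow_mem _ hgc k
        have hcen := odd_centralizes_cyclic (Q ⊓ zpowers ρ) hcyc hQ₁p g hnorm hodd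
        apply hcent_of
        apply odd_centralizes_of_step Q (Q ⊓ zpowers ρ) hQ₁p g hodd hcen
        intro x hx
        by_cases hxR : x ∈ zpowers ρ
        · have hx1 : x ∈ Q ⊓ zpowers ρ := Subgroup.mem_inf.mpr ⟨hx, hxR⟩
          rw [hcen x hx1, mul_inv_cancel]
          exact Subgroup.one_mem _
        · have hyR : g * x * g⁻¹ ∉ zpowers ρ := by
            intro hy
            have hy1 : g * x * g⁻¹ ∈ Q ⊓ zpowers ρ := Subgroup.mem_inf.mpr ⟨hconj x hx, hy⟩
            have h1 := hcen _ hy1
            have h2 : g * x * g⁻¹ = x := by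
              have e : g * (g * x * g⁻¹) * g⁻¹ = g * x * g⁻¹ → g * x * g⁻¹ = x := by
                intro h
                have h3 := congrArg (fun t => g⁻¹ * t * g) h
                have e1 : g⁻¹ * (g * (g * x * g⁻¹) * g⁻¹) * g = g * x * g⁻¹ := by group
                have e2 : g⁻¹ * (g * x * g⁻¹) * g = x := by group
                rw [e1, e2] at h3
                exact h3
              exact e h1
            rw [h2] at hy
            exact hxR hy
          exact Subgroup.mem_inf.mpr ⟨Q.mul_mem (hconj x hx) (Q.inv_mem hx),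
            hF3 x (hQS hx) _ (hQS (hconj x hx)) hxR hyR⟩
      by_cases hQR : Q ≤ zpowers ρ
      · exact hmain (Subgroup.mem_inf.mpr ⟨hconj _ hcQ, hQR (hconj _ hcQ)⟩)
      · by_cases hc2 : (c : X) * (c : X) = 1
        · by_cases hc1 : (c : X) = 1
          · apply hmain
            rw [hc1]
            simp
          · -- Klein four case
            have hsq : ∀ t ∈ Q, t * t = 1 := by
              intro t ht
              by_cases htR : t ∈ zpowers ρ
              · obtain ⟨k, rfl⟩ := hgen t (Subgroup.mem_inf.mpr ⟨ht, htR⟩)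
                rw [← zpow_add, ← two_mul, zpow_mul, zpow_two, hc2, one_zpow]
              · exact hF2 t (hQS ht) htR
            obtain ⟨a, haQ, haR⟩ := SetLike.not_le_iff_exists.mp hQR
            have hidx : (Q ⊓ zpowers ρ).relIndex Q = 2 := by
              rw [Subgroup.relIndex_eq_two_iff]
              refine ⟨a, haQ, fun b hb => ?_⟩
              by_cases hbR : b ∈ zpowers ρ
              · refine Or.inr ⟨Subgroup.mem_inf.mpr ⟨hb, hbR⟩, fun h => haR ?_⟩
                have h1 := (Subgroup.mem_inf.mp h).2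
                have h2 := (zpowers ρ).mul_mem ((zpowers ρ).inv_mem hbR) h1
                simpa using h2
              · refine Or.inl ⟨Subgroup.mem_inf.mpr ⟨Q.mul_mem hb haQ, ?_⟩,
                  fun h => hbR (Subgroup.mem_inf.mp h).2⟩
                have haR' : a⁻¹ ∉ zpowers ρ := fun h => haR (by simpa using (zpowers ρ).inv_mem h)
                have := hF3 a⁻¹ (hQS (Q.inv_mem haQ)) b (hQS hb) haR' hbR
                simpa using this
            have hcard1 : Nat.card ↥(Q ⊓ zpowers ρ) = 2 := by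
              rw [← orderOf_eq_card_of_forall_mem_zpowers hc]
              apply orderOf_eq_prime
              · apply Subtype.ext
                simp [pow_two, hc2]
              · intro h
                exact hc1 (congrArg Subtype.val h)
            have hcard : Nat.card ↥Q = 4 := by
              have := card_mul_relIndex_of_le (inf_le_left : Q ⊓ zpowers ρ ≤ Q)
              rw [hidx, hcard1] at this
              omega
            have hK : IsKleinFour ↥Q := Cfsg.Agent.Lib.helper6.klein_of Q hcard hsq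
            have hNQ := hyp Q hQS hK
            have hTN : (S : Subgroup X) ⊓ normalizer (Q : Set X) ≤
                normalizer ((centralizer (Q : Set X) : Subgroup X) : Set X) := by
              apply le_normalizer_of_conj_mem
              intro t ht z hz
              have htN := (Subgroup.mem_inf.mp ht).2
              rw [mem_centralizer_iff] at hz ⊢
              intro u hu
              have h1 := hz (t⁻¹ * u * t) (conj_mem_of_mem_normalizer' htN hu)
              calc u * (t * z * t⁻¹) = t * ((t⁻¹ * u * t) * z) * t⁻¹ := by group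
                _ = t * (z * (t⁻¹ * u * t)) * t⁻¹ := by rw [h1]
                _ = t * z * t⁻¹ * u := by group
            have hg' : g ∈ centralizer (Q : Set X) ⊔ ((S : Subgroup X) ⊓ normalizer (Q : Set X)) := by
              rw [← hNQ]; exact hg
            obtain ⟨z, hz, t, ht, rfl⟩ := (mem_sup_iff_of_le_normalizer hTN g).mp hg'
            have htN := (Subgroup.mem_inf.mp ht).2
            have htS := (Subgroup.mem_inf.mp ht).1
            have hzN : z ∈ normalizer (Q : Set X) := Subgroup.centralizer_le_normalizer _ hz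
            have hψz : Q.normalizerMonoidHom ⟨z, hzN⟩ = 1 := by
              rw [← MonoidHom.mem_ker, Subgroup.normalizerMonoidHom_ker, Subgroup.mem_subgroupOf]
              exact hz
            have hψ : Q.normalizerMonoidHom ⟨z * t, hg⟩ = Q.normalizerMonoidHom ⟨t, htN⟩ := by
              have e : (⟨z * t, hg⟩ : normalizer (Q : Set X)) = ⟨z, hzN⟩ * ⟨t, htN⟩ := rfl
              rw [e, map_mul, hψz, one_mul]
            have h1 : orderOf (Q.normalizerMonoidHom ⟨z * t, hg⟩) ∣ orderOf (z * t) := by
              have := orderOf_map_dvd Q.normalizerMonoidHom (⟨z * t, hg⟩ : normalizer (Q : Set X))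
              rwa [Subgroup.orderOf_mk] at this
            obtain ⟨j, hj⟩ := S.isPGroup' ⟨t, htS⟩
            have hj' : t ^ 2 ^ j = 1 := by simpa using congrArg Subtype.val hj
            have h2 : orderOf (Q.normalizerMonoidHom ⟨z * t, hg⟩) ∣ 2 ^ j := by
              rw [hψ]
              have := orderOf_map_dvd Q.normalizerMonoidHom (⟨t, htN⟩ : normalizer (Q : Set X))
              rw [Subgroup.orderOf_mk] at this
              exact dvd_trans this (orderOf_dvd_of_pow_eq_one hj')
            have h3 : orderOf (Q.normalizerMonoidHom ⟨z * t, hg⟩) = 1 :=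
              Nat.eq_one_of_dvd_coprimes (Nat.Coprime.pow_right j hodd) h1 h2
            have h4 : (⟨z * t, hg⟩ : normalizer (Q : Set X)) ∈ Q.normalizerMonoidHom.ker :=
              MonoidHom.mem_ker.mpr (orderOf_eq_one_iff.mp h3)
            rw [Subgroup.normalizerMonoidHom_ker, Subgroup.mem_subgroupOf] at h4
            exact h4
        · apply hmain
          refine Subgroup.mem_inf.mpr ⟨hconj _ hcQ, ?_⟩
          by_contra hnR
          have h1 := hF2 _ (hQS (hconj _ hcQ)) hnR
          apply hc2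
          have e : g * (c : X) * g⁻¹ * (g * (c : X) * g⁻¹) = g * ((c : X) * (c : X)) * g⁻¹ := by group
          rw [e] at h1
          have h2 := congrArg (fun t => g⁻¹ * t * g) h1
          have e1 : g⁻¹ * (g * ((c : X) * (c : X)) * g⁻¹) * g = (c : X) * (c : X) := by group
          rw [e1] at h2
          rw [h2]
          group
    obtain ⟨N, hN, hc⟩ := (Cfsg.Agent.S0071.result S).mpr hfrob
    exact ⟨S, N, hN, hc⟩

end Cfsg.Agent.Lib.helper7
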