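import Mathlib
import Cfsg.Agent.Lib.helper7.DihSyl
import Cfsg.Agent.S0111

set_option autoImplicit false
open scoped Pointwise

namespace Cfsg.Agent.Lib.helper7

open Subgroup Cfsg.Agent.Lib.helper8

theorem zpow_involution {X : Type*} [Group X] (a : X) (ha : a * a = 1) (k : ℤ) :
    a ^ k = 1 ∨ a ^ k = a := by
  rcases Int.even_or_odd k with ⟨j, rfl⟩ | ⟨j, rfl⟩
  · left
    rw [zpow_add, ← (Commute.refl a).mul_zpow, ha, one_zpow]
  · right
    rw [zpow_add, zpow_one, two_mul, zpow_add, ← (Commute.refl a).mul_zpow, ha, one_zpow, one_mul]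

theorem invol_iff {X : Type*} [Group X] (a : X) : orderOf a = 2 ↔ a * a = 1 ∧ a ≠ 1 := by
  haveI : Fact (Nat.Prime 2) := ⟨Nat.prime_two⟩
  rw [orderOf_eq_prime_iff, pow_two]

/-- The four-group generated by two commuting involutions. -/
def fourGp {X : Type*} [Group X] (a b : X) (ha : a * a = 1) (hb : b * b = 1)
    (hab : a * b = b * a) : Subgroup X where
  carrier := {x | x = 1 ∨ x = a ∨ x = b ∨ x = a * b}
  one_mem' := Or.inl rfl
  mul_mem' := by
    have h1 : a * (a * b) = b := by rw [← mul_assoc, ha, one_mul]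
    have h2 : b * (a * b) = a := by rw [← mul_assoc, ← hab, mul_assoc, hb, mul_one]
    have h3 : a * b * a = b := by rw [hab, mul_assoc, ha, mul_one]
    have h4 : a * b * b = a := by rw [mul_assoc, hb, mul_one]
    have h5 : a * b * (a * b) = 1 := by rw [mul_assoc, h2, ha]
    have h6 : b * a = a * b := hab.symm
    rintro x y (rfl | rfl | rfl | rfl) (rfl | rfl | rfl | rfl) <;>
      simp [ha, hb, h1, h2, h3, h4, h5, h6]
  inv_mem' := by
    have h2 : b * (a * b) = a := by rw [← mul_assoc, ← hab, mul_assoc, hb, mul_one]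
    have h5 : a * b * (a * b) = 1 := by rw [mul_assoc, h2, ha]
    have ha' : a⁻¹ = a := inv_eq_of_mul_eq_one_right ha
    have hb' : b⁻¹ = b := inv_eq_of_mul_eq_one_right hb
    have hab' : (a * b)⁻¹ = a * b := inv_eq_of_mul_eq_one_right h5
    rintro x (rfl | rfl | rfl | rfl)
    · simp
    · right; left; exact ha'
    · right; right; left; exact hb'
    · right; right; right; exact hab'

theorem mem_fourGp {X : Type*} [Group X] (a b : X) (ha : a * a = 1) (hb : b * b = 1)
    (hab : a * b = b * a) (x : X) :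
    x ∈ fourGp a b ha hb hab ↔ x = 1 ∨ x = a ∨ x = b ∨ x = a * b := Iff.rfl

theorem fourGp_klein {X : Type*} [Group X] (a b : X) (ha : a * a = 1) (hb : b * b = 1)
    (hab : a * b = b * a) (ha1 : a ≠ 1) (hb1 : b ≠ 1) (hne : a ≠ b) :
    IsKleinFour (fourGp a b ha hb hab) := by
  classical
  apply Cfsg.Agent.Lib.helper6.klein_of
  · have hset : ((fourGp a b ha hb hab : Subgroup X) : Set X) = {1, a, b, a * b} := by
      ext x
      simp only [SetLike.mem_coe, mem_fourGp, Set.mem_insert_iff, Set.mem_singleton_iff]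
    have h0 : Nat.card (fourGp a b ha hb hab) =
        ((fourGp a b ha hb hab : Subgroup X) : Set X).ncard := (Nat.card_coe_set_eq _)
    rw [h0, hset]
    have hab1 : a * b ≠ 1 := by
      intro h
      apply hne
      have : a = b⁻¹ := eq_inv_of_mul_eq_one_left h
      rw [this]; exact inv_eq_of_mul_eq_one_right hb
    have hab2 : a * b ≠ a := by
      intro h; exact hb1 (by simpa using h)
    have hab3 : a * b ≠ b := by
      intro h; exact ha1 (by simpa using h)
    rw [Set.ncard_insert_of_notMem, Set.ncard_insert_of_notMem, Set.ncard_pair]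
    · exact fun h => hab3 h.symm
    · simp only [Set.mem_insert_iff, Set.mem_singleton_iff, not_or]
      exact ⟨hne, fun h => hab2 h.symm⟩
    · simp only [Set.mem_insert_iff, Set.mem_singleton_iff, not_or]
      exact ⟨fun h => ha1 h.symm, fun h => hb1 h.symm, fun h => hab1 h.symm⟩
  · intro t ht
    have h2 : b * (a * b) = a := by rw [← mul_assoc, ← hab, mul_assoc, hb, mul_one]
    have h5 : a * b * (a * b) = 1 := by rw [mul_assoc, h2, ha]
    rcases ht with rfl | rfl | rfl | rfl
    · simp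
    · exact ha
    · exact hb
    · exact h5

/-- An element of the normalizer of a four-group acting with order 3 moves every involution. -/
theorem four_fix_false {X : Type*} [Group X] (a b : X) (ha : a * a = 1) (hb : b * b = 1)
    (hab : a * b = b * a) (hb1 : b ≠ 1) (hne : a ≠ b) (U : Subgroup X)
    (hU : ∀ x, x ∈ U ↔ x = 1 ∨ x = a ∨ x = b ∨ x = a * b) (g : X)
    (hgN : g ∈ normalizer (U : Set X)) (hgC : g ∉ centralizer (U : Set X))
    (hg3 : g ^ 3 ∈ centralizer (U : Set X)) : g * a * g⁻¹ ≠ a := by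
  intro hfa
  have hbU : b ∈ U := (hU b).mpr (Or.inr (Or.inr (Or.inl rfl)))
  have hcent : ∀ c : X, c * a * c⁻¹ = a → c * b * c⁻¹ = b → c ∈ centralizer (U : Set X) := by
    intro c hca hcb
    have hca' : a * c = c * a := by
      calc a * c = (c * a * c⁻¹) * c := by rw [hca]
        _ = c * a := by group
    have hcb' : b * c = c * b := by
      calc b * c = (c * b * c⁻¹) * c := by rw [hcb]
        _ = c * b := by group
    rw [mem_centralizer_iff]
    intro x hx
    rcases (hU x).mp hx with rfl | rfl | rfl | rfl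
    · simp
    · exact hca'
    · exact hcb'
    · rw [mul_assoc, hcb', ← mul_assoc, hca', mul_assoc]
  have h1 := (mem_normalizer_iff.mp hgN b).mp hbU
  rcases (hU _).mp h1 with h | h | h | h
  · apply hb1
    have : b = g⁻¹ * (g * b * g⁻¹) * g := by group
    rw [this, h]; group
  · apply hne
    have e1 : a = g⁻¹ * (g * a * g⁻¹) * g := by group
    have e2 : b = g⁻¹ * (g * b * g⁻¹) * g := by group
    rw [e1, e2, hfa, h]
  · exact hgC (hcent g hfa h)
  · have h2a : (g * g) * a * (g * g)⁻¹ = a := by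
      calc (g * g) * a * (g * g)⁻¹ = g * (g * a * g⁻¹) * g⁻¹ := by group
        _ = a := by rw [hfa, hfa]
    have h2b : (g * g) * b * (g * g)⁻¹ = b := by
      calc (g * g) * b * (g * g)⁻¹ = g * (g * b * g⁻¹) * g⁻¹ := by group
        _ = g * (a * b) * g⁻¹ := by rw [h]
        _ = (g * a * g⁻¹) * (g * b * g⁻¹) := by group
        _ = a * (a * b) := by rw [hfa, h]
        _ = b := by rw [← mul_assoc, ha, one_mul]
    have h2 := hcent (g * g) h2a h2b
    apply hgC
    have e3 : g ^ 3 = g * g * g := by rw [pow_succ, pow_succ, pow_one]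
    have e : g = g ^ 3 * (g * g)⁻¹ := by rw [e3]; group
    rw [e]
    exact Subgroup.mul_mem _ hg3 (Subgroup.inv_mem _ h2)

theorem four_conj_of_order3 {X : Type*} [Group X] (a b : X) (ha : a * a = 1) (hb : b * b = 1)
    (hab : a * b = b * a) (ha1 : a ≠ 1) (hb1 : b ≠ 1) (hne : a ≠ b) (U : Subgroup X)
    (hU : ∀ x, x ∈ U ↔ x = 1 ∨ x = a ∨ x = b ∨ x = a * b) (g : X)
    (hgN : g ∈ normalizer (U : Set X)) (hgC : g ∉ centralizer (U : Set X))
    (hg3 : g ^ 3 ∈ centralizer (U : Set X)) : ∃ c : X, c * a * c⁻¹ = b := by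
  have hU' : ∀ x, x ∈ U ↔ x = 1 ∨ x = b ∨ x = a ∨ x = b * a := by
    intro x
    rw [hU x, ← hab]
    tauto
  have hfa := four_fix_false a b ha hb hab hb1 hne U hU g hgN hgC hg3
  have hfb := four_fix_false b a hb ha hab.symm ha1 (Ne.symm hne) U hU' g hgN hgC hg3
  have haU : a ∈ U := (hU a).mpr (Or.inr (Or.inl rfl))
  have hbU : b ∈ U := (hU b).mpr (Or.inr (Or.inr (Or.inl rfl)))
  have h1 := (mem_normalizer_iff.mp hgN a).mp haU
  rcases (hU _).mp h1 with h | h | h | h
  · exfalso; apply ha1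
    have : a = g⁻¹ * (g * a * g⁻¹) * g := by group
    rw [this, h]; group
  · exact absurd h hfa
  · exact ⟨g, h⟩
  · have h2 := (mem_normalizer_iff.mp hgN b).mp hbU
    rcases (hU _).mp h2 with h' | h' | h' | h'
    · exfalso; apply hb1
      have : b = g⁻¹ * (g * b * g⁻¹) * g := by group
      rw [this, h']; group
    · refine ⟨g⁻¹, ?_⟩
      rw [← h']; group
    · exact absurd h' hfb
    · exfalso; apply hne
      have e1 : a = g⁻¹ * (g * a * g⁻¹) * g := by group
      have e2 : b = g⁻¹ * (g * b * g⁻¹) * g := by group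
      rw [e1, e2, h, h']

/-- If `3` divides `|N(U) : C(U)|` there is an element of `N(U)` of order `3` modulo `C(U)`. -/
theorem exists_order3_mod_centralizer {X : Type*} [Group X] [Finite X] (U : Subgroup X)
    (h3 : 3 ∣ (centralizer (U : Set X)).relIndex (normalizer (U : Set X))) :
    ∃ g : X, g ∈ normalizer (U : Set X) ∧ g ∉ centralizer (U : Set X) ∧
      g ^ 3 ∈ centralizer (U : Set X) := by
  haveI : Fact (Nat.Prime 3) := ⟨Nat.prime_three⟩
  have hCN : centralizer (U : Set X) ≤ normalizer (U : Set X) := Subgroup.centralizer_le_normalizer _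
  have hNC : normalizer (U : Set X) ≤ normalizer ((centralizer (U : Set X) : Subgroup X) : Set X) := by
    apply le_normalizer_of_conj_mem
    intro n hn c hc
    rw [mem_centralizer_iff] at hc ⊢
    intro u hu
    have hu' : n⁻¹ * u * n ∈ U := conj_mem_of_mem_normalizer' hn hu
    have := hc _ hu'
    calc u * (n * c * n⁻¹) = n * ((n⁻¹ * u * n) * c) * n⁻¹ := by group
      _ = n * (c * (n⁻¹ * u * n)) * n⁻¹ := by rw [this]
      _ = n * c * n⁻¹ * u := by group
  haveI hnorm : ((centralizer (U : Set X)).subgroupOf (normalizer (U : Set X))).Normal :=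
    (Subgroup.normal_subgroupOf_iff_le_normalizer hCN).mpr hNC
  have hcard : Nat.card (↥(normalizer (U : Set X)) ⧸
      (centralizer (U : Set X)).subgroupOf (normalizer (U : Set X))) =
      (centralizer (U : Set X)).relIndex (normalizer (U : Set X)) := by
    rw [← Subgroup.index_eq_card]; rfl
  obtain ⟨x, hx⟩ := exists_prime_orderOf_dvd_card' (G := ↥(normalizer (U : Set X)) ⧸
      (centralizer (U : Set X)).subgroupOf (normalizer (U : Set X))) 3 (by rw [hcard]; exact h3)
  obtain ⟨g, rfl⟩ := QuotientGroup.mk_surjective x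
  refine ⟨g.1, g.2, ?_, ?_⟩
  · intro hg
    have h1 : (QuotientGroup.mk g : ↥(normalizer (U : Set X)) ⧸
      (centralizer (U : Set X)).subgroupOf (normalizer (U : Set X))) = 1 :=
      (QuotientGroup.eq_one_iff g).mpr (Subgroup.mem_subgroupOf.mpr hg)
    rw [h1, orderOf_one] at hx
    omega
  · have h1 : (QuotientGroup.mk g : ↥(normalizer (U : Set X)) ⧸
      (centralizer (U : Set X)).subgroupOf (normalizer (U : Set X))) ^ 3 = 1 := by
      rw [← hx]; exact pow_orderOf_eq_one _
    rw [← QuotientGroup.mk_pow, QuotientGroup.eq_one_iff, Subgroup.mem_subgroupOf] at h1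
    simpa using h1

theorem exists_conj_mem_sylow_two {X : Type*} [Group X] [Finite X] (S : Sylow 2 X) (a : X)
    (ha : orderOf a = 2) : ∃ g : X, g * a * g⁻¹ ∈ (S : Subgroup X) := by
  haveI : Fact (Nat.Prime 2) := ⟨Nat.prime_two⟩
  have hp : IsPGroup 2 (zpowers a) := by
    apply IsPGroup.of_card (n := 1)
    rw [Nat.card_zpowers, pow_one, ha]
  obtain ⟨Q, hQ⟩ := hp.exists_le_sylow
  obtain ⟨g, hg⟩ := MulAction.exists_smul_eq X Q S
  have h2 : MulAut.conj g • a ∈ MulAut.conj g • (Q : Subgroup X) :=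
    Subgroup.smul_mem_pointwise_smul _ _ _ (hQ (mem_zpowers a))
  rw [← Sylow.coe_subgroup_smul, hg] at h2
  exact ⟨g, by simpa [MulAut.smul_def] using h2⟩

/-- Structure of a subgroup isomorphic to a dihedral group, with the order of the rotation. -/
theorem dih_struct' {X : Type*} [Group X] (S : Subgroup X) (m : ℕ) (eS : ↥S ≃* DihedralGroup m) :
    ∃ ρ ∈ S, orderOf ρ = m ∧ (∀ x ∈ S, x ∉ zpowers ρ → x * x = 1) ∧
      (∀ x ∈ S, ∀ y ∈ S, x ∉ zpowers ρ → y ∉ zpowers ρ → y * x⁻¹ ∈ zpowers ρ) ∧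
      ∃ σ ∈ S, σ ∉ zpowers ρ := by
  have key : ∀ x (hx : x ∈ S) (i : ZMod m), eS ⟨x, hx⟩ = DihedralGroup.r i →
      x ∈ zpowers ((eS.symm (DihedralGroup.r 1) : ↥S) : X) := by
    intro x hx i hi
    have h1 : (⟨x, hx⟩ : ↥S) = (eS.symm (DihedralGroup.r 1)) ^ (ZMod.cast i : ℤ) := by
      apply eS.injective
      rw [map_zpow, MulEquiv.apply_symm_apply, DihedralGroup.r_one_zpow, ZMod.intCast_zmod_cast, hi]
    rw [Subgroup.mem_zpowers_iff]
    refine ⟨(ZMod.cast i : ℤ), ?_⟩
    have := congrArg Subtype.val h1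
    simpa using this.symm
  refine ⟨(eS.symm (DihedralGroup.r 1) : ↥S), (eS.symm (DihedralGroup.r 1)).2, ?_, ?_, ?_, ?_⟩
  · rw [Subgroup.orderOf_coe, MulEquiv.orderOf_eq, DihedralGroup.orderOf_r_one]
  · intro x hx hxR
    rcases h : eS ⟨x, hx⟩ with i | i
    · exact absurd (key x hx i h) hxR
    · have h1 : (⟨x, hx⟩ : ↥S) * ⟨x, hx⟩ = 1 := by
        apply eS.injective
        rw [map_mul, h, DihedralGroup.sr_mul_self, map_one]
      have := congrArg Subtype.val h1
      simpa using this
  · intro x hx y hy hxR hyR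
    rcases h : eS ⟨x, hx⟩ with i | i
    · exact absurd (key x hx i h) hxR
    · rcases h' : eS ⟨y, hy⟩ with j | j
      · exact absurd (key y hy j h') hyR
      · have h1 : eS ⟨y * x⁻¹, S.mul_mem hy (S.inv_mem hx)⟩ = DihedralGroup.r (i - j) := by
          have e : (⟨y * x⁻¹, S.mul_mem hy (S.inv_mem hx)⟩ : ↥S) = ⟨y, hy⟩ * (⟨x, hx⟩)⁻¹ := rfl
          rw [e, map_mul, map_inv, h, h']
          simp
        exact key _ _ _ h1
  · refine ⟨(eS.symm (DihedralGroup.sr 0) : ↥S), (eS.symm (DihedralGroup.sr 0)).2, ?_⟩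
    intro hmem
    obtain ⟨k, hk⟩ := Subgroup.mem_zpowers_iff.mp hmem
    have h1 : (eS.symm (DihedralGroup.r 1)) ^ k = eS.symm (DihedralGroup.sr 0) := by
      apply Subtype.ext
      rw [Subgroup.coe_zpow]; exact hk
    have h2 := congrArg eS h1
    rw [map_zpow, MulEquiv.apply_symm_apply, MulEquiv.apply_symm_apply,
      DihedralGroup.r_one_zpow] at h2
    cases h2

end Cfsg.Agent.Lib.helper7
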