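import Mathlib
import Cfsg.Agent.Lib.helper7.DihFus
import Cfsg.Agent.S1254
import Cfsg.Agent.S1255

set_option autoImplicit false
set_option linter.style.haveILetI false
open scoped Pointwise

namespace Cfsg.Agent.Lib.helper7

open Subgroup Cfsg.Agent.Lib.helper8

/-- Abstract dihedral data on a subgroup `S`: a rotation `ρ` of order `2 * j` and a
reflection `σ`. -/
structure DihS {X : Type*} [Group X] (S : Subgroup X) (j : ℕ) (ρ σ : X) : Prop where
  hj : 0 < j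
  hρ : ρ ∈ S
  ord : orderOf ρ = 2 * j
  hσ : σ ∈ S
  hσQ : σ ∉ zpowers ρ
  sq : ∀ x ∈ S, x ∉ zpowers ρ → x * x = 1
  quot : ∀ x ∈ S, ∀ y ∈ S, x ∉ zpowers ρ → y ∉ zpowers ρ → y * x⁻¹ ∈ zpowers ρ

namespace DihS

variable {X : Type*} [Group X] {S : Subgroup X} {j : ℕ} {ρ σ : X}

theorem hQS (h : DihS S j ρ σ) : zpowers ρ ≤ S := zpowers_le.mpr h.hρ

theorem inv (h : DihS S j ρ σ) (x : X) (hx : x ∈ S) (hxQ : x ∉ zpowers ρ) (q : X)
    (hq : q ∈ zpowers ρ) : x * q * x⁻¹ = q⁻¹ := by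
  have hqx : q * x ∉ zpowers ρ := by
    intro h1
    apply hxQ
    have : x = q⁻¹ * (q * x) := by group
    rw [this]; exact (zpowers ρ).mul_mem ((zpowers ρ).inv_mem hq) h1
  have h1 := h.sq (q * x) (S.mul_mem (h.hQS hq) hx) hqx
  have h2 := h.sq x hx hxQ
  have h3 : x⁻¹ = x := inv_eq_of_mul_eq_one_right h2
  rw [h3]
  calc x * q * x = q⁻¹ * ((q * x) * (q * x)) := by group
    _ = q⁻¹ := by rw [h1, mul_one]

theorem zQ (_h : DihS S j ρ σ) : ρ ^ j ∈ zpowers ρ := Subgroup.pow_mem _ (mem_zpowers ρ) j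

theorem zS (h : DihS S j ρ σ) : ρ ^ j ∈ S := h.hQS h.zQ

theorem zz (h : DihS S j ρ σ) : ρ ^ j * ρ ^ j = 1 := by
  rw [← pow_add, ← two_mul, ← h.ord]; exact pow_orderOf_eq_one ρ

theorem z_ne (h : DihS S j ρ σ) : ρ ^ j ≠ 1 := by
  intro h0
  have h1 := orderOf_dvd_of_pow_eq_one h0
  rw [h.ord] at h1
  have := Nat.le_of_dvd h.hj h1
  have := h.hj
  omega

theorem z_central (h : DihS S j ρ σ) (x : X) (hx : x ∈ S) : x * ρ ^ j = ρ ^ j * x := by
  by_cases hxQ : x ∈ zpowers ρ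
  · obtain ⟨k, rfl⟩ := Subgroup.mem_zpowers_iff.mp hxQ
    rw [← zpow_natCast, ← zpow_add, ← zpow_add, add_comm]
  · have h1 := h.inv x hx hxQ (ρ ^ j) h.zQ
    have h2 : (ρ ^ j)⁻¹ = ρ ^ j := inv_eq_of_mul_eq_one_right h.zz
    rw [h2] at h1
    calc x * ρ ^ j = (x * ρ ^ j * x⁻¹) * x := by group
      _ = ρ ^ j * x := by rw [h1]

theorem uniq (h : DihS S j ρ σ) (t : X) (ht : t ∈ zpowers ρ) (htt : t * t = 1) (ht1 : t ≠ 1) :
    t = ρ ^ j := by
  obtain ⟨k, rfl⟩ := Subgroup.mem_zpowers_iff.mp ht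
  have h1 : ρ ^ (2 * k) = 1 := by rw [two_mul, zpow_add]; exact htt
  have h2 : (orderOf ρ : ℤ) ∣ 2 * k := orderOf_dvd_iff_zpow_eq_one.mpr h1
  rw [h.ord] at h2
  push_cast at h2
  have h3 : (j : ℤ) ∣ k := (mul_dvd_mul_iff_left (by norm_num : (2 : ℤ) ≠ 0)).mp h2
  obtain ⟨l, rfl⟩ := h3
  have h4 : ρ ^ ((j : ℤ) * l) = (ρ ^ j) ^ l := by rw [zpow_mul, zpow_natCast]
  rw [h4] at ht1 ⊢
  rcases zpow_involution (ρ ^ j) h.zz l with h5 | h5
  · exact absurd h5 ht1
  · exact h5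

theorem σσ (h : DihS S j ρ σ) : σ * σ = 1 := h.sq σ h.hσ h.hσQ

theorem σ_ne (h : DihS S j ρ σ) : σ ≠ 1 := fun h0 => h.hσQ (h0 ▸ one_mem _)

theorem τS (h : DihS S j ρ σ) : ρ * σ ∈ S := S.mul_mem h.hρ h.hσ

theorem τQ (h : DihS S j ρ σ) : ρ * σ ∉ zpowers ρ := by
  intro h1
  apply h.hσQ
  have : σ = ρ⁻¹ * (ρ * σ) := by group
  rw [this]; exact (zpowers ρ).mul_mem ((zpowers ρ).inv_mem (mem_zpowers ρ)) h1

theorem ττ (h : DihS S j ρ σ) : ρ * σ * (ρ * σ) = 1 := h.sq _ h.τS h.τQ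

theorem τ_ne (h : DihS S j ρ σ) : ρ * σ ≠ 1 := fun h0 => h.τQ (h0 ▸ one_mem _)

/-- Every element outside the rotation subgroup is conjugate to `σ` or to `ρ σ`. -/
theorem conj_class (h : DihS S j ρ σ) (x : X) (hx : x ∈ S) (hxQ : x ∉ zpowers ρ) :
    ∃ c ∈ S, c * x * c⁻¹ = σ ∨ c * x * c⁻¹ = ρ * σ := by
  have h1 : x * σ⁻¹ ∈ zpowers ρ := h.quot σ h.hσ x hx h.hσQ hxQ
  obtain ⟨i, hi⟩ := Subgroup.mem_zpowers_iff.mp h1
  have hx' : x = ρ ^ i * σ := by rw [hi]; group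
  rcases Int.even_or_odd i with ⟨k, rfl⟩ | ⟨k, rfl⟩
  · have hq : ρ ^ k ∈ zpowers ρ := Subgroup.zpow_mem _ (mem_zpowers ρ) k
    have hinv := h.inv σ h.hσ h.hσQ (ρ ^ k) hq
    refine ⟨(ρ ^ k)⁻¹, S.inv_mem (h.hQS hq), Or.inl ?_⟩
    rw [hx', zpow_add]
    generalize ρ ^ k = q at hinv
    calc q⁻¹ * (q * q * σ) * q⁻¹⁻¹ = q * (σ * q * σ⁻¹) * σ := by group
      _ = σ := by rw [hinv]; group
  · have hq : ρ ^ k ∈ zpowers ρ := Subgroup.zpow_mem _ (mem_zpowers ρ) k
    have hinv := h.inv σ h.hσ h.hσQ (ρ ^ k) hq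
    have hc : ρ ^ k * ρ = ρ * ρ ^ k := by
      rw [← zpow_add_one, ← zpow_one_add, add_comm]
    refine ⟨(ρ ^ k)⁻¹, S.inv_mem (h.hQS hq), Or.inr ?_⟩
    rw [hx', zpow_add, two_mul, zpow_add, zpow_one]
    generalize ρ ^ k = q at hinv hc
    calc q⁻¹ * (q * q * ρ * σ) * q⁻¹⁻¹ = q * ρ * (σ * q * σ⁻¹) * σ := by group
      _ = (q * ρ) * q⁻¹ * σ := by rw [hinv]
      _ = ρ * σ := by rw [hc]; group

/-- `σ` and `ρ σ` are not conjugate inside `S`. -/
theorem not_conj (h : DihS S j ρ σ) (s : X) (hs : s ∈ S) : s * σ * s⁻¹ ≠ ρ * σ := by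
  intro hcon
  have key : ∀ q ∈ zpowers ρ, q * σ * q⁻¹ ≠ ρ * σ := by
    intro q hq hcon
    obtain ⟨k, rfl⟩ := Subgroup.mem_zpowers_iff.mp hq
    have hinv := h.inv σ h.hσ h.hσQ (ρ ^ k)⁻¹ ((zpowers ρ).inv_mem hq)
    have h1 : ρ ^ k * ρ ^ k = ρ := by
      have e : ρ ^ k * σ * (ρ ^ k)⁻¹ = ρ ^ k * (σ * (ρ ^ k)⁻¹ * σ⁻¹) * σ := by group
      rw [e, hinv, inv_inv] at hcon
      exact mul_right_cancel hcon
    have h2 : ρ ^ (2 * k - 1) = 1 := by
      rw [zpow_sub, two_mul, zpow_add, h1, zpow_one, mul_inv_cancel]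
    have h3 : (orderOf ρ : ℤ) ∣ 2 * k - 1 := orderOf_dvd_iff_zpow_eq_one.mpr h2
    rw [h.ord] at h3
    push_cast at h3
    have h4 : (2 : ℤ) ∣ 2 * k - 1 := dvd_trans (Dvd.intro _ rfl) h3
    omega
  by_cases hsQ : s ∈ zpowers ρ
  · exact key s hsQ hcon
  · have h1 : s * σ⁻¹ ∈ zpowers ρ := h.quot σ h.hσ s hs h.hσQ hsQ
    apply key (s * σ⁻¹) h1
    rw [← hcon]
    group

/-- A half-turn conjugates each reflection `u` to `z u`. -/
theorem exists_v (h : DihS S j ρ σ) (hje : Even j) :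
    ∃ v ∈ S, v * ρ ^ j * v⁻¹ = ρ ^ j ∧ ∀ u ∈ S, u ∉ zpowers ρ → v * u * v⁻¹ = ρ ^ j * u := by
  obtain ⟨k, hk⟩ := hje
  have hvQ : ρ ^ k ∈ zpowers ρ := Subgroup.pow_mem _ (mem_zpowers ρ) k
  refine ⟨ρ ^ k, h.hQS hvQ, ?_, ?_⟩
  · rw [← pow_add, add_comm, pow_add, mul_inv_cancel_right]
  · intro u hu huQ
    have hinv := h.inv u hu huQ (ρ ^ k)⁻¹ ((zpowers ρ).inv_mem hvQ)
    rw [hk, pow_add]
    calc ρ ^ k * u * (ρ ^ k)⁻¹ = ρ ^ k * (u * (ρ ^ k)⁻¹ * u⁻¹) * u := by group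
      _ = ρ ^ k * ρ ^ k * u := by rw [hinv, inv_inv]


/-- Klein four-subgroups of `S` contain `z` and a reflection. -/
theorem four [Finite X] (h : DihS S j ρ σ) (U : Subgroup X) (hU : U ≤ S) (hK : IsKleinFour U) :
    ∃ u ∈ S, u ∉ zpowers ρ ∧ u * u = 1 ∧
      ∀ x, x ∈ U ↔ x = 1 ∨ x = ρ ^ j ∨ x = u ∨ x = ρ ^ j * u := by
  have hcard : Nat.card U = 4 := hK.card_four
  have hsq : ∀ x ∈ U, x * x = 1 := by
    intro x hx
    have h1 : (⟨x, hx⟩ : U) ^ 2 = 1 := by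
      have := Monoid.pow_exponent_eq_one (⟨x, hx⟩ : U)
      rwa [hK.exponent_two] at this
    have := congrArg Subtype.val h1
    simpa [pow_two] using this
  have hex : ∀ w : X, w * w = 1 → ∃ y ∈ U, y ≠ 1 ∧ y ≠ w := by
    intro w hw
    by_contra hcon
    push Not at hcon
    have hle : U ≤ zpowers w := by
      intro y hy
      by_cases hy1 : y = 1
      · rw [hy1]; exact one_mem _
      · rw [hcon y hy hy1]; exact mem_zpowers w
    have h1 : Nat.card U ≤ Nat.card (zpowers w) := Subgroup.card_le_of_le hle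
    have h2 : Nat.card (zpowers w) ≤ 2 := by
      rw [Nat.card_zpowers]
      exact Nat.le_of_dvd (by norm_num) (orderOf_dvd_of_pow_eq_one (by rw [pow_two]; exact hw))
    omega
  obtain ⟨u, huU, hu1, huz⟩ := hex (ρ ^ j) h.zz
  have huQ : u ∉ zpowers ρ := fun hq => huz (h.uniq u hq (hsq u huU) hu1)
  have huS : u ∈ S := hU huU
  have hzU : ρ ^ j ∈ U := by
    obtain ⟨w, hwU, hw1, hwu⟩ := hex u (hsq u huU)
    by_cases hwQ : w ∈ zpowers ρ
    · rw [← h.uniq w hwQ (hsq w hwU) hw1]; exact hwU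
    · have h1 : w * u⁻¹ ∈ zpowers ρ := h.quot u huS w (hU hwU) huQ hwQ
      have h2 : w * u⁻¹ ∈ U := U.mul_mem hwU (U.inv_mem huU)
      have h3 : w * u⁻¹ ≠ 1 := fun h0 => hwu (mul_inv_eq_one.mp h0)
      rw [← h.uniq _ h1 (hsq _ h2) h3]; exact h2
  have hzu : ρ ^ j * u = u * ρ ^ j := (h.z_central u huS).symm
  have hle : fourGp (ρ ^ j) u h.zz (hsq u huU) hzu ≤ U := by
    intro x hx
    rcases hx with rfl | rfl | rfl | rfl
    · exact one_mem _
    · exact hzU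
    · exact huU
    · exact U.mul_mem hzU huU
  have hK4 := fourGp_klein (ρ ^ j) u h.zz (hsq u huU) hzu h.z_ne hu1 (Ne.symm huz)
  have heq : fourGp (ρ ^ j) u h.zz (hsq u huU) hzu = U :=
    Subgroup.eq_of_le_of_card_ge hle (by rw [hcard, hK4.card_four])
  refine ⟨u, huS, huQ, hsq u huU, fun x => ?_⟩
  rw [← heq]
  exact mem_fourGp _ _ _ _ _ x

end DihS

theorem cent_four {X : Type*} [Group X] (U : Subgroup X) (z u : X)
    (hU : ∀ x, x ∈ U ↔ x = 1 ∨ x = z ∨ x = u ∨ x = z * u) (c : X)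
    (hz : c * z * c⁻¹ = z) (hu : c * u * c⁻¹ = u) : c ∈ centralizer (U : Set X) := by
  have hz' : z * c = c * z := by
    calc z * c = (c * z * c⁻¹) * c := by rw [hz]
      _ = c * z := by group
  have hu' : u * c = c * u := by
    calc u * c = (c * u * c⁻¹) * c := by rw [hu]
      _ = c * u := by group
  rw [mem_centralizer_iff]
  intro x hx
  rcases (hU x).mp hx with rfl | rfl | rfl | rfl
  · simp
  · exact hz'
  · exact hu'
  · rw [mul_assoc, hu', ← mul_assoc, hz', mul_assoc]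

theorem four_decomp_aux {X : Type*} [Group X] [Finite X] (S U : Subgroup X) (z u v : X)
    (hUm : ∀ x, x ∈ U ↔ x = 1 ∨ x = z ∨ x = u ∨ x = z * u) (hzz : z * z = 1) (hu1 : u ≠ 1)
    (huz : u ≠ z) (hvS : v ∈ S) (hvz : v * z * v⁻¹ = z) (hvu : v * u * v⁻¹ = z * u)
    (hfix : ∀ g ∈ normalizer (U : Set X), g * z * g⁻¹ = z) :
    normalizer (U : Set X) = centralizer (U : Set X) ⊔ (S ⊓ normalizer (U : Set X)) := by
  apply le_antisymm
  · intro g hg
    have huU : u ∈ U := (hUm u).mpr (Or.inr (Or.inr (Or.inl rfl)))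
    have hgz := hfix g hg
    have h1 := (mem_normalizer_iff.mp hg u).mp huU
    rcases (hUm _).mp h1 with h2 | h2 | h2 | h2
    · exfalso; apply hu1
      have : u = g⁻¹ * (g * u * g⁻¹) * g := by group
      rw [this, h2]; group
    · exfalso; apply huz
      have e1 : u = g⁻¹ * (g * u * g⁻¹) * g := by group
      have e2 : z = g⁻¹ * (g * z * g⁻¹) * g := by group
      rw [e1, e2, h2, hgz]
    · exact mem_sup_left (cent_four U z u hUm g hgz h2)
    · have hvN : v ∈ normalizer (U : Set X) := by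
        apply mem_normalizer_of_conj_mem_fin
        intro w hw
        rcases (hUm w).mp hw with rfl | rfl | rfl | rfl
        · simp
        · rw [hvz]; exact (hUm _).mpr (Or.inr (Or.inl rfl))
        · rw [hvu]; exact (hUm _).mpr (Or.inr (Or.inr (Or.inr rfl)))
        · have e : v * (z * u) * v⁻¹ = (v * z * v⁻¹) * (v * u * v⁻¹) := by group
          rw [e, hvz, hvu, ← mul_assoc, hzz, one_mul]
          exact huU
      have hc : v⁻¹ * g ∈ centralizer (U : Set X) := by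
        apply cent_four U z u hUm
        · calc v⁻¹ * g * z * (v⁻¹ * g)⁻¹ = v⁻¹ * (g * z * g⁻¹) * v := by group
            _ = v⁻¹ * (v * z * v⁻¹) * v := by rw [hgz, hvz]
            _ = z := by group
        · calc v⁻¹ * g * u * (v⁻¹ * g)⁻¹ = v⁻¹ * (g * u * g⁻¹) * v := by group
            _ = v⁻¹ * (v * u * v⁻¹) * v := by rw [h2, hvu]
            _ = u := by group
      have e : g = v * (v⁻¹ * g) := by group
      rw [e]
      exact Subgroup.mul_mem _ (mem_sup_right (Subgroup.mem_inf.mpr ⟨hvS, hvN⟩)) (mem_sup_left hc)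
  · exact sup_le (Subgroup.centralizer_le_normalizer _) inf_le_right

theorem DihS.four_normalizer_decomp {X : Type*} [Group X] [Finite X] {S : Subgroup X} {j : ℕ}
    {ρ σ : X} (h : DihS S j ρ σ) (hje : Even j) (U : Subgroup X) (hU : U ≤ S)
    (hK : IsKleinFour U) (hfix : ∀ g ∈ normalizer (U : Set X), g * ρ ^ j * g⁻¹ = ρ ^ j) :
    normalizer (U : Set X) = centralizer (U : Set X) ⊔ (S ⊓ normalizer (U : Set X)) := by
  obtain ⟨u, huS, huQ, huu, hUm⟩ := h.four U hU hK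
  obtain ⟨v, hvS, hvz, hvu⟩ := h.exists_v hje
  exact four_decomp_aux S U (ρ ^ j) u v hUm h.zz (fun h0 => huQ (h0 ▸ one_mem _))
    (fun h0 => huQ (h0 ▸ h.zQ)) hvS hvz (hvu u huS huQ) hfix

theorem dih_data2 {X : Type*} [Group X] [Finite X] (S : Sylow 2 X) (m : ℕ) (hm : 2 ≤ m)
    (eS : (S : Subgroup X) ≃* DihedralGroup m) :
    ∃ (ρ σ : X) (j : ℕ), DihS (S : Subgroup X) j ρ σ ∧ m = 2 * j ∧
      Nat.card (S : Subgroup X) = 4 * j ∧ (zpowers ρ).relIndex (S : Subgroup X) = 2 ∧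
      (4 ≤ m → Even j) := by
  classical
  haveI : Fact (Nat.Prime 2) := ⟨Nat.prime_two⟩
  obtain ⟨ρ, hρS, hρo, hsq, hquot, σ, hσS, hσQ⟩ := dih_struct' (S : Subgroup X) m eS
  have hcardS : Nat.card (S : Subgroup X) = 2 * m := by
    rw [Nat.card_congr eS.toEquiv, DihedralGroup.nat_card]
  obtain ⟨j, hj, hje⟩ : ∃ j, m = 2 * j ∧ (4 ≤ m → Even j) := by
    obtain ⟨a, ha⟩ := IsPGroup.iff_card.mp S.isPGroup'
    rw [hcardS] at ha
    rcases a with _ | a
    · simp at ha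
    · rw [pow_succ] at ha
      have hm2 : m = 2 ^ a := by omega
      rcases a with _ | a
      · simp at hm2; omega
      · refine ⟨2 ^ a, by rw [hm2, pow_succ]; ring, fun h4 => ?_⟩
        rcases a with _ | a
        · simp at hm2; omega
        · exact ⟨2 ^ a, by rw [pow_succ]; ring⟩
  have hj0 : 0 < j := by omega
  have hQS : zpowers ρ ≤ (S : Subgroup X) := zpowers_le.mpr hρS
  have hcardQ : Nat.card (zpowers ρ) = m := by rw [Nat.card_zpowers, hρo]
  have hrel : (zpowers ρ).relIndex (S : Subgroup X) = 2 := by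
    have h1 := ((zpowers ρ).subgroupOf (S : Subgroup X)).card_mul_index
    rw [card_subgroupOf_of_le hQS, hcardQ, hcardS] at h1
    have hm0 : 0 < m := by omega
    have h2 : m * ((zpowers ρ).subgroupOf (S : Subgroup X)).index = m * 2 := by rw [h1]; ring
    exact Nat.eq_of_mul_eq_mul_left hm0 h2
  exact ⟨ρ, σ, j, ⟨hj0, hρS, by rw [hρo, hj], hσS, hσQ, hsq, hquot⟩, hj,
    by rw [hcardS, hj]; ring, hrel, hje⟩

theorem DihS.invol_class {X : Type*} [Group X] [Finite X] {S : Sylow 2 X} {j : ℕ} {ρ σ : X}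
    (h : DihS (S : Subgroup X) j ρ σ) (a : X) (ha : orderOf a = 2) :
    ∃ c : X, c * a * c⁻¹ = ρ ^ j ∨ c * a * c⁻¹ = σ ∨ c * a * c⁻¹ = ρ * σ := by
  obtain ⟨g, hg⟩ := exists_conj_mem_sylow_two S a ha
  have ha' := (invol_iff a).mp ha
  have h1 : (g * a * g⁻¹) * (g * a * g⁻¹) = 1 := by
    calc (g * a * g⁻¹) * (g * a * g⁻¹) = g * (a * a) * g⁻¹ := by group
      _ = 1 := by rw [ha'.1]; group
  have h2 : g * a * g⁻¹ ≠ 1 := by
    intro h0
    apply ha'.2
    have : a = g⁻¹ * (g * a * g⁻¹) * g := by group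
    rw [this, h0]; group
  by_cases hQ : g * a * g⁻¹ ∈ zpowers ρ
  · exact ⟨g, Or.inl (h.uniq _ hQ h1 h2)⟩
  · obtain ⟨c, hcS, hc⟩ := h.conj_class _ hg hQ
    refine ⟨c * g, ?_⟩
    have e : c * g * a * (c * g)⁻¹ = c * (g * a * g⁻¹) * c⁻¹ := by group
    rw [e]
    exact Or.inr hc

/-- A normal subgroup of index `4` meets a dihedral Sylow `2`-subgroup in `⟨ρ²⟩`. -/
theorem DihS.idx4 {X : Type*} [Group X] [Finite X] {S : Sylow 2 X} {j : ℕ} {ρ σ : X}
    (h : DihS (S : Subgroup X) j ρ σ) (hje : Even j)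
    (hcard : Nat.card (S : Subgroup X) = 4 * j) (N : Subgroup X) [hN : N.Normal]
    (hidx : N.index = 4) : ρ ^ j ∈ N ∧ σ ∉ N ∧ ρ * σ ∉ N := by
  haveI : Fact (Nat.Prime 2) := ⟨Nat.prime_two⟩
  have hab : ∀ a b : X ⧸ N, a * b = b * a := by
    have h0 : Nat.card (X ⧸ N) = 2 ^ 2 := by
      rw [← Subgroup.index_eq_card, hidx]; norm_num
    exact (IsPGroup.isMulCommutative_of_card_eq_prime_sq (p := 2) h0).is_comm.comm
  have hcomm : ∀ a b : X, a * b * a⁻¹ * b⁻¹ ∈ N := by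
    intro a b
    rw [← QuotientGroup.eq_one_iff]
    simp only [QuotientGroup.mk_mul, QuotientGroup.mk_inv]
    rw [hab (a : X ⧸ N) b]; group
  have hρρ : ρ * ρ ∈ N := by
    have h1 := hcomm ρ σ
    have h2 := h.inv σ h.hσ h.hσQ ρ⁻¹ ((zpowers ρ).inv_mem (mem_zpowers ρ))
    have e : ρ * σ * ρ⁻¹ * σ⁻¹ = ρ * (σ * ρ⁻¹ * σ⁻¹) := by group
    rw [e, h2, inv_inv] at h1
    exact h1
  obtain ⟨k, hk⟩ := hje
  have hzN : ρ ^ j ∈ N := by
    have : ρ ^ j = (ρ * ρ) ^ k := by rw [hk, pow_add, (Commute.refl ρ).mul_pow]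
    rw [this]; exact N.pow_mem hρρ k
  have hord : orderOf (ρ * ρ) = j := by
    have : ρ * ρ = ρ ^ 2 := (pow_two ρ).symm
    rw [this, orderOf_pow' ρ (by norm_num), h.ord]
    simp
  have hle : zpowers (ρ * ρ) ≤ (S : Subgroup X) ⊓ N := by
    rw [zpowers_le]
    exact Subgroup.mem_inf.mpr ⟨(S : Subgroup X).mul_mem h.hρ h.hρ, hρρ⟩
  have hcle : Nat.card ((S : Subgroup X) ⊓ N : Subgroup X) ≤ j := by
    have h1 : Nat.card ((S : Subgroup X) ⊓ N : Subgroup X) ∣ Nat.card N :=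
      Subgroup.card_dvd_of_le inf_le_right
    have h2 : IsPGroup 2 ((S : Subgroup X) ⊓ N : Subgroup X) := S.isPGroup'.to_le inf_le_left
    obtain ⟨a, ha⟩ := IsPGroup.iff_card.mp h2
    have h3 : Nat.card N * 4 = Nat.card X := by rw [← hidx]; exact N.card_mul_index
    have h4 : Nat.card (S : Subgroup X) * (S : Subgroup X).index = Nat.card X :=
      (S : Subgroup X).card_mul_index
    have h5 : Nat.card N = j * (S : Subgroup X).index := by
      rw [hcard] at h4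
      have : Nat.card N * 4 = (j * (S : Subgroup X).index) * 4 := by rw [h3, ← h4]; ring
      exact Nat.eq_of_mul_eq_mul_right (by norm_num) this
    have h6 : Nat.Coprime (2 ^ a) (S : Subgroup X).index :=
      Nat.Coprime.pow_left a ((Nat.Prime.coprime_iff_not_dvd Nat.prime_two).mpr S.not_dvd_index)
    rw [ha, h5] at h1
    rw [ha]
    exact Nat.le_of_dvd h.hj (h6.dvd_of_dvd_mul_right h1)
  have heq : zpowers (ρ * ρ) = (S : Subgroup X) ⊓ N :=
    Subgroup.eq_of_le_of_card_ge hle (by rw [Nat.card_zpowers, hord]; exact hcle)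
  have hsub : zpowers (ρ * ρ) ≤ zpowers ρ := by
    rw [zpowers_le]; exact (zpowers ρ).mul_mem (mem_zpowers ρ) (mem_zpowers ρ)
  refine ⟨hzN, fun hσN => ?_, fun hτN => ?_⟩
  · apply h.hσQ; apply hsub; rw [heq]; exact Subgroup.mem_inf.mpr ⟨h.hσ, hσN⟩
  · apply h.τQ; apply hsub; rw [heq]; exact Subgroup.mem_inf.mpr ⟨h.τS, hτN⟩

theorem complement_sylow {X : Type*} [Group X] [Finite X]
    (hc : Cfsg.HasNormalPComplement 2 X) (S : Sylow 2 X) :
    ∃ N : Subgroup X, N.Normal ∧ N ⊓ (S : Subgroup X) = ⊥ ∧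
      ∀ x : X, ∃ n ∈ N, ∃ s ∈ (S : Subgroup X), x = n * s := by
  classical
  haveI : Fact (Nat.Prime 2) := ⟨Nat.prime_two⟩
  obtain ⟨P, N, hN, hc⟩ := hc
  have hcard := hc.card_mul_card
  have hPS : Nat.card ↥(P : Subgroup X) = Nat.card ↥(S : Subgroup X) := by
    rw [Sylow.card_eq_multiplicity, Sylow.card_eq_multiplicity]
  have hcop : (Nat.card ↥N).Coprime (Nat.card ↥(S : Subgroup X)) := by
    have h1 := Subgroup.card_mul_index (P : Subgroup X)
    have h2 : Nat.card ↥N = (P : Subgroup X).index := by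
      have h3 : Nat.card ↥N * Nat.card ↥(P : Subgroup X) =
          (P : Subgroup X).index * Nat.card ↥(P : Subgroup X) := by rw [hcard, ← h1, mul_comm]
      exact Nat.eq_of_mul_eq_mul_right Nat.card_pos h3
    rw [h2, ← hPS]
    exact (Sylow.card_coprime_index P).symm
  have hc' : N.IsComplement' (S : Subgroup X) :=
    Subgroup.isComplement'_of_coprime (by rw [← hPS]; exact hcard) hcop
  have hdisj : N ⊓ (S : Subgroup X) = ⊥ := disjoint_iff.mp hc'.disjoint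
  have hSN : (S : Subgroup X) ≤ normalizer (N : Set X) := by
    rw [Subgroup.normalizer_eq_top]
    exact le_top
  refine ⟨N, hN, hdisj, fun x => ?_⟩
  have hx : x ∈ N ⊔ (S : Subgroup X) := by rw [hc'.sup_eq_top]; trivial
  exact (mem_sup_iff_of_le_normalizer hSN x).mp hx

theorem fusion_of_complement {X : Type*} [Group X] (S N : Subgroup X) [hN : N.Normal]
    (hdisj : N ⊓ S = ⊥) (hprod : ∀ x : X, ∃ n ∈ N, ∃ s ∈ S, x = n * s) (a b : X)
    (ha : a ∈ S) (hb : b ∈ S) (g : X) (hg : g * a * g⁻¹ = b) : ∃ s ∈ S, s * a * s⁻¹ = b := by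
  obtain ⟨n, hn, s, hs, rfl⟩ := hprod g
  refine ⟨s, hs, ?_⟩
  have ha' : s * a * s⁻¹ ∈ S := S.mul_mem (S.mul_mem hs ha) (S.inv_mem hs)
  have h1 : b * (s * a * s⁻¹)⁻¹ ∈ N := by
    have e : b * (s * a * s⁻¹)⁻¹ = n * ((s * a * s⁻¹) * n⁻¹ * (s * a * s⁻¹)⁻¹) := by
      rw [← hg]; group
    rw [e]
    exact N.mul_mem hn (hN.conj_mem _ (N.inv_mem hn) _)
  have h2 : b * (s * a * s⁻¹)⁻¹ ∈ S := S.mul_mem hb (S.inv_mem ha')
  have h3 : b * (s * a * s⁻¹)⁻¹ ∈ N ⊓ S := Subgroup.mem_inf.mpr ⟨h1, h2⟩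
  rw [hdisj, Subgroup.mem_bot] at h3
  exact (mul_inv_eq_one.mp h3).symm

/-- A Sylow `2`-subgroup of order at most four containing a central involution has a normal
complement. -/
theorem k4_complement {G : Type*} [Group G] [Finite G] (T : Sylow 2 G) (t a : G)
    (htt : t * t = 1) (htc : ∀ g : G, g * t = t * g)
    (hT : ∀ x ∈ (T : Subgroup G), x = 1 ∨ x = t ∨ x = a ∨ x = t * a) :
    Cfsg.HasNormalPComplement 2 G := by
  haveI : Fact (Nat.Prime 2) := ⟨Nat.prime_two⟩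
  have key : ∀ x ∈ (T : Subgroup G), x ≠ 1 → x ≠ t →
      ∀ y ∈ (T : Subgroup G), y = 1 ∨ y = t ∨ y = x ∨ y = t * x := by
    intro x hx hx1 hxt y hy
    rcases hT x hx with h | h | h | h
    · exact absurd h hx1
    · exact absurd h hxt
    · rw [h]; exact hT y hy
    · have ha : a = t * x := by rw [h, ← mul_assoc, htt, one_mul]
      rcases hT y hy with h' | h' | h' | h'
      · exact Or.inl h'
      · exact Or.inr (Or.inl h')
      · exact Or.inr (Or.inr (Or.inr (by rw [h', ha])))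
      · exact Or.inr (Or.inr (Or.inl (by rw [h', h])))
  obtain ⟨N, hN, hc⟩ := (Cfsg.Agent.S0071.result T).mpr (by
    intro Q hQ g hg hodd
    rw [mem_centralizer_iff]
    intro x hx
    have hpow : g * g * x = x * (g * g) → g * x = x * g := by
      intro h2
      obtain ⟨k, hk⟩ : Odd (orderOf g) := Nat.Coprime.odd_of_right hodd
      have hg' : g = (g * g) ^ (k + 1) := by
        rw [← pow_two, ← pow_mul]
        have : 2 * (k + 1) = orderOf g + 1 := by omega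
        rw [this, pow_succ, pow_orderOf_eq_one, one_mul]
      have hcm : Commute (g * g) x := h2
      have := hcm.pow_left (k + 1)
      rw [← hg'] at this
      exact this
    by_cases hx1 : x = 1
    · rw [hx1]; simp
    by_cases hxt : x = t
    · rw [hxt]; exact (htc g).symm
    have hgx : g * x * g⁻¹ ∈ Q := (mem_normalizer_iff.mp hg x).mp hx
    have h3 : g * t * g⁻¹ = t := by rw [htc g]; group
    rcases key x (hQ hx) hx1 hxt _ (hQ hgx) with h | h | h | h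
    · exfalso; apply hx1
      have : x = g⁻¹ * (g * x * g⁻¹) * g := by group
      rw [this, h]; group
    · exfalso; apply hxt
      have e1 : x = g⁻¹ * (g * x * g⁻¹) * g := by group
      have e2 : t = g⁻¹ * (g * t * g⁻¹) * g := by group
      rw [e1, e2, h, h3]
    · calc x * g = (g * x * g⁻¹) * g := by rw [h]
        _ = g * x := by group
    · symm; apply hpow
      calc g * g * x = g * (g * x * g⁻¹) * g⁻¹ * (g * g) := by group
        _ = g * (t * x) * g⁻¹ * (g * g) := by rw [h]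
        _ = (g * t * g⁻¹) * (g * x * g⁻¹) * (g * g) := by group
        _ = t * (t * x) * (g * g) := by rw [h3, h]
        _ = x * (g * g) := by rw [← mul_assoc t t x, htt, one_mul])
  exact ⟨T, N, hN, hc⟩

theorem central_mem_sylow {G : Type*} [Group G] [Finite G] (T : Sylow 2 G) (t : G)
    (htt : t * t = 1) (htc : ∀ g : G, g * t = t * g) : t ∈ (T : Subgroup G) := by
  haveI : Fact (Nat.Prime 2) := ⟨Nat.prime_two⟩
  haveI hn : (zpowers t).Normal := by
    constructor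
    intro n hn g
    have : g * n * g⁻¹ = n := by
      obtain ⟨k, rfl⟩ := Subgroup.mem_zpowers_iff.mp hn
      have hc : Commute g t := htc g
      have := hc.zpow_right k
      calc g * t ^ k * g⁻¹ = t ^ k * g * g⁻¹ := by rw [this.eq]
        _ = t ^ k := by group
    rw [this]; exact hn
  have hp : IsPGroup 2 (zpowers t) := by
    have h1 : orderOf t ∣ 2 := orderOf_dvd_of_pow_eq_one (by rw [pow_two]; exact htt)
    rcases (Nat.dvd_prime Nat.prime_two).mp h1 with h2 | h2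
    · apply IsPGroup.of_card (n := 0); rw [Nat.card_zpowers, h2, pow_zero]
    · apply IsPGroup.of_card (n := 1); rw [Nat.card_zpowers, h2, pow_one]
  exact hp.le_sylow_of_normal T (mem_zpowers t)

/-- A dihedral Sylow `2`-subgroup of order at least `8` together with a central involution
forces a normal `2`-complement. -/
theorem central_dih_complement {G : Type*} [Group G] [Finite G] (T : Sylow 2 G) (m : ℕ)
    (hm : 4 ≤ m) (eT : (T : Subgroup G) ≃* DihedralGroup m) (t : G) (hto : orderOf t = 2)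
    (htc : ∀ g : G, g * t = t * g) : Cfsg.HasNormalPComplement 2 G := by
  obtain ⟨ρ, σ, j, hD, hmj, hcard, hrel, hje⟩ := dih_data2 T m (by omega) eT
  have ht' := (invol_iff t).mp hto
  have htT := central_mem_sylow T t ht'.1 htc
  have htQ : t ∈ zpowers ρ := by
    by_contra hnQ
    have h1 := hD.inv t htT hnQ ρ (mem_zpowers ρ)
    have h2 : t * ρ * t⁻¹ = ρ := by rw [← htc ρ]; group
    rw [h2] at h1
    have h3 : ρ * ρ = 1 := by
      calc ρ * ρ = ρ * ρ⁻¹ := by rw [← h1]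
        _ = 1 := mul_inv_cancel ρ
    have h4 : orderOf ρ ∣ 2 := orderOf_dvd_of_pow_eq_one (by rw [pow_two]; exact h3)
    rw [hD.ord] at h4
    have := Nat.le_of_dvd (by norm_num) h4
    omega
  have htz : t = ρ ^ j := hD.uniq t htQ ht'.1 ht'.2
  rw [Cfsg.Agent.S1254.result T m (by omega) eT]
  intro U hU hK
  apply hD.four_normalizer_decomp (hje hm) U hU hK
  intro g hg
  rw [← htz, htc g]; group

end Cfsg.Agent.Lib.helper7
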