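import Mathlib
import Cfsg.Agent.Lib.helper7.TateFus
import Cfsg.Agent.Lib.helper25.FusionInv
import Cfsg.Agent.Lib.helper14.PIrred

set_option autoImplicit false

/-! Subsystems of `p`-power index of a saturated fusion system are normal. -/

namespace Cfsg.Agent.Lib.helper7.PPowIdx

open Cfsg Cfsg.FusionSystem Cfsg.Agent.Lib.helper25 Cfsg.Agent.Lib.helper7.TateFus

universe u

variable {Ω : Type u} [Group Ω] {S T : Subgroup Ω}

/-- conjugating maps of `E` by `ψ` gives maps of `E` -/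
def PrC (E : FusionSystem T) (U : Subgroup Ω) (ψ : U →* Ω) : Prop :=
  ∀ (P : Subgroup Ω) (φ : P →* Ω), φ ∈ E.Hom P → ∀ (hPU : P ≤ U) (hφU : ∀ x : P, φ x ∈ U),
    ∃ (R : Subgroup Ω) (χ : R →* Ω), χ ∈ E.Hom R ∧
      ∀ x : P, ∃ h : ψ ⟨x, hPU x.2⟩ ∈ R, χ ⟨ψ ⟨x, hPU x.2⟩, h⟩ = ψ ⟨φ x, hφU x⟩

theorem prC_res (E : FusionSystem T) {U V : Subgroup Ω} {ψ : V →* Ω} (h : U ≤ V)
    (hψ : PrC E V ψ) : PrC E U (ψ.comp (Subgroup.inclusion h)) := by
  intro P φ hφ hPU hφU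
  obtain ⟨R, χ, hχ, hx⟩ := hψ P φ hφ (hPU.trans h) (fun x => h (hφU x))
  exact ⟨R, χ, hχ, fun x => hx x⟩

theorem prC_congr (E : FusionSystem T) {U : Subgroup Ω} {ψ ψ' : U →* Ω}
    (hψ : PrC E U ψ) (h : ∀ x, ψ' x = ψ x) : PrC E U ψ' := by
  have : ψ' = ψ := MonoidHom.ext h
  rw [this]
  exact hψ

theorem prC_comp (E : FusionSystem T) {U V : Subgroup Ω} {φ' : U →* Ω} {ψ' : V →* Ω}
    (h : ∀ x, φ' x ∈ V) (h1 : PrC E U φ') (h2 : PrC E V ψ') :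
    PrC E U (ψ'.comp (φ'.codRestrict V h)) := by
  intro P φ hφ hPU hφU
  obtain ⟨R₁, χ₁, hχ₁, hx₁⟩ := h1 P φ hφ hPU hφU
  have hP₁R : (φ'.comp (Subgroup.inclusion hPU)).range ≤ R₁ := by
    rintro _ ⟨x, rfl⟩
    exact (hx₁ x).1
  have hP₁V : (φ'.comp (Subgroup.inclusion hPU)).range ≤ V := by
    rintro _ ⟨x, rfl⟩
    exact h _
  have hφ₁ := hom_restrict E hP₁R hχ₁
  have hval : ∀ y : (φ'.comp (Subgroup.inclusion hPU)).range,
      (χ₁.comp (Subgroup.inclusion hP₁R)) y ∈ V := by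
    rintro ⟨_, x, rfl⟩
    have h3 := (hx₁ x).2
    show χ₁ ⟨φ' ⟨x, hPU x.2⟩, _⟩ ∈ V
    rw [h3]
    exact h _
  obtain ⟨R₂, χ₂, hχ₂, hx₂⟩ := h2 _ _ hφ₁ hP₁V hval
  refine ⟨R₂, χ₂, hχ₂, fun x => ?_⟩
  obtain ⟨h4, h5⟩ := hx₂ ⟨φ' ⟨x, hPU x.2⟩, ⟨x, rfl⟩⟩
  refine ⟨h4, ?_⟩
  show χ₂ ⟨ψ' ⟨φ' ⟨x, hPU x.2⟩, _⟩, _⟩ = ψ' ⟨φ' ⟨φ x, hφU x⟩, _⟩
  rw [h5]
  congr 1
  apply Subtype.ext
  exact (hx₁ x).2

/-- maps of `E` conjugate maps of `E` to maps of `E` -/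
theorem prC_of_mem (E : FusionSystem T) {Q₀ : Subgroup Ω} {ψ₀ : Q₀ →* Ω} (hψ₀ : ψ₀ ∈ E.Hom Q₀) :
    PrC E Q₀ ψ₀ := by
  intro P φ hφ hPU hφU
  have hres := hom_restrict E hPU hψ₀
  obtain ⟨ψ', hψ', hinv, hr⟩ := exists_inv E hres rfl
  have hv1 : ∀ y : (ψ₀.comp (Subgroup.inclusion hPU)).range, ψ' y ∈ P := by
    intro y
    have h1 : ψ' y ∈ ψ'.range := ⟨y, rfl⟩
    rw [hr] at h1
    exact h1
  have hc1 := E.comp_mem hψ' hφ hv1
  have hv2 : ∀ y : (ψ₀.comp (Subgroup.inclusion hPU)).range,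
      (φ.comp (ψ'.codRestrict P hv1)) y ∈ Q₀ := fun y => hφU _
  have hc2 := E.comp_mem hc1 hψ₀ hv2
  refine ⟨_, _, hc2, fun x => ⟨⟨x, rfl⟩, ?_⟩⟩
  show ψ₀ ⟨φ ⟨ψ' ⟨ψ₀ ⟨x, hPU x.2⟩, _⟩, _⟩, _⟩ = ψ₀ ⟨φ x, hφU x⟩
  congr 1
  apply Subtype.ext
  show φ ⟨ψ' ⟨ψ₀ ⟨x, hPU x.2⟩, _⟩, _⟩ = φ x
  congr 1
  apply Subtype.ext
  exact hinv x ⟨x, rfl⟩

theorem stronglyClosed_of_hyp_le [Finite S] {p : ℕ} [Fact p.Prime] (hS : IsPGroup p S)
    (F : FusionSystem S) (hF : F.IsSaturated p) (hTS : T ≤ S)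
    (hTconj : ∀ t ∈ S, ∀ x ∈ T, t * x * t⁻¹ ∈ T)
    (hT : F.hyperfocalSubgroup p ≤ T) : F.StronglyClosed T := by
  refine ⟨hTS, fun R hR φ hφ x => ?_⟩
  obtain ⟨t, ht, h⟩ := fp_mod_hyp hS F hF R φ hφ
  have h1 := hT (h x)
  have h2 : t * (x : Ω) * t⁻¹ ∈ T := hTconj t ht x (hR x.2)
  have h3 : φ x = (φ x * (t * (x : Ω) * t⁻¹)⁻¹) * (t * (x : Ω) * t⁻¹) := by group
  rw [h3]
  exact T.mul_mem h1 h2

theorem aut_mem_T (F : FusionSystem S) (hsc : F.StronglyClosed T) {W : Subgroup Ω} (hW : W ≤ S)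
    (α : F.autGroup W) (y : W) (hy : (y : Ω) ∈ T) : (((α : MulAut W) y : W) : Ω) ∈ T :=
  hom_mem_of_stronglyClosed F hsc
    ((Cfsg.Agent.Lib.helper26.mem_autGroup_iff F hW (α : MulAut W)).1 α.2) hy

/-- restriction of automorphisms of `W` in `F` to `W ⊓ T`, for strongly closed `T` -/
noncomputable def resAut (F : FusionSystem S) (hsc : F.StronglyClosed T) (W : Subgroup Ω)
    (hW : W ≤ S) : F.autGroup W →* MulAut ↥(W ⊓ T) where
  toFun α :=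
    { toFun := fun y => ⟨((α : MulAut W) ⟨y, y.2.1⟩ : W),
        ⟨((α : MulAut W) ⟨y, y.2.1⟩).2, aut_mem_T F hsc hW α ⟨y, y.2.1⟩ y.2.2⟩⟩
      invFun := fun y => ⟨(((α⁻¹ : F.autGroup W) : MulAut W) ⟨y, y.2.1⟩ : W),
        ⟨(((α⁻¹ : F.autGroup W) : MulAut W) ⟨y, y.2.1⟩).2,
          aut_mem_T F hsc hW α⁻¹ ⟨y, y.2.1⟩ y.2.2⟩⟩
      left_inv := by
        intro y
        apply Subtype.ext
        show ((((α : MulAut W)⁻¹ ((α : MulAut W) ⟨y, y.2.1⟩)) : W) : Ω) = y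
        rw [MulAut.inv_apply_self]
      right_inv := by
        intro y
        apply Subtype.ext
        show ((((α : MulAut W) ((α : MulAut W)⁻¹ ⟨y, y.2.1⟩)) : W) : Ω) = y
        rw [MulAut.apply_inv_self]
      map_mul' := by
        intro a b
        apply Subtype.ext
        show (((α : MulAut W) (⟨a, a.2.1⟩ * ⟨b, b.2.1⟩) : W) : Ω) = _
        rw [map_mul]
        rfl }
  map_one' := by
    ext y
    rfl
  map_mul' := by
    intro a b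
    ext y
    rfl

theorem resAut_apply (F : FusionSystem S) (hsc : F.StronglyClosed T) (W : Subgroup Ω)
    (hW : W ≤ S) (α : F.autGroup W) (y : ↥(W ⊓ T)) :
    ((resAut F hsc W hW α y : ↥(W ⊓ T)) : Ω) = ((α : MulAut W) ⟨y, y.2.1⟩ : W) := rfl

theorem resAut_mem (F : FusionSystem S) (hsc : F.StronglyClosed T) (W : Subgroup Ω)
    (hW : W ≤ S) (α : F.autGroup W) : resAut F hsc W hW α ∈ F.autGroup (W ⊓ T) := by
  rw [Cfsg.Agent.Lib.helper26.mem_autGroup_iff F (inf_le_left.trans hW)]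
  have h1 := (Cfsg.Agent.Lib.helper26.mem_autGroup_iff F hW (α : MulAut W)).1 α.2
  exact hom_congr F (hom_restrict F inf_le_left h1) (fun y => rfl)

/-- elements of `O^p(Aut_F(W))` restrict to maps of `E` on `W ⊓ T` -/
theorem res_mem (F : FusionSystem S) (hsc : F.StronglyClosed T) (E : FusionSystem T) {p : ℕ}
    (hidx : ∀ P : Subgroup Ω, P ≤ T →
      (pResidual p (F.autGroup P)).map (F.autGroup P).subtype ≤ E.autGroup P)
    (W : Subgroup Ω) (hW : W ≤ S) (ρ : F.autGroup W) (hρ : ρ ∈ pResidual p (F.autGroup W)) :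
    ∃ ρ' ∈ E.Hom (W ⊓ T), ∀ y : ↥(W ⊓ T), ρ' y = ((ρ : MulAut W) ⟨y, y.2.1⟩ : W) := by
  let f : F.autGroup W →* F.autGroup (W ⊓ T) :=
    (resAut F hsc W hW).codRestrict _ (fun α => resAut_mem F hsc W hW α)
  have h1 : f ρ ∈ pResidual p (F.autGroup (W ⊓ T)) := map_pResidual_le p f ⟨ρ, hρ, rfl⟩
  have h2 : ((f ρ : F.autGroup (W ⊓ T)) : MulAut ↥(W ⊓ T)) ∈ E.autGroup (W ⊓ T) :=
    hidx (W ⊓ T) inf_le_right ⟨f ρ, h1, rfl⟩
  have h3 := (Cfsg.Agent.Lib.helper26.mem_autGroup_iff E inf_le_right _).1 h2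
  exact ⟨_, h3, fun y => rfl⟩

/-- `E` is invariant under conjugation by elements of `S` -/
theorem conj_inv [Finite S] {p : ℕ} [Fact p.Prime] (hS : IsPGroup p S) (F : FusionSystem S)
    (hTS : T ≤ S) (hTconj : ∀ t ∈ S, ∀ x ∈ T, t * x * t⁻¹ ∈ T) (E : FusionSystem T)
    (hEs : E.IsSaturated p) (hEF : E.IsSubsystemOf F)
    (hidx : ∀ P : Subgroup Ω, P ≤ T →
      (pResidual p (F.autGroup P)).map (F.autGroup P).subtype ≤ E.autGroup P)
    (t : Ω) (ht : t ∈ S) :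
    ∀ (U : Subgroup Ω) (φ : U →* Ω), φ ∈ E.Hom U → ∃ (R : Subgroup Ω) (χ : R →* Ω),
      χ ∈ E.Hom R ∧ ∀ x : U, ∃ h : t * (x : Ω) * t⁻¹ ∈ R,
        χ ⟨t * (x : Ω) * t⁻¹, h⟩ = t * φ x * t⁻¹ := by
  haveI : Finite T := Cfsg.Agent.Lib.helper26.finite_of_le hTS
  have hTp : IsPGroup p T := hS.to_le hTS
  apply Cfsg.Agent.Lib.helper26.alperin_induction hTp E hEs
    (fun U φ => ∃ (R : Subgroup Ω) (χ : R →* Ω),
      χ ∈ E.Hom R ∧ ∀ x : U, ∃ h : t * (x : Ω) * t⁻¹ ∈ R,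
        χ ⟨t * (x : Ω) * t⁻¹, h⟩ = t * φ x * t⁻¹)
  · rintro U V φ h _ ⟨R, χ, hχ, hx⟩
    exact ⟨R, χ, hχ, fun x => hx (Subgroup.inclusion h x)⟩
  · rintro U V φ ψ h _ _ ⟨R₁, χ₁, hχ₁, hx₁⟩ ⟨R₂, χ₂, hχ₂, hx₂⟩
    have hP₁R : (Cfsg.conjHom U t).range ≤ R₁ := by
      rintro _ ⟨x, rfl⟩
      exact (hx₁ x).1
    have hφ₁ := hom_restrict E hP₁R hχ₁
    have hval : ∀ y : (Cfsg.conjHom U t).range,
        (χ₁.comp (Subgroup.inclusion hP₁R)) y ∈ R₂ := by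
      rintro ⟨_, x, rfl⟩
      show χ₁ ⟨t * (x : Ω) * t⁻¹, _⟩ ∈ R₂
      rw [(hx₁ x).2]
      exact (hx₂ ⟨φ x, h x⟩).1
    refine ⟨_, _, E.comp_mem hφ₁ hχ₂ hval, fun x => ⟨⟨x, rfl⟩, ?_⟩⟩
    show χ₂ ⟨χ₁ ⟨t * (x : Ω) * t⁻¹, _⟩, _⟩ = t * ψ ⟨φ x, h x⟩ * t⁻¹
    rw [← (hx₂ ⟨φ x, h x⟩).2]
    congr 1
    apply Subtype.ext
    exact (hx₁ x).2
  · intro W hW _ α hα
    have hfa := Cfsg.Agent.Lib.helper26.fullyAutomized_of_fullyNormalized hTp E hEs hW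
    obtain ⟨ρ, hρ, g, rfl⟩ := exists_residual_mul_conj E hfa α
      ((Cfsg.Agent.Lib.helper26.mem_autGroup_iff E hW.1 α).2 hα)
    have hWS : W ≤ S := hW.1.trans hTS
    have hφc := F.conj_mem (P := W) hWS ht
    obtain ⟨e, he, hex⟩ := Cfsg.Agent.Lib.helper26.exists_iso_of_mem F hφc rfl
    have hW'T : (Cfsg.conjHom W t).range ≤ T := by
      rintro _ ⟨x, rfl⟩
      exact hTconj t ht x (hW.1 x.2)
    have hle : E.autGroup W ≤ F.autGroup W := Subgroup.closure_mono (fun β hβ => hEF W hβ)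
    have hρF : Subgroup.inclusion hle ρ ∈ pResidual p (F.autGroup W) :=
      map_pResidual_le p (Subgroup.inclusion hle) ⟨ρ, hρ, rfl⟩
    let Φ : F.autGroup W →* F.autGroup (Cfsg.conjHom W t).range :=
      ((MulAut.congr e).toMonoidHom.comp (F.autGroup W).subtype).codRestrict _
        (fun β => he.congr_mem β.2)
    have hΦ : Φ (Subgroup.inclusion hle ρ) ∈ pResidual p (F.autGroup (Cfsg.conjHom W t).range) :=
      map_pResidual_le p Φ ⟨_, hρF, rfl⟩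
    have hE' : ((Φ (Subgroup.inclusion hle ρ) : F.autGroup (Cfsg.conjHom W t).range) :
        MulAut (Cfsg.conjHom W t).range) ∈ E.autGroup (Cfsg.conjHom W t).range :=
      hidx _ hW'T ⟨_, hΦ, rfl⟩
    have hχρ := (Cfsg.Agent.Lib.helper26.mem_autGroup_iff E hW'T _).1 hE'
    have hΦe : ∀ x : W, ((Φ (Subgroup.inclusion hle ρ) : F.autGroup (Cfsg.conjHom W t).range) :
        MulAut (Cfsg.conjHom W t).range) (e x) = e ((ρ : MulAut W) x) := by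
      intro x
      show (MulAut.congr e (ρ : MulAut W)) (e x) = _
      simp [MulAut.congr]
    have htg : t * (g : Ω) * t⁻¹ ∈ T := hTconj t ht g g.2.1
    have hχg := E.conj_mem (P := (Cfsg.conjHom W t).range) hW'T htg
    have hgx : ∀ x : W, t * (g : Ω) * t⁻¹ * (t * (x : Ω) * t⁻¹) * (t * (g : Ω) * t⁻¹)⁻¹ =
        ((e (Cfsg.Agent.Lib.helper26.conjAut T W g x) : (Cfsg.conjHom W t).range) : Ω) := by
      intro x
      rw [hex, conjHom_apply, Cfsg.Agent.Lib.helper26.conjAut_apply]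
      group
    have hval : ∀ y : (Cfsg.conjHom W t).range,
        Cfsg.conjHom (Cfsg.conjHom W t).range (t * (g : Ω) * t⁻¹) y ∈
          (Cfsg.conjHom W t).range := by
      rintro ⟨_, x, rfl⟩
      rw [conjHom_apply]
      show t * (g : Ω) * t⁻¹ * (t * (x : Ω) * t⁻¹) * (t * (g : Ω) * t⁻¹)⁻¹ ∈ _
      rw [hgx]
      exact Subtype.mem _
    refine ⟨_, _, E.comp_mem hχg hχρ hval, fun x => ⟨⟨x, rfl⟩, ?_⟩⟩
    have h5 : ((Cfsg.conjHom (Cfsg.conjHom W t).range (t * (g : Ω) * t⁻¹)).codRestrict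
        (Cfsg.conjHom W t).range hval) ⟨t * (x : Ω) * t⁻¹, ⟨x, rfl⟩⟩ =
        e (Cfsg.Agent.Lib.helper26.conjAut T W g x) := by
      apply Subtype.ext
      exact hgx x
    show ((((Φ (Subgroup.inclusion hle ρ) : F.autGroup (Cfsg.conjHom W t).range) :
        MulAut (Cfsg.conjHom W t).range)
        (((Cfsg.conjHom (Cfsg.conjHom W t).range (t * (g : Ω) * t⁻¹)).codRestrict
        (Cfsg.conjHom W t).range hval) ⟨t * (x : Ω) * t⁻¹, ⟨x, rfl⟩⟩) :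
          (Cfsg.conjHom W t).range) : Ω) = _
    rw [h5, hΦe, hex, conjHom_apply]
    rfl

/-- every map of `F` conjugates maps of `E` to maps of `E` -/
theorem prC_all [Finite S] {p : ℕ} [Fact p.Prime] (hS : IsPGroup p S) (F : FusionSystem S)
    (hF : F.IsSaturated p) (hTS : T ≤ S) (hTconj : ∀ t ∈ S, ∀ x ∈ T, t * x * t⁻¹ ∈ T)
    (hsc : F.StronglyClosed T) (E : FusionSystem T)
    (hEs : E.IsSaturated p) (hEF : E.IsSubsystemOf F)
    (hidx : ∀ P : Subgroup Ω, P ≤ T →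
      (pResidual p (F.autGroup P)).map (F.autGroup P).subtype ≤ E.autGroup P) :
    ∀ (U : Subgroup Ω) (ψ : U →* Ω), ψ ∈ F.Hom U → PrC E U ψ := by
  apply Cfsg.Agent.Lib.helper26.alperin_induction hS F hF (PrC E)
  · intro U V φ h _ hPr
    exact prC_res E h hPr
  · intro U V φ ψ h _ _ h1 h2
    exact prC_comp E h h1 h2
  · intro W hW _ α hα
    have hfa := Cfsg.Agent.Lib.helper26.fullyAutomized_of_fullyNormalized hS F hF hW
    obtain ⟨ρ, hρ, g, rfl⟩ := exists_residual_mul_conj F hfa α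
      ((Cfsg.Agent.Lib.helper26.mem_autGroup_iff F hW.1 α).2 hα)
    obtain ⟨ρ', hρ', hρ'x⟩ := res_mem F hsc E hidx W hW.1 ρ hρ
    intro P φ hφ hPW hφW
    have hPT : P ≤ T := (E.le_of_mem hφ).1
    obtain ⟨R₁, χ₁, hχ₁, hx₁⟩ := conj_inv hS F hTS hTconj E hEs hEF hidx (g : Ω) g.2.1 P φ hφ
    have hgW : ∀ y : W, (g : Ω) * (y : Ω) * (g : Ω)⁻¹ ∈ W :=
      fun y => (Cfsg.Agent.Lib.helper26.conjAut S W g y).2
    have hP₁R : (Cfsg.conjHom P (g : Ω)).range ≤ R₁ := by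
      rintro _ ⟨x, rfl⟩
      exact (hx₁ x).1
    have hP₁W : (Cfsg.conjHom P (g : Ω)).range ≤ W ⊓ T := by
      rintro _ ⟨x, rfl⟩
      exact ⟨hgW ⟨x, hPW x.2⟩, hTconj g g.2.1 x (hPT x.2)⟩
    have hφ₁ := hom_restrict E hP₁R hχ₁
    have hgφ : ∀ x : P, (g : Ω) * φ x * (g : Ω)⁻¹ ∈ W ⊓ T := fun x =>
      ⟨hgW ⟨φ x, hφW x⟩, hTconj g g.2.1 _ ((E.le_of_mem hφ).2 x)⟩
    have hval : ∀ y : (Cfsg.conjHom P (g : Ω)).range,
        (χ₁.comp (Subgroup.inclusion hP₁R)) y ∈ W ⊓ T := by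
      rintro ⟨_, x, rfl⟩
      show χ₁ ⟨(g : Ω) * (x : Ω) * (g : Ω)⁻¹, _⟩ ∈ W ⊓ T
      rw [(hx₁ x).2]
      exact hgφ x
    obtain ⟨R₂, χ₂, hχ₂, hx₂⟩ := prC_of_mem E hρ' _ _ hφ₁ hP₁W hval
    refine ⟨R₂, χ₂, hχ₂, fun x => ?_⟩
    obtain ⟨h4, h5⟩ := hx₂ ⟨(g : Ω) * (x : Ω) * (g : Ω)⁻¹, ⟨x, rfl⟩⟩
    have e1 : (W.subtype.comp ((ρ : MulAut W) *
        Cfsg.Agent.Lib.helper26.conjAut S W g).toMonoidHom) ⟨x, hPW x.2⟩ =
        ρ' ⟨(g : Ω) * (x : Ω) * (g : Ω)⁻¹, hP₁W ⟨x, rfl⟩⟩ := by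
      rw [hρ'x]
      rfl
    have e2 : (W.subtype.comp ((ρ : MulAut W) *
        Cfsg.Agent.Lib.helper26.conjAut S W g).toMonoidHom) ⟨φ x, hφW x⟩ =
        ρ' ⟨(g : Ω) * φ x * (g : Ω)⁻¹, hgφ x⟩ := by
      rw [hρ'x]
      rfl
    have e3 : ρ' ⟨(χ₁.comp (Subgroup.inclusion hP₁R))
        ⟨(g : Ω) * (x : Ω) * (g : Ω)⁻¹, ⟨x, rfl⟩⟩, hval _⟩ =
        ρ' ⟨(g : Ω) * φ x * (g : Ω)⁻¹, hgφ x⟩ := by
      congr 1
      apply Subtype.ext
      exact (hx₁ x).2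
    have key : ∀ A : Ω, A = ρ' ⟨(g : Ω) * (x : Ω) * (g : Ω)⁻¹, hP₁W ⟨x, rfl⟩⟩ →
        ∃ h : A ∈ R₂, χ₂ ⟨A, h⟩ = ρ' ⟨(g : Ω) * φ x * (g : Ω)⁻¹, hgφ x⟩ := by
      rintro A rfl
      exact ⟨h4, h5.trans e3⟩
    obtain ⟨h, hh⟩ := key _ e1
    exact ⟨h, hh.trans e2.symm⟩

theorem strongInv_of [Finite S] {p : ℕ} [Fact p.Prime] (hS : IsPGroup p S) (F : FusionSystem S)
    (hF : F.IsSaturated p) (hTS : T ≤ S) (hTconj : ∀ t ∈ S, ∀ x ∈ T, t * x * t⁻¹ ∈ T)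
    (hsc : F.StronglyClosed T) (E : FusionSystem T)
    (hEs : E.IsSaturated p) (hEF : E.IsSubsystemOf F)
    (hidx : ∀ P : Subgroup Ω, P ≤ T →
      (pResidual p (F.autGroup P)).map (F.autGroup P).subtype ≤ E.autGroup P) :
    StrongInv F E := by
  intro P Q hPQ hQT φ hφ hφQ ψ hψ
  obtain ⟨R, χ, hχ, hx⟩ := prC_all hS F hF hTS hTconj hsc E hEs hEF hidx Q ψ hψ P φ hφ hPQ hφQ
  have hle : (P.subgroupOf Q).map ψ ≤ R := by
    rintro _ ⟨q, hq, rfl⟩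
    exact (hx ⟨q, Subgroup.mem_subgroupOf.1 hq⟩).1
  exact ⟨χ.comp (Subgroup.inclusion hle), hom_restrict E hle hχ, fun x hx' => (hx x).2⟩

theorem fullyNormalized_of_stronglyClosed [Finite S] (F : FusionSystem S)
    (hsc : F.StronglyClosed T) : F.IsFullyNormalized T := by
  refine ⟨hsc.1, fun Q hQ => ?_⟩
  have hcard := Cfsg.Agent.Lib.helper26.isConj_card F hQ
  obtain ⟨φ, hφ, hr⟩ := hQ
  have hQT : Q ≤ T := by
    rw [← hr]
    rintro _ ⟨x, rfl⟩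
    exact hsc.2 T le_rfl φ hφ x
  haveI : Finite T := Cfsg.Agent.Lib.helper26.finite_of_le hsc.1
  have hQeq : Q = T := Subgroup.eq_of_le_of_card_ge hQT hcard.le
  rw [hQeq]

/-- a `p'`-automorphism of `T` in `F` extends to an element of `O^p(Aut_F(T C_S(T)))` -/
theorem exists_ext_pprime [Finite S] {p : ℕ} [Fact p.Prime] (hS : IsPGroup p S)
    (F : FusionSystem S) (hF : F.IsSaturated p) (hsc : F.StronglyClosed T)
    (g₀ : MulAut T) (hg₀ : g₀ ∈ F.autGroup T) (hcop : Nat.Coprime (orderOf g₀) p) :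
    ∃ β : F.autGroup (T ⊔ centralizerIn S T),
      β ∈ pResidual p (F.autGroup (T ⊔ centralizerIn S T)) ∧
      ∀ x : T, (β : MulAut ↥(T ⊔ centralizerIn S T)) (Subgroup.inclusion le_sup_left x) =
        Subgroup.inclusion le_sup_left (g₀ x) := by
  classical
  have hp : p.Prime := Fact.out
  have hTS : T ≤ S := hsc.1
  have hT₁S : T ⊔ centralizerIn S T ≤ S := sup_le hTS inf_le_left
  haveI : Finite ↥(T ⊔ centralizerIn S T) := Cfsg.Agent.Lib.helper26.finite_of_le hT₁S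
  haveI : Finite T := Cfsg.Agent.Lib.helper26.finite_of_le hTS
  have hfn := fullyNormalized_of_stronglyClosed F hsc
  have hrec := Cfsg.Agent.Lib.helper26.receptive_of_fullyNormalized hS F hF hfn
  have hγ := (Cfsg.Agent.Lib.helper26.mem_autGroup_iff F hTS g₀).1 hg₀
  have hrange : (T.subtype.comp g₀.toMonoidHom).range = T := by
    ext y
    constructor
    · rintro ⟨x, rfl⟩
      exact (g₀ x).2
    · intro hy
      refine ⟨g₀⁻¹ ⟨y, hy⟩, ?_⟩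
      show ((g₀ (g₀⁻¹ ⟨y, hy⟩) : T) : Ω) = y
      rw [MulAut.apply_inv_self]
  obtain ⟨ψ, hψ, hψx⟩ := hrec.2 T _ hγ hrange
  have hT₁le : T ⊔ centralizerIn S T ≤ extender S T (T.subtype.comp g₀.toMonoidHom) :=
    sup_le (Cfsg.Agent.Lib.helper26.le_extender hTS (fun x => hTS (g₀ x).2))
      Cfsg.Agent.Lib.helper26.centralizerIn_le_extender
  have hψ₁ := hom_restrict F hT₁le hψ
  have hψT : ∀ x : T, (ψ.comp (Subgroup.inclusion hT₁le)) (Subgroup.inclusion le_sup_left x) =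
      ((g₀ x : T) : Ω) := fun x => hψx x x.2 _
  -- the image lies in `T ⊔ C_S(T)`
  have hD : T ⊔ centralizerIn S T ≤
      ((T ⊔ centralizerIn S T).comap (ψ.comp (Subgroup.inclusion hT₁le))).map
        (T ⊔ centralizerIn S T).subtype := by
    apply sup_le
    · intro y hy
      refine ⟨Subgroup.inclusion le_sup_left ⟨y, hy⟩, ?_, rfl⟩
      show (ψ.comp (Subgroup.inclusion hT₁le)) (Subgroup.inclusion le_sup_left ⟨y, hy⟩) ∈
        T ⊔ centralizerIn S T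
      rw [hψT]
      exact Subgroup.mem_sup_left (g₀ ⟨y, hy⟩).2
    · intro y hy
      refine ⟨Subgroup.inclusion le_sup_right ⟨y, hy⟩, ?_, rfl⟩
      show (ψ.comp (Subgroup.inclusion hT₁le)) (Subgroup.inclusion le_sup_right ⟨y, hy⟩) ∈
        T ⊔ centralizerIn S T
      have hcz : (ψ.comp (Subgroup.inclusion hT₁le)) (Subgroup.inclusion le_sup_right ⟨y, hy⟩) ∈
          Subgroup.centralizer (T : Set Ω) := by
        rw [Subgroup.mem_centralizer_iff]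
        intro h hh
        have h1 : h = (ψ.comp (Subgroup.inclusion hT₁le))
            (Subgroup.inclusion le_sup_left (g₀⁻¹ ⟨h, hh⟩)) := by
          rw [hψT, MulAut.apply_inv_self]
        have hyc : y ∈ Subgroup.centralizer (T : Set Ω) := hy.2
        rw [Subgroup.mem_centralizer_iff] at hyc
        have h2 : Subgroup.inclusion (le_sup_left : T ≤ T ⊔ centralizerIn S T) (g₀⁻¹ ⟨h, hh⟩) *
            Subgroup.inclusion le_sup_right ⟨y, hy⟩ =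
            Subgroup.inclusion le_sup_right ⟨y, hy⟩ *
              Subgroup.inclusion (le_sup_left : T ≤ T ⊔ centralizerIn S T) (g₀⁻¹ ⟨h, hh⟩) := by
          apply Subtype.ext
          exact hyc _ (g₀⁻¹ ⟨h, hh⟩).2
        rw [h1, ← map_mul, h2, map_mul]
      exact Subgroup.mem_sup_right ⟨hom_mem F hψ₁ _, hcz⟩
  have hmap : ∀ y : ↥(T ⊔ centralizerIn S T),
      (ψ.comp (Subgroup.inclusion hT₁le)) y ∈ T ⊔ centralizerIn S T := by
    intro y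
    obtain ⟨y', hy', hyy'⟩ := hD y.2
    have h1 : y' = y := Subtype.ext hyy'
    rw [← h1]
    exact hy'
  have hinj : Function.Injective ((ψ.comp (Subgroup.inclusion hT₁le)).codRestrict _ hmap) := by
    intro a b hab
    exact F.injective_of_mem hψ₁ (congrArg Subtype.val hab)
  let β₀ : MulAut ↥(T ⊔ centralizerIn S T) :=
    MulEquiv.ofBijective ((ψ.comp (Subgroup.inclusion hT₁le)).codRestrict _ hmap)
      ⟨hinj, Finite.injective_iff_surjective.mp hinj⟩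
  have hβ₀ : β₀ ∈ F.autGroup (T ⊔ centralizerIn S T) :=
    (Cfsg.Agent.Lib.helper26.mem_autGroup_iff F hT₁S β₀).2 (hom_congr F hψ₁ (fun y => rfl))
  have hres₀ : ∀ x : T, β₀ (Subgroup.inclusion le_sup_left x) =
      Subgroup.inclusion le_sup_left (g₀ x) := by
    intro x
    apply Subtype.ext
    exact hψT x
  have hresn : ∀ (n : ℕ) (x : T), (β₀ ^ n) (Subgroup.inclusion le_sup_left x) =
      Subgroup.inclusion le_sup_left ((g₀ ^ n) x) := by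
    intro n
    induction n with
    | zero =>
      intro x
      rfl
    | succ n ih =>
      intro x
      rw [pow_succ, pow_succ, MulAut.mul_apply, MulAut.mul_apply, hres₀, ih]
  obtain ⟨k, r, hr, ho⟩ := Nat.exists_eq_pow_mul_and_not_dvd (orderOf_pos β₀).ne' p hp.ne_one
  have hc : (Nat.card (Subgroup.zpowers g₀)).Coprime (p ^ k) := by
    rw [Nat.card_zpowers]
    exact Nat.Coprime.pow_right k hcop
  obtain ⟨y, hy⟩ := (powCoprime hc).surjective ⟨g₀, Subgroup.mem_zpowers g₀⟩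
  have hy' : (y : MulAut T) ^ p ^ k = g₀ := congrArg Subtype.val hy
  obtain ⟨i, hi⟩ := (mem_powers_iff_mem_zpowers.mpr y.2 : (y : MulAut T) ∈ Submonoid.powers g₀)
  have hgi : g₀ ^ (i * p ^ k) = g₀ := by
    rw [pow_mul]
    have hi' : g₀ ^ i = (y : MulAut T) := hi
    rw [hi', hy']
  have hBr : ((⟨β₀, hβ₀⟩ : F.autGroup (T ⊔ centralizerIn S T)) ^ (i * p ^ k)) ^ r = 1 := by
    apply Subtype.ext
    show (β₀ ^ (i * p ^ k)) ^ r = 1
    rw [← pow_mul, mul_assoc, ← ho, mul_comm, pow_mul, pow_orderOf_eq_one, one_pow]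
  refine ⟨(⟨β₀, hβ₀⟩ : F.autGroup (T ⊔ centralizerIn S T)) ^ (i * p ^ k), ?_, fun x => ?_⟩
  · apply Subgroup.subset_closure
    show Nat.Coprime (orderOf ((⟨β₀, hβ₀⟩ : F.autGroup (T ⊔ centralizerIn S T)) ^ (i * p ^ k))) p
    exact Nat.Coprime.coprime_dvd_left (orderOf_dvd_of_pow_eq_one hBr)
      (Nat.Coprime.symm ((hp.coprime_iff_not_dvd).mpr hr))
  · show (β₀ ^ (i * p ^ k)) (Subgroup.inclusion le_sup_left x) = _
    rw [hresn, hgi]

/-- every element of `O^p(Aut_E(T))` extends to an element of `O^p(Aut_F(T C_S(T)))` -/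
theorem exists_ext_res [Finite S] {p : ℕ} [Fact p.Prime] (hS : IsPGroup p S)
    (F : FusionSystem S) (hF : F.IsSaturated p) (hsc : F.StronglyClosed T)
    (E : FusionSystem T) (hEF : E.IsSubsystemOf F)
    (ρ : E.autGroup T) (hρ : ρ ∈ pResidual p (E.autGroup T)) :
    ∃ β : F.autGroup (T ⊔ centralizerIn S T),
      β ∈ pResidual p (F.autGroup (T ⊔ centralizerIn S T)) ∧
      ∀ x : T, (β : MulAut ↥(T ⊔ centralizerIn S T)) (Subgroup.inclusion le_sup_left x) =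
        Subgroup.inclusion le_sup_left ((ρ : MulAut T) x) := by
  have hle : E.autGroup T ≤ F.autGroup T := Subgroup.closure_mono (fun β hβ => hEF T hβ)
  induction hρ using Subgroup.closure_induction with
  | mem g hg =>
    have hg' : Nat.Coprime (orderOf g) p := hg
    rw [← Subgroup.orderOf_coe] at hg'
    exact exists_ext_pprime hS F hF hsc (g : MulAut T) (hle g.2) hg'
  | one =>
    exact ⟨1, Subgroup.one_mem _, fun x => rfl⟩
  | mul a b _ _ iha ihb =>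
    obtain ⟨βa, hβa, ha⟩ := iha
    obtain ⟨βb, hβb, hb⟩ := ihb
    refine ⟨βa * βb, Subgroup.mul_mem _ hβa hβb, fun x => ?_⟩
    show (βa : MulAut ↥(T ⊔ centralizerIn S T)) ((βb : MulAut ↥(T ⊔ centralizerIn S T))
      (Subgroup.inclusion le_sup_left x)) = _
    rw [hb, ha]
    rfl
  | inv a _ iha =>
    obtain ⟨βa, hβa, ha⟩ := iha
    refine ⟨βa⁻¹, Subgroup.inv_mem _ hβa, fun x => ?_⟩
    show (βa : MulAut ↥(T ⊔ centralizerIn S T))⁻¹ (Subgroup.inclusion le_sup_left x) =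
      Subgroup.inclusion le_sup_left ((a : MulAut T)⁻¹ x)
    have h1 := ha ((a : MulAut T)⁻¹ x)
    rw [MulAut.apply_inv_self] at h1
    rw [← h1, MulAut.inv_apply_self]

/-- the extension condition for a subsystem of `p`-power index -/
theorem ext_cond [Finite S] {p : ℕ} [Fact p.Prime] (hS : IsPGroup p S)
    (F : FusionSystem S) (hF : F.IsSaturated p) (hsc : F.StronglyClosed T)
    (hT : F.hyperfocalSubgroup p ≤ T)
    (E : FusionSystem T) (hEs : E.IsSaturated p) (hEF : E.IsSubsystemOf F) :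
    ∀ α ∈ E.autGroup T, ∃ β ∈ F.autGroup (T ⊔ centralizerIn S T),
      (∀ x : T, ((β (Subgroup.inclusion le_sup_left x) : ↥(T ⊔ centralizerIn S T)) : Ω) =
        ((α x : T) : Ω)) ∧
      ∀ c : ↥(T ⊔ centralizerIn S T), (c : Ω) ∈ centralizerIn S T →
        (c : Ω)⁻¹ * ((β c : ↥(T ⊔ centralizerIn S T)) : Ω) ∈
          T ⊓ Subgroup.centralizer (T : Set Ω) := by
  intro α hα
  have hTS : T ≤ S := hsc.1
  have hT₁S : T ⊔ centralizerIn S T ≤ S := sup_le hTS inf_le_left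
  haveI : Finite T := Cfsg.Agent.Lib.helper26.finite_of_le hTS
  have hTp : IsPGroup p T := hS.to_le hTS
  have hfa := Cfsg.Agent.Lib.helper26.fullyAutomized_of_fullyNormalized hTp E hEs
    (Cfsg.Agent.Lib.helper26.fullyNormalized_top E)
  obtain ⟨ρ, hρ, g, rfl⟩ := exists_residual_mul_conj E hfa α hα
  obtain ⟨βρ, hβρ, hβx⟩ := exists_ext_res hS F hF hsc E hEF ρ hρ
  have hgT : (g : Ω) ∈ T := g.2.1
  have hg₁ : (g : Ω) ∈ T ⊔ centralizerIn S T := Subgroup.mem_sup_left hgT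
  have hcg : MulAut.conj (⟨(g : Ω), hg₁⟩ : ↥(T ⊔ centralizerIn S T)) ∈
      F.autGroup (T ⊔ centralizerIn S T) :=
    (Cfsg.Agent.Lib.helper26.mem_autGroup_iff F hT₁S _).2
      (hom_congr F (F.conj_mem hT₁S (hTS hgT)) (fun y => rfl))
  refine ⟨(βρ : MulAut ↥(T ⊔ centralizerIn S T)) * MulAut.conj ⟨(g : Ω), hg₁⟩,
    Subgroup.mul_mem _ βρ.2 hcg, fun x => ?_, fun c hc => ?_⟩
  · have h1 : MulAut.conj (⟨(g : Ω), hg₁⟩ : ↥(T ⊔ centralizerIn S T))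
        (Subgroup.inclusion le_sup_left x) =
        Subgroup.inclusion le_sup_left (Cfsg.Agent.Lib.helper26.conjAut T T g x) := by
      apply Subtype.ext
      rfl
    rw [MulAut.mul_apply, h1, hβx]
    rfl
  · have hcc : (c : Ω) ∈ Subgroup.centralizer (T : Set Ω) := hc.2
    rw [Subgroup.mem_centralizer_iff] at hcc
    have h1 : MulAut.conj (⟨(g : Ω), hg₁⟩ : ↥(T ⊔ centralizerIn S T)) c = c := by
      apply Subtype.ext
      show (g : Ω) * (c : Ω) * (g : Ω)⁻¹ = c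
      rw [hcc _ hgT, mul_inv_cancel_right]
    rw [MulAut.mul_apply, h1]
    have h2 := mem_hyperfocal F p hT₁S βρ hβρ c
    refine ⟨hT h2, ?_⟩
    show (c : Ω)⁻¹ * ((βρ : MulAut ↥(T ⊔ centralizerIn S T)) c : ↥(T ⊔ centralizerIn S T)) ∈
      Subgroup.centralizer (T : Set Ω)
    rw [Subgroup.mem_centralizer_iff]
    intro h hh
    -- `h = βρ (incl x')`
    have h3 := hβx ((ρ : MulAut T)⁻¹ ⟨h, hh⟩)
    rw [MulAut.apply_inv_self] at h3
    have h4 : (Subgroup.inclusion (le_sup_left : T ≤ T ⊔ centralizerIn S T)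
        ((ρ : MulAut T)⁻¹ ⟨h, hh⟩)) * c =
        c * (Subgroup.inclusion (le_sup_left : T ≤ T ⊔ centralizerIn S T)
          ((ρ : MulAut T)⁻¹ ⟨h, hh⟩)) := by
      apply Subtype.ext
      exact hcc _ ((ρ : MulAut T)⁻¹ ⟨h, hh⟩).2
    have h5 := congrArg (fun z => (((βρ : MulAut ↥(T ⊔ centralizerIn S T)) z :
      ↥(T ⊔ centralizerIn S T)) : Ω)) h4
    simp only [map_mul, Subgroup.coe_mul] at h5
    rw [h3] at h5
    have h6 : ((Subgroup.inclusion (le_sup_left : T ≤ T ⊔ centralizerIn S T) ⟨h, hh⟩ :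
        ↥(T ⊔ centralizerIn S T)) : Ω) = h := rfl
    rw [h6] at h5
    -- h5 : h * βρ c = βρ c * h
    calc h * ((c : Ω)⁻¹ * ((βρ : MulAut ↥(T ⊔ centralizerIn S T)) c : ↥(T ⊔ centralizerIn S T)))
        = (c : Ω)⁻¹ * (h * ((βρ : MulAut ↥(T ⊔ centralizerIn S T)) c :
            ↥(T ⊔ centralizerIn S T))) := by
          rw [← mul_assoc, ← mul_assoc]
          congr 1
          have := hcc h hh
          rw [eq_inv_mul_iff_mul_eq, ← mul_assoc, ← this, mul_inv_cancel_right]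
      _ = _ := by rw [h5, ← mul_assoc]

/-- a saturated subsystem of `p`-power index over a normal subgroup `T` of `S` is normal -/
theorem normal_of_ppow [Finite S] {p : ℕ} [Fact p.Prime] (hS : IsPGroup p S)
    (F : FusionSystem S) (hF : F.IsSaturated p) (hTS : T ≤ S)
    (hTn : (T.subgroupOf S).Normal) (hT : F.hyperfocalSubgroup p ≤ T)
    (E : FusionSystem T) (hEs : E.IsSaturated p) (hEi : E.HasPPowerIndexIn F p) :
    E.IsNormalIn F p := by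
  have hTconj : ∀ t ∈ S, ∀ x ∈ T, t * x * t⁻¹ ∈ T := by
    intro t ht x hx
    exact hTn.conj_mem ⟨x, hTS hx⟩ (Subgroup.mem_subgroupOf.mpr hx) ⟨t, ht⟩
  have hsc := stronglyClosed_of_hyp_le hS F hF hTS hTconj hT
  have hSI := strongInv_of hS F hF hTS hTconj hsc E hEs hEi.1 hEi.2.2
  exact ⟨⟨hEs, hF, (isInvariantIn_iff_strongInv hS F hF E hEi.1 hsc).2 hSI⟩,
    ext_cond hS F hF hsc hT E hEs hEi.1⟩

end Cfsg.Agent.Lib.helper7.PPowIdx
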