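import Mathlib
import Cfsg.Agent.Lib.helper7.PPowIdx
import Cfsg.Agent.Lib.helper25.HyperfocalGroup
import Cfsg.Agent.Lib.helper25.NormalSub

set_option autoImplicit false

/-! Uniqueness of subsystems of `p`-power index. -/

namespace Cfsg.Agent.Lib.helper7.PPowIdx

open Cfsg Cfsg.FusionSystem Cfsg.Agent.Lib.helper25 Cfsg.Agent.Lib.helper7.TateFus

universe u

variable {Ω : Type u} [Group Ω] {S : Subgroup Ω}

/-- a saturated subsystem `E₁` of `F` is contained in every system over a larger subgroup whose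
automorphism groups contain the `O^p(Aut_F(P))` -/
theorem ppow_le [Finite S] {p : ℕ} [Fact p.Prime] (hS : IsPGroup p S) (F : FusionSystem S)
    {T₁ T₂ : Subgroup Ω} (hT₁S : T₁ ≤ S) (hT₁₂ : T₁ ≤ T₂)
    (E₁ : FusionSystem T₁) (hE₁s : E₁.IsSaturated p) (hE₁F : E₁.IsSubsystemOf F)
    (E₂ : FusionSystem T₂)
    (hidx₂ : ∀ P : Subgroup Ω, P ≤ T₁ →
      (pResidual p (F.autGroup P)).map (F.autGroup P).subtype ≤ E₂.autGroup P) :
    ∀ (P : Subgroup Ω) (φ : P →* Ω), φ ∈ E₁.Hom P → φ ∈ E₂.Hom P := by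
  haveI : Finite T₁ := Cfsg.Agent.Lib.helper26.finite_of_le hT₁S
  have hTp : IsPGroup p T₁ := hS.to_le hT₁S
  apply Cfsg.Agent.Lib.helper26.alperin_induction hTp E₁ hE₁s (fun U φ => φ ∈ E₂.Hom U)
  · intro U V φ h _ hPr
    exact hom_restrict E₂ h hPr
  · intro U V φ ψ h _ _ h1 h2
    exact E₂.comp_mem h1 h2 h
  · intro W hW _ α hα
    have hfa := Cfsg.Agent.Lib.helper26.fullyAutomized_of_fullyNormalized hTp E₁ hE₁s hW
    obtain ⟨ρ, hρ, g, rfl⟩ := exists_residual_mul_conj E₁ hfa α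
      ((Cfsg.Agent.Lib.helper26.mem_autGroup_iff E₁ hW.1 α).2 hα)
    have hle : E₁.autGroup W ≤ F.autGroup W := Subgroup.closure_mono (fun β hβ => hE₁F W hβ)
    have hρF : Subgroup.inclusion hle ρ ∈ pResidual p (F.autGroup W) :=
      map_pResidual_le p (Subgroup.inclusion hle) ⟨ρ, hρ, rfl⟩
    have h2 : (ρ : MulAut W) ∈ E₂.autGroup W := hidx₂ W hW.1 ⟨_, hρF, rfl⟩
    have h3 := (Cfsg.Agent.Lib.helper26.mem_autGroup_iff E₂ (hW.1.trans hT₁₂) _).1 h2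
    have h4 : Cfsg.conjHom W (g : Ω) ∈ E₂.Hom W := E₂.conj_mem (hW.1.trans hT₁₂) (hT₁₂ g.2.1)
    exact Cfsg.Agent.Lib.helper26.comp_mem' E₂ h4 h3
      (fun x => (Cfsg.Agent.Lib.helper26.conjAut T₁ W g x).2) _ (fun x => rfl)

end Cfsg.Agent.Lib.helper7.PPowIdx
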