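import Mathlib
import Cfsg.Agent.Lib.helper7.CharBiset2
import Cfsg.Agent.Lib.helper7.ModelA

set_option autoImplicit false

/-! Realizing an arbitrary fusion system inside a finite group: a biset with stabilizers in graphs
of morphisms whose marks depend only on the order of the subgroup (obtained by scaling), and the
automorphism group of the underlying right set. -/

namespace Cfsg.Agent.Lib.helper7.Marks

section Scale

variable {T : Type*} [Group T] [Finite T] [Fintype (Subgroup T)]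

theorem conj_le_of_mk {L D : Subgroup T} (h : mk L D ≠ 0) :
    ∃ g : T, L.map (MulAut.conj g).toMonoidHom ≤ D := by
  obtain ⟨g, hg⟩ := exists_of_mk_ne_zero h
  refine ⟨g⁻¹, ?_⟩
  rintro _ ⟨a, ha, rfl⟩
  have h1 := hg a ha
  simpa using h1

theorem card_map_conj (L : Subgroup T) (g : T) :
    Nat.card (L.map (MulAut.conj g).toMonoidHom) = Nat.card L :=
  Subgroup.card_map_of_injective (MulAut.conj g).injective

theorem Phi_eq_zero_of_not_mem (𝓗 : Set (Subgroup T))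
    (h𝓗le : ∀ D D' : Subgroup T, D' ≤ D → D ∈ 𝓗 → D' ∈ 𝓗)
    (h𝓗conj : ∀ (D : Subgroup T) (g : T), D ∈ 𝓗 → D.map (MulAut.conj g).toMonoidHom ∈ 𝓗)
    (n : Subgroup T → ℕ) (hn : ∀ D, n D ≠ 0 → D ∈ 𝓗) (L : Subgroup T) (hL : L ∉ 𝓗) :
    Phi n L = 0 := by
  unfold Phi
  apply Finset.sum_eq_zero
  intro D _
  by_contra hne
  have h1 : n D ≠ 0 := fun h => hne (by rw [h, zero_mul])
  have h2 : mk L D ≠ 0 := fun h => hne (by rw [h, mul_zero])
  obtain ⟨g, hg⟩ := conj_le_of_mk h2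
  apply hL
  have h3 := h𝓗conj _ g⁻¹ (h𝓗le D _ hg (hn D h1))
  rw [map_conj_mul, inv_mul_cancel, map_conj_one] at h3
  exact h3

theorem scale_step (𝓗 : Set (Subgroup T))
    (h𝓗conj : ∀ (D : Subgroup T) (g : T), D ∈ 𝓗 → D.map (MulAut.conj g).toMonoidHom ∈ 𝓗)
    (k : ℕ) (n : Subgroup T → ℕ) (hn : ∀ D, n D ≠ 0 → D ∈ 𝓗)
    (hst : ∀ D D' : Subgroup T, D ∈ 𝓗 → D' ∈ 𝓗 → k + 1 ≤ Nat.card D →
      Nat.card D = Nat.card D' → Phi n D = Phi n D') :
    ∃ n' : Subgroup T → ℕ, (∀ D, n' D ≠ 0 → D ∈ 𝓗) ∧ (∀ D, n D ≠ 0 → n' D ≠ 0) ∧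
      ∀ D D' : Subgroup T, D ∈ 𝓗 → D' ∈ 𝓗 → k ≤ Nat.card D →
        Nat.card D = Nat.card D' → Phi n' D = Phi n' D' := by
  classical
  set M : ℕ := Nat.card T with hM
  have hMpos : 0 < M := Nat.card_pos
  set c : Subgroup T → ℕ := fun D =>
    if Nat.card D = k ∧ D ∈ 𝓗 ∧ rep D = D then (Phi n ⊥ - Phi n D) * (M / mk D D) else 0 with hc
  have hc0 : ∀ D, c D ≠ 0 → Nat.card D = k ∧ D ∈ 𝓗 ∧ rep D = D := by
    intro D h
    by_contra hcon
    apply h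
    show (if Nat.card D = k ∧ D ∈ 𝓗 ∧ rep D = D then _ else 0) = 0
    rw [if_neg hcon]
  set n' : Subgroup T → ℕ := fun D => M * n D + c D with hn'
  have hPhi : ∀ L : Subgroup T, Phi n' L = M * Phi n L + ∑ D, c D * mk L D := by
    intro L
    unfold Phi
    rw [Finset.mul_sum, ← Finset.sum_add_distrib]
    apply Finset.sum_congr rfl
    intro D _
    show (M * n D + c D) * mk L D = _
    ring
  have hbig : ∀ L : Subgroup T, k + 1 ≤ Nat.card L → ∑ D, c D * mk L D = 0 := by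
    intro L hL
    apply Finset.sum_eq_zero
    intro D _
    by_contra hne
    have h1 : c D ≠ 0 := fun h => hne (by rw [h, zero_mul])
    have h2 : mk L D ≠ 0 := fun h => hne (by rw [h, mul_zero])
    obtain ⟨g, hg⟩ := conj_le_of_mk h2
    have h3 := Subgroup.card_le_of_le hg
    rw [card_map_conj, (hc0 D h1).1] at h3
    omega
  have hdvd : ∀ D : Subgroup T, mk D D ∣ M := by
    intro D
    have h1 := mk_self D
    have h2 : Nat.card (Subgroup.normalizer (D : Set T)) ∣ M :=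
      Subgroup.card_subgroup_dvd_card _
    exact (Dvd.intro _ h1).trans h2
  have heq : ∀ L : Subgroup T, L ∈ 𝓗 → Nat.card L = k →
      ∑ D, c D * mk L D = (Phi n ⊥ - Phi n L) * M := by
    intro L hL𝓗 hLk
    obtain ⟨g, hg⟩ := rep_spec L
    have hrk : Nat.card (rep L) = k := by rw [hg, card_map_conj, hLk]
    have hr𝓗 : rep L ∈ 𝓗 := by rw [hg]; exact h𝓗conj L g hL𝓗
    have hrr : rep (rep L) = rep L := (rep_eq (rep_spec L)).symm
    rw [Finset.sum_eq_single (rep L)]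
    · have h1 : c (rep L) = (Phi n ⊥ - Phi n (rep L)) * (M / mk (rep L) (rep L)) := by
        show (if Nat.card (rep L) = k ∧ rep L ∈ 𝓗 ∧ rep (rep L) = rep L then _ else 0) = _
        rw [if_pos ⟨hrk, hr𝓗, hrr⟩]
      have h2 : mk L (rep L) = mk (rep L) (rep L) := by
        conv_rhs => rw [hg]
        rw [mk_conj, ← hg]
      have h3 : Phi n (rep L) = Phi n L := by rw [hg, Phi_conj]
      rw [h1, h2, h3, mul_assoc, Nat.div_mul_cancel (hdvd _)]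
    · intro D _ hD
      by_contra hne
      have h1 : c D ≠ 0 := fun h => hne (by rw [h, zero_mul])
      have h2 : mk L D ≠ 0 := fun h => hne (by rw [h, mul_zero])
      obtain ⟨g', hg'⟩ := conj_le_of_mk h2
      obtain ⟨hDk, -, hDr⟩ := hc0 D h1
      have h3 : L.map (MulAut.conj g').toMonoidHom = D := by
        apply Subgroup.eq_of_le_of_card_ge hg'
        rw [card_map_conj, hLk, hDk]
      have h4 : rep L = rep D := rep_eq ⟨g', h3.symm⟩
      exact hD (by rw [h4, hDr])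
    · intro h
      exact absurd (Finset.mem_univ _) h
  refine ⟨n', ?_, ?_, ?_⟩
  · intro D hD
    by_cases h1 : c D = 0
    · apply hn
      intro h2
      apply hD
      show M * n D + c D = 0
      rw [h1, h2, mul_zero]
    · exact (hc0 D h1).2.1
  · intro D hD h
    have h1 : M * n D + c D = 0 := h
    have h2 : M * n D = 0 := by omega
    rcases Nat.mul_eq_zero.mp h2 with h3 | h3
    · omega
    · exact hD h3
  · intro D D' hD hD' hk hcard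
    rw [hPhi, hPhi]
    rcases Nat.lt_or_ge k (Nat.card D) with hlt | hge
    · rw [hbig D hlt, hbig D' (by rw [← hcard]; exact hlt), hst D D' hD hD' hlt hcard]
    · have hDk : Nat.card D = k := le_antisymm hge hk
      rw [heq D hD hDk, heq D' hD' (by rw [← hcard]; exact hDk)]
      have e1 : M * Phi n D + (Phi n ⊥ - Phi n D) * M = M * Phi n ⊥ := by
        have := Phi_le_bot n D
        rw [mul_comm (Phi n ⊥ - Phi n D) M, ← Nat.mul_add]
        congr 1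
        omega
      have e2 : M * Phi n D' + (Phi n ⊥ - Phi n D') * M = M * Phi n ⊥ := by
        have := Phi_le_bot n D'
        rw [mul_comm (Phi n ⊥ - Phi n D') M, ← Nat.mul_add]
        congr 1
        omega
      rw [e1, e2]

/-- **Stabilization by scaling**: a multiplicity function supported on a family `𝓗` of subgroups
closed under conjugation can be enlarged so that the marks of the members of `𝓗` depend only on
their order. -/
theorem stabilize_scale (𝓗 : Set (Subgroup T))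
    (h𝓗conj : ∀ (D : Subgroup T) (g : T), D ∈ 𝓗 → D.map (MulAut.conj g).toMonoidHom ∈ 𝓗)
    (n₀ : Subgroup T → ℕ) (hn₀ : ∀ D, n₀ D ≠ 0 → D ∈ 𝓗) :
    ∃ n : Subgroup T → ℕ, (∀ D, n D ≠ 0 → D ∈ 𝓗) ∧ (∀ D, n₀ D ≠ 0 → n D ≠ 0) ∧
      ∀ D D' : Subgroup T, D ∈ 𝓗 → D' ∈ 𝓗 → Nat.card D = Nat.card D' → Phi n D = Phi n D' := by
  have key : ∀ j : ℕ, ∃ n : Subgroup T → ℕ, (∀ D, n D ≠ 0 → D ∈ 𝓗) ∧
      (∀ D, n₀ D ≠ 0 → n D ≠ 0) ∧
      ∀ D D' : Subgroup T, D ∈ 𝓗 → D' ∈ 𝓗 → Nat.card T + 1 - j ≤ Nat.card D →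
        Nat.card D = Nat.card D' → Phi n D = Phi n D' := by
    intro j
    induction j with
    | zero =>
      refine ⟨n₀, hn₀, fun _ h => h, fun D D' _ _ h _ => ?_⟩
      have := Subgroup.card_le_card_group D
      omega
    | succ j ih =>
      obtain ⟨n, hn0, hn1, hn⟩ := ih
      by_cases hj : Nat.card T + 1 - j = 0
      · exact ⟨n, hn0, hn1, fun D D' hD hD' _ hc => hn D D' hD hD' (by omega) hc⟩
      · obtain ⟨k, hk⟩ : ∃ k, Nat.card T + 1 - j = k + 1 := ⟨Nat.card T + 1 - j - 1, by omega⟩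
        rw [hk] at hn
        obtain ⟨n', hn0', hn1', hn'⟩ := scale_step 𝓗 h𝓗conj k n hn0 hn
        exact ⟨n', hn0', fun D hD => hn1' D (hn1 D hD),
          fun D D' hD hD' h hc => hn' D D' hD hD' (by omega) hc⟩
  obtain ⟨n, hn0, hn1, hn⟩ := key (Nat.card T + 1)
  exact ⟨n, hn0, hn1, fun D D' hD hD' hc => hn D D' hD hD' (by omega) hc⟩

end Scale

end Cfsg.Agent.Lib.helper7.Marks

namespace Cfsg.Agent.Lib.helper7.CharBiset

open Cfsg Cfsg.FusionSystem Cfsg.Agent.Lib.helper25 Cfsg.Agent.Lib.helper7.Marks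

universe u

variable {Ω : Type u} [Group Ω] {S : Subgroup Ω}

/-- for an arbitrary fusion system: a biset whose point stabilizers lie in graphs of morphisms,
containing a point fixed by the diagonal, and stable under all morphisms -/
theorem exists_real_biset [Finite S] (F : FusionSystem S) :
    ∃ n : Subgroup (↥S × ↥S) → ℕ,
      (∀ ω : XS n, ∃ (P : Subgroup Ω) (φ : P →* Ω), φ ∈ F.Hom P ∧
        ∀ t : ↥S × ↥S, t • ω = ω → ∃ h : (t.1 : Ω) ∈ P, φ ⟨(t.1 : Ω), h⟩ = (t.2 : Ω)) ∧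
      (∃ ω₀ : XS n, ∀ s : ↥S, ((s, s) : ↥S × ↥S) • ω₀ = ω₀) ∧
      (∀ (P : Subgroup Ω) (φ : P →* Ω), φ ∈ F.Hom P → ∃ β : XS n ≃ XS n,
        (∀ (x x' : ↥S) (hx : (x : Ω) ∈ P), φ ⟨(x : Ω), hx⟩ = (x' : Ω) →
          ∀ ω, β (((x, 1) : ↥S × ↥S) • ω) = ((x', 1) : ↥S × ↥S) • β ω) ∧
        ∀ (s : ↥S) (ω : XS n), β (((1, s) : ↥S × ↥S) • ω) = ((1, s) : ↥S × ↥S) • β ω) := by
  classical
  haveI : Fintype (Subgroup (↥S × ↥S)) := Fintype.ofFinite _
  have hone : FGd F (gr (1 : MulAut ↥S)) := FGd_gr F 1 (Subgroup.one_mem _)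
  have hconj : ∀ (D : Subgroup (↥S × ↥S)) (g : ↥S × ↥S), D ∈ {D | FGd F D} →
      D.map (MulAut.conj g).toMonoidHom ∈ {D | FGd F D} :=
    fun D g hD => FGd_CR F (CR_conj F D g) hD
  obtain ⟨n, hsupp, hne, hst⟩ := stabilize_scale {D | FGd F D} hconj
    (fun D => if D = gr (1 : MulAut ↥S) then 1 else 0)
    (fun D hD => by
      by_cases h : D = gr (1 : MulAut ↥S)
      · rw [h]; exact hone
      · exact absurd (if_neg h) hD)
  have hnst : ∀ D D' : Subgroup (↥S × ↥S), CR F D D' → Phi n D = Phi n D' := by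
    intro D D' hC
    by_cases hD : FGd F D
    · exact hst D D' hD (FGd_CR F hC hD) (CR_card F hC)
    · have hD' : ¬ FGd F D' := fun h => hD (FGd_CR F (CR_symm F hC) h)
      rw [Phi_eq_zero_of_not_mem {D | FGd F D} (fun D D' hle h => FGd_le F hle h) hconj n hsupp
          D hD,
        Phi_eq_zero_of_not_mem {D | FGd F D} (fun D D' hle h => FGd_le F hle h) hconj n hsupp
          D' hD']
  have hFGω : ∀ ω : XS n, FGd F ω.1 := fun ω => hsupp _ (XS_ne n ω)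
  refine ⟨n, ?_, ?_, ?_⟩
  · intro ω
    obtain ⟨g, hg⟩ := XS_stab' n ω
    have h1 : FGd F (MulAction.stabilizer (↥S × ↥S) ω) :=
      FGd_of_conj_le F _ ω.1 g (fun d hd => hg d (MulAction.mem_stabilizer_iff.mp hd)) (hFGω ω)
    obtain ⟨P, φ, hφ, hgr⟩ := FGd_graph_le F _ h1
    exact ⟨P, φ, hφ, fun t ht => hgr t (MulAction.mem_stabilizer_iff.mpr ht)⟩
  · have h1 : n (gr (1 : MulAut ↥S)) ≠ 0 := hne _ (by rw [if_pos rfl]; exact one_ne_zero)
    refine ⟨⟨gr (1 : MulAut ↥S), (⟨0, Nat.pos_of_ne_zero h1⟩,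
      ((1 : ↥S × ↥S) : (↥S × ↥S) ⧸ gr (1 : MulAut ↥S)))⟩, fun s => ?_⟩
    have h2 : ((s, s) : ↥S × ↥S) • ((1 : ↥S × ↥S) : (↥S × ↥S) ⧸ gr (1 : MulAut ↥S)) =
        ((1 : ↥S × ↥S) : (↥S × ↥S) ⧸ gr (1 : MulAut ↥S)) := by
      rw [MulAction.Quotient.smul_mk, QuotientGroup.eq, mem_gr]
      simp
    show (⟨gr (1 : MulAut ↥S), (_, ((s, s) : ↥S × ↥S) •
      ((1 : ↥S × ↥S) : (↥S × ↥S) ⧸ gr (1 : MulAut ↥S)))⟩ : XS n) = _
    rw [h2]
  · intro P φ hφ
    have hPS : P ≤ S := hom_le F hφ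
    let ψ₀ : ↥(P.subgroupOf S) →* ↥P :=
      (S.subtype.comp (Subgroup.subtype _)).codRestrict P
        (fun k => Subgroup.mem_subgroupOf.mp k.2)
    let ψ : ↥(P.subgroupOf S) →* ↥S :=
      (φ.comp ψ₀).codRestrict S (fun k => hom_mem F hφ _)
    let ι₁ : ↥(P.subgroupOf S) × ↥S →* ↥S × ↥S :=
      (Subgroup.subtype _).prodMap (MonoidHom.id ↥S)
    let ι₂ : ↥(P.subgroupOf S) × ↥S →* ↥S × ↥S := ψ.prodMap (MonoidHom.id ↥S)
    have hmarks : ∀ L : Subgroup (↥(P.subgroupOf S) × ↥S),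
        fixc L (Res ι₁ (XS n)) = fixc L (Res ι₂ (XS n)) := by
      intro L
      rw [fixc_Res, fixc_Res, fixc_XS, fixc_XS]
      apply hnst
      show (prodSystem F F).IsConj _ _
      have h₁ : ((L.map ι₁).map (jj S)).map (MonoidHom.fst Ω Ω) ≤ P := by
        rintro _ ⟨_, ⟨_, ⟨l, hl, rfl⟩, rfl⟩, rfl⟩
        exact Subgroup.mem_subgroupOf.mp l.1.2
      have h₂ : ((L.map ι₁).map (jj S)).map (MonoidHom.snd Ω Ω) ≤ S :=
        map_snd_le (map_jj_le _)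
      refine ⟨prodMap _ (φ.comp (Subgroup.inclusion h₁)) (Subgroup.subtype _),
        ⟨map_jj_le _, _, hom_restrict F h₁ hφ, _, subtype_mem F h₂, rfl⟩, ?_⟩
      ext y
      constructor
      · rintro ⟨⟨_, _, ⟨l, hl, rfl⟩, rfl⟩, rfl⟩
        exact ⟨ι₂ l, ⟨l, hl, rfl⟩, rfl⟩
      · rintro ⟨_, ⟨l, hl, rfl⟩, rfl⟩
        exact ⟨⟨jj S (ι₁ l), ⟨_, ⟨l, hl, rfl⟩, rfl⟩⟩, rfl⟩
    obtain ⟨β₀, hβ₀⟩ := marks_iso hmarks
    let β : XS n ≃ XS n := β₀
    have hβ : ∀ (k : ↥(P.subgroupOf S) × ↥S) (ω : XS n), β (ι₁ k • ω) = ι₂ k • β ω := hβ₀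
    refine ⟨β, fun x x' hx hxx' ω => ?_, fun s ω => ?_⟩
    · have h1 := hβ (⟨x, Subgroup.mem_subgroupOf.mpr hx⟩, 1) ω
      have hψx' : ψ ⟨x, Subgroup.mem_subgroupOf.mpr hx⟩ = x' := Subtype.ext hxx'
      have e2 : ι₂ (⟨x, Subgroup.mem_subgroupOf.mpr hx⟩, 1) = ((x', 1) : ↥S × ↥S) :=
        Prod.ext hψx' rfl
      have h2 : β (((x, 1) : ↥S × ↥S) • ω) =
          ι₂ (⟨x, Subgroup.mem_subgroupOf.mpr hx⟩, 1) • β ω := h1
      rw [h2, e2]
    · have h1 := hβ (1, s) ω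
      have e2 : ι₂ (1, s) = ((1, s) : ↥S × ↥S) := Prod.ext (map_one ψ) rfl
      have h2 : β (((1, s) : ↥S × ↥S) • ω) = ι₂ (1, s) • β ω := h1
      rw [h2, e2]

end Cfsg.Agent.Lib.helper7.CharBiset

namespace Cfsg.Agent.Lib.helper7.Model

open Cfsg Cfsg.FusionSystem Cfsg.Agent.Lib.helper25 Cfsg.Agent.Lib.helper7.Biset

universe u

variable {Ω : Type u} [Group Ω] {S : Subgroup Ω}

theorem real_mpr (F : FusionSystem S) {X : Type u} [MulAction (↥S × ↥S) X]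
    (hstab : ∀ ω : X, ∃ (P : Subgroup Ω) (φ : P →* Ω), φ ∈ F.Hom P ∧
        ∀ t : ↥S × ↥S, t • ω = ω → ∃ h : (t.1 : Ω) ∈ P, φ ⟨(t.1 : Ω), h⟩ = (t.2 : Ω))
    (ω₀ : X) (hω₀ : ∀ s : ↥S, ((s, s) : ↥S × ↥S) • ω₀ = ω₀)
    {a : Equiv.Perm X} (ha : a ∈ AA ↥S X) {P : Subgroup Ω} (hP : P ≤ S) (φ : P →* Ω)
    (h : ∀ x : P, ∃ x' : ↥S, φ x = (x' : Ω) ∧
      a * lam ↥S X ⟨(x : Ω), hP x.2⟩ * a⁻¹ = lam ↥S X x') :
    φ ∈ F.Hom P := by
  obtain ⟨P₁, ψ₁, hψ₁, h₁⟩ := hstab ω₀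
  obtain ⟨P₂, ψ₂, hψ₂, h₂⟩ := hstab (a ω₀)
  apply hom_of_cospan F φ hψ₁ hψ₂
  intro x
  obtain ⟨x', hx', hax⟩ := h x
  obtain ⟨h1, e1⟩ := h₁ _ (hω₀ ⟨(x : Ω), hP x.2⟩)
  have hst2 : ((x', (⟨(x : Ω), hP x.2⟩ : ↥S)) : ↥S × ↥S) • a ω₀ = a ω₀ := by
    rw [pair_smul, ← ha, ← hax, Equiv.Perm.mul_apply, Equiv.Perm.mul_apply, perm_inv_apply,
      ← pair_smul, hω₀]
  obtain ⟨h2, e2⟩ := h₂ _ hst2
  have h2' : φ x ∈ P₂ := by rw [hx']; exact h2
  refine ⟨h1, h2', ?_⟩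
  have e3 : (⟨φ x, h2'⟩ : ↥P₂) = ⟨(x' : Ω), h2⟩ := Subtype.ext hx'
  rw [e3]
  exact e2.trans e1.symm

/-- every fusion system over a finite group `S` is realized inside a finite group -/
theorem exists_realization [Finite S] (F : FusionSystem S) :
    ∃ (G : Type u) (_ : Group G) (_ : Finite G) (ι : ↥S →* G), F.IsRealizedBy ι := by
  obtain ⟨n, hstab, ⟨ω₀, hω₀⟩, hext⟩ := Cfsg.Agent.Lib.helper7.CharBiset.exists_real_biset F
  have lfree : ∀ (s : ↥S) (ω : Cfsg.Agent.Lib.helper7.Marks.XS n),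
      ((s, 1) : ↥S × ↥S) • ω = ω → s = 1 := by
    intro s ω h
    obtain ⟨P, φ, hφ, hst⟩ := hstab ω
    obtain ⟨hs, he⟩ := hst (s, 1) h
    have h1 : φ ⟨(s : Ω), hs⟩ = φ 1 := by
      rw [he, map_one]
      rfl
    have h2 := F.injective_of_mem hφ h1
    have h3 : (s : Ω) = 1 := congrArg Subtype.val h2
    exact Subtype.ext h3
  have hinj : Function.Injective (lam ↥S (Cfsg.Agent.Lib.helper7.Marks.XS n)) :=
    lam_inj_of lfree ⟨ω₀⟩
  refine ⟨↥(AA ↥S (Cfsg.Agent.Lib.helper7.Marks.XS n)), inferInstance, inferInstance,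
    (lam ↥S (Cfsg.Agent.Lib.helper7.Marks.XS n)).codRestrict
      (AA ↥S (Cfsg.Agent.Lib.helper7.Marks.XS n))
      (lam_mem_AA ↥S (Cfsg.Agent.Lib.helper7.Marks.XS n)), ?_, ?_⟩
  · intro a b hab
    exact hinj (congrArg Subtype.val hab)
  · intro P hP φ hφS
    constructor
    · intro hφ
      obtain ⟨β, hβ1, hβ2⟩ := hext P φ hφ
      refine ⟨⟨β, hβ2⟩, fun x => ?_⟩
      apply Subtype.ext
      show lam ↥S (Cfsg.Agent.Lib.helper7.Marks.XS n) ⟨φ x, hφS x⟩ =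
        β * lam ↥S (Cfsg.Agent.Lib.helper7.Marks.XS n) ⟨x, hP x.2⟩ * β⁻¹
      ext ω
      rw [Equiv.Perm.mul_apply, Equiv.Perm.mul_apply, lam_apply, lam_apply,
        hβ1 ⟨x, hP x.2⟩ ⟨φ x, hφS x⟩ x.2 rfl, perm_apply_inv]
    · rintro ⟨g, hg⟩
      apply real_mpr F hstab ω₀ hω₀ g.2 hP φ
      intro x
      exact ⟨⟨φ x, hφS x⟩, rfl, (congrArg Subtype.val (hg x)).symm⟩

end Cfsg.Agent.Lib.helper7.Model
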