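import Mathlib
import Cfsg.Prelude.Def_FusionReduction
import Cfsg.Agent.Lib.helper7.PPowUniq

set_option autoImplicit false

/-! Residual limits of fusion systems. -/

namespace Cfsg.Agent.Lib.helper7.PPowIdx

open Cfsg Cfsg.FusionSystem Cfsg.Agent.Lib.helper25 Cfsg.Agent.Lib.helper7.TateFus

universe u

variable {Ω : Type u} [Group Ω]

theorem fs_ext {S : Subgroup Ω} (F₁ F₂ : FusionSystem S) (h : ∀ P, F₁.Hom P = F₂.Hom P) :
    F₁ = F₂ := by
  cases F₁ with
  | mk H1 a1 b1 c1 d1 e1 =>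
    cases F₂ with
    | mk H2 a2 b2 c2 d2 e2 =>
      have hH : H1 = H2 := funext h
      subst hH
      rfl

theorem hyperfocal_mono' {S T : Subgroup Ω} (F : FusionSystem S) (E : FusionSystem T) (p : ℕ)
    (hTS : T ≤ S) (hEF : E.IsSubsystemOf F) :
    E.hyperfocalSubgroup p ≤ F.hyperfocalSubgroup p := by
  conv_lhs => unfold FusionSystem.hyperfocalSubgroup
  rw [Subgroup.closure_le]
  rintro y ⟨P, α, x, hP, hα, rfl⟩
  have hle : E.autGroup P ≤ F.autGroup P := Subgroup.closure_mono (fun β hβ => hEF P hβ)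
  have h1 : Subgroup.inclusion hle α ∈ pResidual p (F.autGroup P) :=
    map_pResidual_le p (Subgroup.inclusion hle) ⟨α, hα, rfl⟩
  exact mem_hyperfocal F p (hP.trans hTS) (Subgroup.inclusion hle α) h1 x

/-- if `O^p(Aut_F(P)) ≤ Aut_E(P)` then `O^p(Aut_F(P)) ≤ O^p(Aut_E(P))` -/
theorem pres_le {S T : Subgroup Ω} (F : FusionSystem S) (E : FusionSystem T) (p : ℕ)
    (P : Subgroup Ω)
    (h : (pResidual p (F.autGroup P)).map (F.autGroup P).subtype ≤ E.autGroup P) :
    (pResidual p (F.autGroup P)).map (F.autGroup P).subtype ≤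
      (pResidual p (E.autGroup P)).map (E.autGroup P).subtype := by
  have h0 : pResidual p (F.autGroup P) =
      Subgroup.closure {g : F.autGroup P | Nat.Coprime (orderOf g) p} := rfl
  rw [h0, MonoidHom.map_closure, Subgroup.closure_le]
  rintro _ ⟨g, hg, rfl⟩
  have hgE : (g : MulAut P) ∈ E.autGroup P := h ⟨g, Subgroup.subset_closure hg, rfl⟩
  refine ⟨⟨(g : MulAut P), hgE⟩, Subgroup.subset_closure ?_, rfl⟩
  show Nat.Coprime (orderOf (⟨(g : MulAut P), hgE⟩ : E.autGroup P)) p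
  have hg' : Nat.Coprime (orderOf g) p := hg
  rw [← Subgroup.orderOf_coe] at hg' ⊢
  exact hg'

theorem mem_of_pow_mem (K : Subgroup Ω) (c : Ω) (d m : ℕ) (hcop : Nat.Coprime d m)
    (h1 : c ^ d ∈ K) (h2 : c ^ m ∈ K) : c ∈ K := by
  obtain ⟨u, v, huv⟩ := Nat.isCoprime_iff_coprime.mpr hcop
  have h3 : c = (c ^ d) ^ u * (c ^ m) ^ v := by
    rw [← zpow_natCast c d, ← zpow_natCast c m, ← zpow_mul, ← zpow_mul, ← zpow_add,
      mul_comm (d : ℤ), mul_comm (m : ℤ), huv, zpow_one]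
  rw [h3]
  exact K.mul_mem (K.zpow_mem h1 u) (K.zpow_mem h2 v)

/-- a `p'`-element of `Aut_F(P)` moves elements of `P ⊓ T` within their coset of `hyp(E)` -/
theorem res_hyp {S T : Subgroup Ω} (F : FusionSystem S) (E : FusionSystem T) {p : ℕ}
    (hsc : F.StronglyClosed T)
    (hidx : ∀ P : Subgroup Ω, P ≤ T →
      (pResidual p (F.autGroup P)).map (F.autGroup P).subtype ≤ E.autGroup P)
    (P : Subgroup Ω) (hP : P ≤ S) (τ : F.autGroup P) (hτ : Nat.Coprime (orderOf τ) p)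
    (y : P) (hy : (y : Ω) ∈ T) :
    (y : Ω)⁻¹ * ((τ : MulAut P) y : P) ∈ E.hyperfocalSubgroup p := by
  let f : F.autGroup P →* F.autGroup (P ⊓ T) :=
    (resAut F hsc P hP).codRestrict _ (fun α => resAut_mem F hsc P hP α)
  have hord : Nat.Coprime (orderOf (f τ)) p :=
    Nat.Coprime.coprime_dvd_left (orderOf_map_dvd f τ) hτ
  have h1 : f τ ∈ pResidual p (F.autGroup (P ⊓ T)) := Subgroup.subset_closure hord
  have h2 : ((f τ : F.autGroup (P ⊓ T)) : MulAut ↥(P ⊓ T)) ∈ E.autGroup (P ⊓ T) :=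
    hidx _ inf_le_right ⟨f τ, h1, rfl⟩
  have h3 : (⟨_, h2⟩ : E.autGroup (P ⊓ T)) ∈ pResidual p (E.autGroup (P ⊓ T)) := by
    apply Subgroup.subset_closure
    show Nat.Coprime (orderOf (⟨_, h2⟩ : E.autGroup (P ⊓ T))) p
    rw [← Subgroup.orderOf_coe] at hord ⊢
    exact hord
  exact mem_hyperfocal E p inf_le_right ⟨_, h2⟩ h3 ⟨y, ⟨y.2, hy⟩⟩

theorem hyp_le_hyp {S T : Subgroup Ω} [Finite S] {p : ℕ} [Fact p.Prime] (hS : IsPGroup p S)
    (F : FusionSystem S) (E : FusionSystem T)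
    (hsc : F.StronglyClosed T) (hT : F.hyperfocalSubgroup p ≤ T)
    (hidx : ∀ P : Subgroup Ω, P ≤ T →
      (pResidual p (F.autGroup P)).map (F.autGroup P).subtype ≤ E.autGroup P) :
    F.hyperfocalSubgroup p ≤ E.hyperfocalSubgroup p := by
  have hTS : T ≤ S := hsc.1
  have key : ∀ (P : Subgroup Ω) (hP : P ≤ S) (α : F.autGroup P),
      α ∈ pResidual p (F.autGroup P) → ∀ x : P,
      (x : Ω)⁻¹ * ((α : MulAut P) x : P) ∈ E.hyperfocalSubgroup p := by
    intro P hP α hα
    induction hα using Subgroup.closure_induction with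
    | mem g hg =>
      intro x
      have hg' : Nat.Coprime (orderOf g) p := hg
      obtain ⟨c, hc⟩ : ∃ c : P, c = x⁻¹ * (g : MulAut P) x := ⟨_, rfl⟩
      have hcT : (c : Ω) ∈ T := by
        rw [hc]
        exact hT (mem_hyperfocal F p hP g (Subgroup.subset_closure hg) x)
      have hstep : ∀ j : ℕ, ((c : Ω) ^ j)⁻¹ * ((x : Ω)⁻¹ * ((((g : MulAut P) ^ j) x : P) : Ω)) ∈
          E.hyperfocalSubgroup p := by
        intro j
        induction j with
        | zero =>
          have e : ((c : Ω) ^ 0)⁻¹ * ((x : Ω)⁻¹ * ((((g : MulAut P) ^ 0) x : P) : Ω)) = 1 := by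
            rw [pow_zero, pow_zero]
            show (1 : Ω)⁻¹ * ((x : Ω)⁻¹ * (x : Ω)) = 1
            group
          rw [e]
          exact Subgroup.one_mem _
        | succ j ih =>
          have e1 : ((g : MulAut P) ^ (j + 1)) x =
              ((g : MulAut P) ^ j) x * ((g : MulAut P) ^ j) c := by
            rw [← map_mul, hc, mul_inv_cancel_left, pow_succ]
            rfl
          have hR := res_hyp F E hsc hidx P hP (g ^ j)
            (Nat.Coprime.coprime_dvd_left (orderOf_pow_dvd j) hg') c hcT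
          have hconj := hyperfocal_conj_mem E p (T.inv_mem hcT) ih
          have e2 : ((c : Ω) ^ (j + 1))⁻¹ *
              ((x : Ω)⁻¹ * ((((g : MulAut P) ^ (j + 1)) x : P) : Ω)) =
              ((c : Ω)⁻¹ * (((c : Ω) ^ j)⁻¹ * ((x : Ω)⁻¹ * ((((g : MulAut P) ^ j) x : P) : Ω))) *
                (c : Ω)⁻¹⁻¹) * ((c : Ω)⁻¹ * ((((g : MulAut P) ^ j) c : P) : Ω)) := by
            rw [e1, Subgroup.coe_mul, pow_succ]
            group
          rw [e2]
          exact Subgroup.mul_mem _ hconj hR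
      have hgk : (g : MulAut P) ^ orderOf g = 1 := by
        rw [← Subgroup.coe_pow, pow_orderOf_eq_one]
        rfl
      have h1 := hstep (orderOf g)
      rw [hgk] at h1
      have h2 : ((c : Ω) ^ orderOf g)⁻¹ * ((x : Ω)⁻¹ * (((1 : MulAut P) x : P) : Ω)) =
          ((c : Ω) ^ orderOf g)⁻¹ := by
        show ((c : Ω) ^ orderOf g)⁻¹ * ((x : Ω)⁻¹ * (x : Ω)) = _
        group
      rw [h2] at h1
      have h3 : (c : Ω) ^ orderOf g ∈ E.hyperfocalSubgroup p := by
        have := Subgroup.inv_mem _ h1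
        rwa [inv_inv] at this
      obtain ⟨n, hn⟩ := hS ⟨(c : Ω), hTS hcT⟩
      have h4 : (c : Ω) ^ p ^ n = 1 := congrArg Subtype.val hn
      have h5 : (c : Ω) ∈ E.hyperfocalSubgroup p :=
        mem_of_pow_mem _ _ _ _ (Nat.Coprime.pow_right n hg') h3 (h4 ▸ Subgroup.one_mem _)
      have h6 : (x : Ω)⁻¹ * (((g : MulAut P) x : P) : Ω) = (c : Ω) := by
        rw [hc]
        rfl
      rw [h6]
      exact h5
    | one =>
      intro x
      have e : (x : Ω)⁻¹ * ((((1 : F.autGroup P) : MulAut P) x : P) : Ω) = 1 := by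
        show (x : Ω)⁻¹ * (x : Ω) = 1
        exact inv_mul_cancel _
      rw [e]
      exact Subgroup.one_mem _
    | mul a b _ _ iha ihb =>
      intro x
      have e : (x : Ω)⁻¹ * ((((a * b : F.autGroup P) : MulAut P) x : P) : Ω) =
          ((x : Ω)⁻¹ * (((b : MulAut P) x : P) : Ω)) *
            ((((b : MulAut P) x : P) : Ω)⁻¹ * (((a : MulAut P) ((b : MulAut P) x) : P) : Ω)) := by
        rw [mul_assoc, mul_inv_cancel_left]
        rfl
      rw [e]
      exact Subgroup.mul_mem _ (ihb x) (iha _)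
    | inv a _ iha =>
      intro x
      have h1 := iha ((a : MulAut P)⁻¹ x)
      have e : (x : Ω)⁻¹ * ((((a⁻¹ : F.autGroup P) : MulAut P) x : P) : Ω) =
          ((((a : MulAut P)⁻¹ x : P) : Ω)⁻¹ *
            (((a : MulAut P) ((a : MulAut P)⁻¹ x) : P) : Ω))⁻¹ := by
        rw [MulAut.apply_inv_self, mul_inv_rev, inv_inv]
        rfl
      rw [e]
      exact Subgroup.inv_mem _ h1
  conv_lhs => unfold FusionSystem.hyperfocalSubgroup
  rw [Subgroup.closure_le]
  rintro y ⟨P, α, x, hP, hα, rfl⟩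
  exact key P hP α hα x

theorem stable_step {S : Subgroup Ω} (p : ℕ)
    (E : FusionSystem S) (hst : E.IsPPrimeResidual p E)
    (H : Subgroup Ω) (hH : H = S) (D D' : FusionSystem H) (hDE : ∀ P, D.Hom P = E.Hom P)
    (hD' : D.IsPPrimeResidual p D') :
    D'.IsPPrimeResidual p D' ∧ ∀ P, D'.Hom P = E.Hom P := by
  subst hH
  have h1 : D = E := fs_ext D E hDE
  subst h1
  have h2 : D' = D := fs_ext D' D
    (fun P => Set.Subset.antisymm (hD'.2.1.1 P) (hst.2.2 D' hD'.1 hD'.2.1 P))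
  subst h2
  exact ⟨hst, fun P => rfl⟩

theorem limit_of_stable {p : ℕ} {U : Subgroup Ω} (L : FusionSystem U)
    {S₂ : Subgroup Ω} (F₂ : FusionSystem S₂) (h : L.IsResidualLimitOf F₂ p) :
    Fact p.Prime → Finite S₂ → IsPGroup p S₂ → F₂.hyperfocalSubgroup p = S₂ →
      F₂.IsPPrimeResidual p F₂ → ∀ P, L.Hom P = F₂.Hom P := by
  induction h with
  | stable F p h1 h2 =>
    intro _ _ _ _ _ P
    rfl
  | step F p D D' hD hD' h₃ ih =>
    intro hpf hfin hS₂ hst1 hst2 P
    haveI := hfin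
    haveI := hpf
    have hDF : ∀ P, D.Hom P = F.Hom P := by
      intro P
      apply Set.Subset.antisymm (hD.2.1 P)
      intro φ hφ
      exact ppow_le hS₂ F le_rfl hst1.ge F hst2.1 (fun _ => subset_rfl) D
        (fun Q hQ => hD.2.2.2 Q (hQ.trans hst1.ge)) P φ hφ
    obtain ⟨h5, h6⟩ := stable_step p F hst2 _ hst1 D D' hDF hD'
    have hfin' : Finite ↥(F.hyperfocalSubgroup p) :=
      Cfsg.Agent.Lib.helper26.finite_of_le (hyperfocal_le F p)
    have hp' : IsPGroup p ↥(F.hyperfocalSubgroup p) := hS₂.to_le (hyperfocal_le F p)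
    have h7 : D'.hyperfocalSubgroup p = F.hyperfocalSubgroup p :=
      le_antisymm (hyperfocal_mono' F D' p (hyperfocal_le F p) (fun P => (h6 P).le))
        (hyperfocal_mono' D' F p hst1.ge (fun P => (h6 P).ge))
    rw [ih hpf hfin' hp' h7 h5 P, h6 P]

theorem limit_unique {p : ℕ} {U₁ : Subgroup Ω} (L₁ : FusionSystem U₁)
    {S₁ : Subgroup Ω} (F₁ : FusionSystem S₁) (h₁ : L₁.IsResidualLimitOf F₁ p) :
    Fact p.Prime → Finite S₁ → IsPGroup p S₁ → ∀ {U₂ : Subgroup Ω} (L₂ : FusionSystem U₂),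
      L₂.IsResidualLimitOf F₁ p → ∀ P, L₁.Hom P = L₂.Hom P := by
  induction h₁ with
  | stable F p h1 h2 =>
    intro hpf hfin hS U₂ L₂ h₂ P
    exact (limit_of_stable L₂ F h₂ hpf hfin hS h1 h2 P).symm
  | step F p D D' hD hD' h₃ ih =>
    intro hpf hfin hS U₂ L₂ h₂ P
    haveI := hfin
    haveI := hpf
    cases h₂ with
    | stable _ _ h1 h2 =>
      exact limit_of_stable _ F (IsResidualLimitOf.step F p D D' hD hD' h₃) hpf hfin hS h1 h2 P
    | step _ _ D₂ D₂' hD₂ hD₂' h₃' =>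
      have hDD : D = D₂ := fs_ext _ _ (fun P => Set.Subset.antisymm
        (fun φ hφ => ppow_le hS F (hyperfocal_le F p) le_rfl D hD.1 hD.2.1 D₂
          (fun Q hQ => hD₂.2.2.2 Q hQ) P φ hφ)
        (fun φ hφ => ppow_le hS F (hyperfocal_le F p) le_rfl D₂ hD₂.1 hD₂.2.1 D
          (fun Q hQ => hD.2.2.2 Q hQ) P φ hφ))
      subst hDD
      have hD'D' : D' = D₂' := fs_ext _ _ (fun P => Set.Subset.antisymm
        (hD'.2.2 D₂' hD₂'.1 hD₂'.2.1 P) (hD₂'.2.2 D' hD'.1 hD'.2.1 P))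
      subst hD'D'
      exact ih hpf (Cfsg.Agent.Lib.helper26.finite_of_le (hyperfocal_le F p))
        (hS.to_le (hyperfocal_le F p)) L₂ h₃' P

theorem same_step {p : ℕ} [Fact p.Prime] {H₁ : Subgroup Ω} [Finite H₁] (hH₁ : IsPGroup p H₁)
    (H₂ : Subgroup Ω) (hH : H₁ = H₂) (D₁ D₁' : FusionSystem H₁) (D₂ D₂' : FusionSystem H₂)
    (hDD : ∀ P, D₁.Hom P = D₂.Hom P) (h1 : D₁.IsPPrimeResidual p D₁')
    (h2 : D₂.IsPPrimeResidual p D₂') {U V : Subgroup Ω} (L₁ : FusionSystem U)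
    (L₂ : FusionSystem V) (hL₁ : L₁.IsResidualLimitOf D₁' p)
    (hL₂ : L₂.IsResidualLimitOf D₂' p) : ∀ P, L₁.Hom P = L₂.Hom P := by
  subst hH
  have e1 : D₁ = D₂ := fs_ext _ _ hDD
  subst e1
  have e2 : D₁' = D₂' := fs_ext _ _ (fun P => Set.Subset.antisymm
    (h1.2.2 D₂' h2.1 h2.2.1 P) (h2.2.2 D₁' h1.1 h1.2.1 P))
  subst e2
  exact limit_unique L₁ D₁' hL₁ inferInstance inferInstance hH₁ L₂ hL₂

theorem res_limit_eq {S : Subgroup Ω} [Finite S] {p : ℕ} [Fact p.Prime] (hS : IsPGroup p S)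
    (F : FusionSystem S) (hF : F.IsSaturated p) {T : Subgroup Ω} (E : FusionSystem T)
    (hE : E.IsNormalIn F p) (hidx : E.HasPPowerIndexIn F p) {U V : Subgroup Ω}
    (Finf : FusionSystem U) (hFinf : Finf.IsResidualLimitOf F p) (Einf : FusionSystem V)
    (hEinf : Einf.IsResidualLimitOf E p) : ∀ P : Subgroup Ω, Finf.Hom P = Einf.Hom P := by
  have hEs : E.IsSaturated p := hE.1.1
  have hsc : F.StronglyClosed T := hE.1.2.2.2.1
  have hTS : T ≤ S := hsc.1
  have hEF := hidx.1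
  have hypT := hidx.2.1
  have hidx2 := hidx.2.2
  haveI : Finite T := Cfsg.Agent.Lib.helper26.finite_of_le hTS
  have hTp : IsPGroup p T := hS.to_le hTS
  intro P
  cases hFinf with
  | stable _ _ h1 h2 =>
    have hTeq : T = S := le_antisymm hTS (h1 ▸ hypT)
    subst hTeq
    have hEFeq : E = F := fs_ext _ _ (fun Q => Set.Subset.antisymm (hEF Q)
      (fun φ hφ => ppow_le hS F le_rfl le_rfl F hF (fun _ => subset_rfl) E
        (fun R hR => hidx2 R hR) Q φ hφ))
    subst hEFeq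
    exact (limit_of_stable Einf E hEinf inferInstance inferInstance hS h1 h2 P).symm
  | step _ _ DF DF' hDF hDF' hFinf' =>
    have hfinH : Finite ↥(F.hyperfocalSubgroup p) :=
      Cfsg.Agent.Lib.helper26.finite_of_le (hyperfocal_le F p)
    have hpH : IsPGroup p ↥(F.hyperfocalSubgroup p) := hS.to_le (hyperfocal_le F p)
    have hhyp : E.hyperfocalSubgroup p = F.hyperfocalSubgroup p :=
      le_antisymm (hyperfocal_mono' F E p hTS hEF) (hyp_le_hyp hS F E hsc hypT hidx2)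
    cases hEinf with
    | stable _ _ e1 e2 =>
      have hHT : F.hyperfocalSubgroup p = T := by rw [← hhyp, e1]
      have hDE : ∀ Q, DF.Hom Q = E.Hom Q := by
        intro Q
        apply Set.Subset.antisymm
        · intro φ hφ
          exact ppow_le hS F (hyperfocal_le F p) hypT DF hDF.1 hDF.2.1 E
            (fun R hR => hidx2 R (hR.trans hypT)) Q φ hφ
        · intro φ hφ
          exact ppow_le hS F hTS hHT.ge E hEs hEF DF
            (fun R hR => hDF.2.2.2 R (hR.trans hHT.ge)) Q φ hφ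
      obtain ⟨h5, h6⟩ := stable_step p E e2 _ hHT DF DF' hDE hDF'
      have h7 : DF'.hyperfocalSubgroup p = F.hyperfocalSubgroup p := by
        apply le_antisymm (hyperfocal_le DF' p)
        exact hhyp.ge.trans (hyperfocal_mono' DF' E p hHT.ge (fun Q => (h6 Q).ge))
      rw [limit_of_stable Finf DF' hFinf' inferInstance hfinH hpH h7 h5 P, h6 P]
    | step _ _ DE DE' hDE hDE' hEinf' =>
      have hDD : ∀ Q, DF.Hom Q = DE.Hom Q := by
        intro Q
        apply Set.Subset.antisymm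
        · intro φ hφ
          exact ppow_le hS F (hyperfocal_le F p) hhyp.ge DF hDF.1 hDF.2.1 DE
            (fun R hR => (pres_le F E p R (hidx2 R (hR.trans hypT))).trans
              (hDE.2.2.2 R (hR.trans hhyp.ge))) Q φ hφ
        · intro φ hφ
          exact ppow_le hS F ((hyperfocal_le E p).trans hTS) hhyp.le DE hDE.1
            (fun R => (hDE.2.1 R).trans (hEF R)) DF
            (fun R hR => hDF.2.2.2 R (hR.trans hhyp.le)) Q φ hφ
      exact same_step hpH _ hhyp.symm DF DF' DE DE' hDD hDF' hDE' Finf Einf hFinf' hEinf' P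

end Cfsg.Agent.Lib.helper7.PPowIdx
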