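import Cfsg.Agent.Lib.helper7.Yoshida

set_option autoImplicit false

/-! From a wreath-like iterated commutator in a `p`-group to a surjection onto `Z_p ≀ Z_p`
(a Sylow `p`-subgroup of the symmetric group of degree `p²`). -/

namespace Cfsg.Agent.Lib.helper7.Yoshida

open scoped commutatorElement

section Wreath

theorem card_step {H : Type*} [Group H] [Finite H] (p : ℕ) [Fact p.Prime] (hH : IsPGroup p H)
    (A B : Subgroup H) (hAB : A < B) : p * Nat.card A ≤ Nat.card B := by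
  have hp : p.Prime := Fact.out
  have h1 : Nat.card A ∣ Nat.card B := Subgroup.card_dvd_of_le hAB.le
  obtain ⟨a, ha⟩ := IsPGroup.iff_card.mp (hH.to_subgroup A)
  obtain ⟨b, hb⟩ := IsPGroup.iff_card.mp (hH.to_subgroup B)
  rw [ha, hb] at h1 ⊢
  have hab : a ≤ b := (Nat.pow_dvd_pow_iff_le_right hp.one_lt).mp h1
  rcases hab.lt_or_eq with h | h
  · calc p * p ^ a = p ^ (a + 1) := by ring
      _ ≤ p ^ b := Nat.pow_le_pow_right hp.pos h
  · exfalso
    apply hAB.ne
    apply Subgroup.eq_of_le_of_card_ge hAB.le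
    rw [ha, hb, h]

theorem chain_card {H : Type*} [Group H] [Finite H] {A : Type*} [CommGroup A] (p : ℕ)
    [Fact p.Prime] (hH : IsPGroup p H) (hA : ∀ a : A, a ^ p = 1) (ν : H →* A) (s : H →* H)
    (hper : ∀ q, ν (s^[p] q) = ν q) (x₀ : H)
    (hx₀ : ν ((fun q => q⁻¹ * s q)^[p - 1] x₀) ≠ 1) :
    ∃ L₀ : Subgroup H, (∀ q, (∀ i, ν (s^[i] q) = 1) → q ∈ L₀) ∧
      p ^ p * Nat.card L₀ ≤ Nat.card H := by
  classical
  have hp : p.Prime := Fact.out
  let Δ : (ℕ → A) →* (ℕ → A) :=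
    { toFun := fun f i => (f i)⁻¹ * f (i + 1)
      map_one' := by funext i; simp
      map_mul' := fun f g => by
        funext i
        simp only [Pi.mul_apply, mul_inv]
        exact mul_mul_mul_comm _ _ _ _ }
  let a : H →* (ℕ → A) :=
    { toFun := fun q i => ν (s^[i] q)
      map_one' := by funext i; simp [iterate_map_one]
      map_mul' := fun q q' => by funext i; simp [iterate_map_mul] }
  set D : H → H := fun q => q⁻¹ * s q with hD
  have hΔa : ∀ q, Δ (a q) = a (D q) := by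
    intro q
    funext i
    show (ν (s^[i] q))⁻¹ * ν (s^[i + 1] q) = ν (s^[i] (q⁻¹ * s q))
    rw [iterate_map_mul, iterate_map_inv, map_mul, map_inv, ← Function.iterate_succ_apply]
  have hΔa' : ∀ (j : ℕ) (q : H), Δ^[j] (a q) = a (D^[j] q) := by
    intro j
    induction j with
    | zero => intro q; rfl
    | succ j ih =>
      intro q
      rw [Function.iterate_succ_apply, hΔa, ih, Function.iterate_succ_apply]
  have hsD : Function.Commute s D := by
    intro q
    show s (q⁻¹ * s q) = (s q)⁻¹ * s (s q)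
    rw [map_mul, map_inv]
  have hDp : ∀ q, a (D^[p] q) = 1 := by
    intro q
    funext i
    show ν (s^[i] (D^[p] q)) = 1
    rw [(hsD.iterate_iterate i p) q]
    have e : D^[p] (s^[i] q) = D^[p - 1] (D (s^[i] q)) := by
      rw [← Function.iterate_succ_apply, Nat.succ_eq_add_one, Nat.sub_add_cancel hp.one_le]
    rw [e, norm_id p hA ν s (D (s^[i] q))]
    have h1 : ∀ k, ν (s^[k] (D (s^[i] q))) =
        ν (s^[k + 1] (s^[i] q)) / ν (s^[k] (s^[i] q)) := by
      intro k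
      rw [(hsD.iterate_left k) _]
      show ν ((s^[k] (s^[i] q))⁻¹ * s (s^[k] (s^[i] q))) = _
      rw [map_mul, map_inv, ← Function.iterate_succ_apply' s k, div_eq_inv_mul]
    rw [Finset.prod_congr rfl (fun k _ => h1 k),
      Finset.prod_range_div (fun k => ν (s^[k] (s^[i] q))), hper]
    simp
  let L : ℕ → Subgroup H := fun j =>
    { carrier := {q | Δ^[j] (a q) = 1}
      mul_mem' := fun {q q'} hq hq' => by
        show Δ^[j] (a (q * q')) = 1
        rw [map_mul, iterate_map_mul, show Δ^[j] (a q) = 1 from hq,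
          show Δ^[j] (a q') = 1 from hq', mul_one]
      one_mem' := by
        show Δ^[j] (a 1) = 1
        rw [map_one, iterate_map_one]
      inv_mem' := fun {q} hq => by
        show Δ^[j] (a q⁻¹) = 1
        rw [map_inv, iterate_map_inv, show Δ^[j] (a q) = 1 from hq, inv_one] }
  have hLmem : ∀ j q, q ∈ L j ↔ a (D^[j] q) = 1 := fun j q => by
    rw [← hΔa']; rfl
  have hLmono : ∀ j, L j ≤ L (j + 1) := by
    intro j q hq
    show Δ^[j + 1] (a q) = 1
    rw [Function.iterate_succ_apply', show Δ^[j] (a q) = 1 from hq, map_one]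
  have hLstrict : ∀ j, j < p → L j < L (j + 1) := by
    intro j hj
    refine lt_of_le_of_ne (hLmono j) (fun heq => ?_)
    have h1 : D^[p - 1 - j] x₀ ∈ L (j + 1) := by
      rw [hLmem, ← Function.iterate_add_apply, show j + 1 + (p - 1 - j) = p by omega]
      exact hDp x₀
    rw [← heq, hLmem, ← Function.iterate_add_apply, show j + (p - 1 - j) = p - 1 by omega] at h1
    apply hx₀
    exact congrFun h1 0
  have hchain : ∀ n, n ≤ p → p ^ n * Nat.card (L 0) ≤ Nat.card (L n) := by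
    intro n
    induction n with
    | zero => intro _; simp
    | succ n ih =>
      intro hn
      have h1 := ih (by omega)
      have h2 : p * Nat.card (L n) ≤ Nat.card (L (n + 1)) :=
        card_step p hH _ _ (hLstrict n (by omega))
      calc p ^ (n + 1) * Nat.card (L 0) = p * (p ^ n * Nat.card (L 0)) := by ring
        _ ≤ p * Nat.card (L n) := Nat.mul_le_mul_left _ h1
        _ ≤ _ := h2
  refine ⟨L 0, ?_, ?_⟩
  · intro q hq
    show Δ^[0] (a q) = 1
    funext i; exact hq i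
  · exact (hchain p le_rfl).trans (Subgroup.card_le_card_group _)

theorem wreath_core {H : Type*} [Group H] [Finite H] {p : ℕ} [Fact p.Prime] (hH : IsPGroup p H)
    (S₀ : Subgroup H) (hS₀ : IsCoatom S₀) (x z : H) (hz : z ∉ S₀) (hx : x ∈ S₀)
    (hc : (fun y : H => y⁻¹ * z⁻¹ * y * z)^[p - 1] x ∈ S₀)
    (hcΦ : (fun y : H => y⁻¹ * z⁻¹ * y * z)^[p - 1] x ∉ (frattini ↥S₀).map S₀.subtype) :
    ∃ (P : Sylow p (Equiv.Perm (Fin (p ^ 2))))
      (f : H →* ↥(P : Subgroup (Equiv.Perm (Fin (p ^ 2))))), Function.Surjective f := by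
  classical
  have hp : p.Prime := Fact.out
  obtain ⟨hS₀n, hS₀idx⟩ := Cfsg.Agent.Lib.helper1.coatom_normal_index p hH S₀ hS₀
  obtain ⟨-, hS₀pow⟩ := Cfsg.Agent.Lib.helper1.coatom_commutator_le_and_pow_mem p hH S₀ hS₀
  have hS₀p : IsPGroup p ↥S₀ := hH.to_subgroup S₀
  have hc' : (⟨_, hc⟩ : ↥S₀) ∉ frattini ↥S₀ := fun h => hcΦ ⟨_, h, rfl⟩
  obtain ⟨T, hT, hcT⟩ : ∃ T : Subgroup ↥S₀, IsCoatom T ∧ (⟨_, hc⟩ : ↥S₀) ∉ T := by
    by_contra hcon
    push Not at hcon
    apply hc'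
    simp only [frattini, Order.radical, Subgroup.mem_iInf]
    intro T hT
    exact hcon T hT
  obtain ⟨hTn, hTidx⟩ := Cfsg.Agent.Lib.helper1.coatom_normal_index p hS₀p T hT
  obtain ⟨hTcomm, hTpow⟩ :=
    Cfsg.Agent.Lib.helper1.coatom_commutator_le_and_pow_mem p hS₀p T hT
  let ν : ↥S₀ →* Abelianization ↥S₀ ⧸ T.map Abelianization.of :=
    (QuotientGroup.mk' (T.map Abelianization.of)).comp Abelianization.of
  have hν : ∀ q : ↥S₀, ν q = 1 ↔ q ∈ T := by
    intro q
    show ((Abelianization.of q : Abelianization ↥S₀) :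
      Abelianization ↥S₀ ⧸ T.map Abelianization.of) = 1 ↔ _
    rw [QuotientGroup.eq_one_iff]
    constructor
    · rintro ⟨t, ht, hteq⟩
      have h1 : Abelianization.of (t⁻¹ * q) = 1 := by
        rw [map_mul, map_inv, hteq, inv_mul_cancel]
      have h2 : t⁻¹ * q ∈ commutator ↥S₀ := by rw [← Abelianization.ker_of]; exact h1
      have h3 := T.mul_mem ht (hTcomm h2)
      rwa [mul_inv_cancel_left] at h3
    · intro hq; exact ⟨q, hq, rfl⟩
  have hA : ∀ a : Abelianization ↥S₀ ⧸ T.map Abelianization.of, a ^ p = 1 := by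
    intro a
    obtain ⟨b, rfl⟩ := QuotientGroup.mk_surjective a
    obtain ⟨q, rfl⟩ := QuotientGroup.mk_surjective b
    have h1 := (hν (q ^ p)).mpr (hTpow q)
    rw [map_pow] at h1
    exact h1
  let s : ↥S₀ →* ↥S₀ :=
    { toFun := fun q => ⟨z⁻¹ * (q : H) * z, by
        have h1 := hS₀n.conj_mem (q : H) q.2 z⁻¹
        rwa [inv_inv] at h1⟩
      map_one' := by apply Subtype.ext; simp
      map_mul' := fun a b => by apply Subtype.ext; simp [mul_assoc] }
  have hs_iter : ∀ (i : ℕ) (q : ↥S₀),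
      ((s^[i] q : ↥S₀) : H) = (z ^ i)⁻¹ * (q : H) * z ^ i := by
    intro i
    induction i with
    | zero => intro q; simp
    | succ i ih =>
      intro q
      rw [Function.iterate_succ_apply']
      show z⁻¹ * ((s^[i] q : ↥S₀) : H) * z = _
      rw [ih, pow_succ]; group
  have hD_iter : ∀ (k : ℕ) (q : ↥S₀),
      (((fun q : ↥S₀ => q⁻¹ * s q)^[k] q : ↥S₀) : H) =
        (fun y : H => y⁻¹ * z⁻¹ * y * z)^[k] (q : H) := by
    intro k
    induction k with
    | zero => intro q; rfl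
    | succ k ih =>
      intro q
      rw [Function.iterate_succ_apply', Function.iterate_succ_apply', ← ih]
      show (((fun q : ↥S₀ => q⁻¹ * s q)^[k] q : ↥S₀) : H)⁻¹ *
        (z⁻¹ * (((fun q : ↥S₀ => q⁻¹ * s q)^[k] q : ↥S₀) : H) * z) = _
      simp only [mul_assoc]
  have hper : ∀ q, ν (s^[p] q) = ν q := by
    intro q
    have e : s^[p] q = (⟨z ^ p, hS₀pow z⟩ : ↥S₀)⁻¹ * q * ⟨z ^ p, hS₀pow z⟩ := by
      apply Subtype.ext
      rw [hs_iter]; rfl
    rw [e, map_mul, map_mul, map_inv, mul_comm, mul_inv_cancel_left]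
  have hx₀ : ν ((fun q : ↥S₀ => q⁻¹ * s q)^[p - 1] ⟨x, hx⟩) ≠ 1 := by
    rw [Ne, hν]
    intro h
    apply hcT
    have e : (fun q : ↥S₀ => q⁻¹ * s q)^[p - 1] ⟨x, hx⟩ = ⟨_, hc⟩ :=
      Subtype.ext (hD_iter (p - 1) ⟨x, hx⟩)
    rw [← e]; exact h
  obtain ⟨L₀, hL₀, hL₀card⟩ := chain_card p hS₀p hA ν s hper ⟨x, hx⟩ hx₀
  set T' : Subgroup H := T.map S₀.subtype with hT'
  have hT'idx : T'.index = p ^ 2 := by
    rw [hT', Subgroup.index_map_subtype, hTidx, hS₀idx, sq]
  have hcardQ : Nat.card (H ⧸ T') = p ^ 2 := by rw [← Subgroup.index_eq_card]; exact hT'idx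
  let e : (H ⧸ T') ≃ Fin (p ^ 2) := (Finite.equivFin _).trans (finCongr hcardQ)
  let φ : H →* Equiv.Perm (H ⧸ T') := MulAction.toPermHom H (H ⧸ T')
  let f : H →* Equiv.Perm (Fin (p ^ 2)) := (e.permCongrHom).toMonoidHom.comp φ
  have hker : f.ker ≤ L₀.map S₀.subtype := by
    intro k hk
    have h1 : φ k = 1 := by
      have h2 : e.permCongrHom (φ k) = 1 := hk
      exact (MulEquiv.map_eq_one_iff _).mp h2
    have h3 : ∀ g : H, g⁻¹ * k * g ∈ T' := by
      intro g
      have h4 : (φ k) (g : H ⧸ T') = (g : H ⧸ T') := by rw [h1]; rfl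
      have h5 : ((k * g : H) : H ⧸ T') = (g : H ⧸ T') := h4
      rw [eq_comm, QuotientGroup.eq, ← mul_assoc] at h5
      exact h5
    have hkS₀ : k ∈ S₀ := by
      have h6 := h3 1
      rw [inv_one, one_mul, mul_one] at h6
      obtain ⟨t, -, rfl⟩ := h6
      exact t.2
    refine ⟨⟨k, hkS₀⟩, hL₀ _ (fun i => ?_), rfl⟩
    rw [hν]
    obtain ⟨t, ht, hteq⟩ := h3 (z ^ i)
    have h7 : t = s^[i] ⟨k, hkS₀⟩ := Subtype.ext (by rw [hs_iter]; exact hteq)
    rw [← h7]; exact ht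
  have hcardH : Nat.card H = p * Nat.card ↥S₀ := by
    rw [← Subgroup.card_mul_index S₀, hS₀idx, mul_comm]
  have hcardK : Nat.card f.ker ≤ Nat.card ↥L₀ := by
    calc Nat.card f.ker ≤ Nat.card (L₀.map S₀.subtype) := Subgroup.card_le_of_le hker
      _ = Nat.card L₀ := Subgroup.card_map_of_injective S₀.subtype_injective
  have hrange : p ^ (p + 1) ≤ Nat.card f.range := by
    have h1 := Subgroup.card_mul_index f.ker
    rw [Subgroup.index_ker] at h1
    have h2 : p ^ (p + 1) * Nat.card f.ker ≤ Nat.card f.ker * Nat.card f.range := by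
      rw [h1, hcardH]
      calc p ^ (p + 1) * Nat.card f.ker ≤ p ^ (p + 1) * Nat.card L₀ :=
            Nat.mul_le_mul_left _ hcardK
        _ = p * (p ^ p * Nat.card L₀) := by ring
        _ ≤ p * Nat.card ↥S₀ := Nat.mul_le_mul_left _ hL₀card
    have h3 : 0 < Nat.card f.ker := Nat.card_pos
    rw [mul_comm] at h2
    exact Nat.le_of_mul_le_mul_left h2 h3
  have hRp : IsPGroup p ↥f.range := hH.of_surjective f.rangeRestrict f.rangeRestrict_surjective
  obtain ⟨P, hRP⟩ := hRp.exists_le_sylow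
  have hPcard : Nat.card ↥(P : Subgroup (Equiv.Perm (Fin (p ^ 2)))) = p ^ (p + 1) := by
    rw [Sylow.card_eq_multiplicity, Nat.card_perm, Nat.card_fin]
    congr 1
    rw [Nat.factorization_def _ hp, sq, padicValNat_factorial_mul]
    have h1 : padicValNat p (Nat.factorial p) = 1 := by
      have h2 := padicValNat_factorial_mul (p := p) 1
      rw [mul_one] at h2
      rw [h2]; simp
    rw [h1, add_comm]
  have hRP' : f.range = (P : Subgroup (Equiv.Perm (Fin (p ^ 2)))) :=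
    Subgroup.eq_of_le_of_card_ge hRP (by rw [hPcard]; exact hrange)
  refine ⟨P, f.codRestrict (P : Subgroup (Equiv.Perm (Fin (p ^ 2)))) (fun h => hRP ⟨h, rfl⟩), ?_⟩
  rintro ⟨y, hy⟩
  have hy' : y ∈ f.range := hRP' ▸ hy
  obtain ⟨h, rfl⟩ := hy'
  exact ⟨h, Subtype.ext rfl⟩

theorem wreath_image {H : Type*} [Group H] [Finite H] {p : ℕ} [Fact p.Prime] (hH : IsPGroup p H)
    (S₀ : Subgroup H) (hS₀ : IsCoatom S₀) (x z : H)
    (hc : (fun y : H => y⁻¹ * z⁻¹ * y * z)^[p - 1] x ∈ S₀)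
    (hcΦ : (fun y : H => y⁻¹ * z⁻¹ * y * z)^[p - 1] x ∉ (frattini ↥S₀).map S₀.subtype) :
    ∃ (P : Sylow p (Equiv.Perm (Fin (p ^ 2))))
      (f : H →* ↥(P : Subgroup (Equiv.Perm (Fin (p ^ 2))))), Function.Surjective f := by
  have hp : p.Prime := Fact.out
  obtain ⟨hS₀n, hS₀idx⟩ := Cfsg.Agent.Lib.helper1.coatom_normal_index p hH S₀ hS₀
  have hS₀p : IsPGroup p ↥S₀ := hH.to_subgroup S₀
  have hcomm : ∀ (w : H), w ∈ S₀ → ∀ q ∈ S₀,
      q⁻¹ * w⁻¹ * q * w ∈ (frattini ↥S₀).map S₀.subtype := by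
    intro w hw q hq
    refine ⟨⁅(⟨q, hq⟩ : ↥S₀)⁻¹, (⟨w, hw⟩ : ↥S₀)⁻¹⁆, ?_, ?_⟩
    · apply Cfsg.Agent.Lib.helper1.commutator_le_frattini p hS₀p
      rw [commutator_def]
      exact Subgroup.commutator_mem_commutator (Subgroup.mem_top _) (Subgroup.mem_top _)
    · simp [commutatorElement_def]
  by_cases hz : z ∈ S₀
  · have hDx : x⁻¹ * z⁻¹ * x * z ∈ S₀ := by
      have h1 := hS₀n.conj_mem z⁻¹ (S₀.inv_mem hz) x⁻¹
      rw [inv_inv] at h1
      exact S₀.mul_mem h1 hz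
    have hk : ∀ k : ℕ, (fun y : H => y⁻¹ * z⁻¹ * y * z)^[k + 2] x ∈
        (frattini ↥S₀).map S₀.subtype := by
      intro k
      induction k with
      | zero => exact hcomm z hz _ hDx
      | succ k ih =>
        rw [Function.iterate_succ_apply']
        exact hcomm z hz _ (Subgroup.map_subtype_le _ ih)
    have hp2 : p = 2 := by
      by_contra hne
      obtain ⟨k, hk'⟩ : ∃ k, p - 1 = k + 2 := ⟨p - 1 - 2, by have := hp.two_le; omega⟩
      rw [hk'] at hcΦ
      exact hcΦ (hk k)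
    subst hp2
    have hc1 : x⁻¹ * z⁻¹ * x * z ∈ S₀ := hc
    have hc2 : x⁻¹ * z⁻¹ * x * z ∉ (frattini ↥S₀).map S₀.subtype := hcΦ
    have hxS₀ : x ∉ S₀ := fun hx => hc2 (hcomm z hz x hx)
    have e : z⁻¹ * x⁻¹ * z * x = (x⁻¹ * z⁻¹ * x * z)⁻¹ := by group
    apply wreath_core hH S₀ hS₀ z x hxS₀ hz
    · show z⁻¹ * x⁻¹ * z * x ∈ S₀
      rw [e]; exact S₀.inv_mem hc1
    · show z⁻¹ * x⁻¹ * z * x ∉ _
      rw [e, Subgroup.inv_mem_iff]; exact hc2
  · obtain ⟨hcos1, -⟩ := coatom_cosets p hH S₀ hS₀ z hz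
    obtain ⟨i, -, hi⟩ := hcos1 x
    have e1 : ((z ^ i)⁻¹ * x)⁻¹ * z⁻¹ * ((z ^ i)⁻¹ * x) * z = x⁻¹ * z⁻¹ * x * z := by
      group
    have e2 : (fun y : H => y⁻¹ * z⁻¹ * y * z)^[p - 1] ((z ^ i)⁻¹ * x) =
        (fun y : H => y⁻¹ * z⁻¹ * y * z)^[p - 1] x := by
      obtain ⟨k, hk⟩ : ∃ k, p - 1 = k + 1 := ⟨p - 2, by have := hp.two_le; omega⟩
      rw [hk, Function.iterate_succ_apply, Function.iterate_succ_apply, e1]
    apply wreath_core hH S₀ hS₀ ((z ^ i)⁻¹ * x) z hz hi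
    · rw [e2]; exact hc
    · rw [e2]; exact hcΦ

end Wreath

end Cfsg.Agent.Lib.helper7.Yoshida
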