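import Mathlib
import Cfsg.Agent.Lib.helper7.Yoshida

set_option autoImplicit false

/-! Theorem Z for a cocycle on an arbitrary finite `H`-set (`H` a finite `p`-group). -/

namespace Cfsg.Agent.Lib.helper7.Yoshida

theorem thmZ' {H : Type*} [Group H] [Finite H] {p : ℕ} [Fact p.Prime] (hH : IsPGroup p H)
    {Y : Type*} [Fintype Y] [MulAction H Y] {A : Type*} [CommGroup A] (hA : ∀ a : A, a ^ p = 1)
    (hstar : ∀ x z : H, ∀ M : Subgroup H, IsCoatom M →
      (fun y : H => y⁻¹ * z⁻¹ * y * z)^[p - 1] x ∈ M →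
      (fun y : H => y⁻¹ * z⁻¹ * y * z)^[p - 1] x ∈ (frattini ↥M).map M.subtype)
    (c : H → Y → A) (hc : IsCoc c) (lam : H → A)
    (hb : ∀ (x : H) (y : Y), x • y = y → ∃ x' : H, orderOf x' = orderOf x ∧ c x y = lam x')
    (hfix : ∀ y : Y, (∀ u : H, u • y = y) → ∀ u, c u y = lam u)
    (hk : ¬ p ∣ Nat.card {y : Y // ∀ u : H, u • y = y})
    (hV : ∀ u : H, ∏ y, c u y = 1) :
    ∀ u : H, lam u = 1 := by
  classical
  have hp : p.Prime := Fact.out
  have main : ∀ (k : ℕ) (u : H), orderOf u = k → lam u = 1 := by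
    intro k
    induction k using Nat.strong_induction_on with
    | _ k IH =>
    intro u hk'
    subst hk'
    have IH' : ∀ x : H, orderOf x < orderOf u → ∀ ω : Y, x • ω = ω → c x ω = 1 := by
      intro x hlt ω hω
      obtain ⟨x', hx', hcx⟩ := hb x ω hω
      rw [hcx]
      exact IH (orderOf x') (by rw [hx']; exact hlt) x' rfl
    have hcls : ∀ ω₀ : Y, (∃ h : H, h • ω₀ ≠ ω₀) →
        ∏ ω ∈ Finset.univ.filter (fun ω => ∃ x : H, x • ω₀ = ω), c u ω = 1 := by
      intro ω₀ hω₀
      set R := Finset.univ.filter (fun ω : Y => ∃ x : H, x • ω₀ = ω) with hR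
      have hmemR : ∀ ω, ω ∈ R ↔ ∃ x : H, x • ω₀ = ω := fun ω => by rw [hR]; simp
      by_cases hA' : ∀ ω ∈ R, u • ω ≠ ω
      · apply pt_eval0 hc u R.card R le_rfl
        · intro ω hω
          obtain ⟨x, rfl⟩ := (hmemR ω).mp hω
          exact (hmemR _).mpr ⟨u * x, mul_smul _ _ _⟩
        · intro ω hω n hn hfix'
          rcases lt_or_eq_of_le (Nat.le_of_dvd (orderOf_pos u) (orderOf_pow_dvd n)) with h | h
          · exact IH' (u ^ n) h ω hfix'
          · exfalso
            rw [orderOf_pow' u hn.ne'] at h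
            have hg1 : Nat.gcd (orderOf u) n = 1 := by
              rcases Nat.div_eq_self.mp h with h0 | h1
              · exact absurd h0 (orderOf_pos u).ne'
              · exact h1
            obtain ⟨m', hm'⟩ := exists_pow_eq_self_of_coprime (x := u) (n := n)
              (Nat.Coprime.symm hg1)
            have h5 : (u ^ n) ^ m' ∈ MulAction.stabilizer H ω :=
              Subgroup.pow_mem _ (MulAction.mem_stabilizer_iff.mpr hfix') m'
            rw [hm'] at h5
            exact hA' ω hω (MulAction.mem_stabilizer_iff.mp h5)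
      · push Not at hA'
        obtain ⟨ω₁, hω₁R, huω₁⟩ := hA'
        obtain ⟨x₁, hx₁ω⟩ := (hmemR ω₁).mp hω₁R
        have hmemR' : ∀ ω, ω ∈ R ↔ ∃ x : H, x • ω₁ = ω := by
          intro ω
          rw [hmemR]
          constructor
          · rintro ⟨x, rfl⟩
            refine ⟨x * x₁⁻¹, ?_⟩
            rw [← hx₁ω, mul_smul, inv_smul_smul]
          · rintro ⟨x, rfl⟩
            exact ⟨x * x₁, by rw [mul_smul, hx₁ω]⟩
        have hQne : MulAction.stabilizer H ω₁ ≠ ⊤ := by
          intro h
          obtain ⟨h₀, hh₀⟩ := hω₀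
          apply hh₀
          have h2 : ω₀ = x₁⁻¹ • ω₁ := by rw [← hx₁ω, inv_smul_smul]
          have h3 : x₁ * h₀ * x₁⁻¹ ∈ MulAction.stabilizer H ω₁ := by
            rw [h]; exact Subgroup.mem_top _
          rw [MulAction.mem_stabilizer_iff] at h3
          rw [h2, ← mul_smul]
          calc (h₀ * x₁⁻¹) • ω₁ = x₁⁻¹ • (x₁ * h₀ * x₁⁻¹) • ω₁ := by
                rw [smul_smul]; congr 1; group
            _ = x₁⁻¹ • ω₁ := by rw [h3]
        obtain ⟨M, hM, hQM⟩ := (eq_top_or_exists_le_coatom _).resolve_left hQne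
        obtain ⟨hMn, hMidx⟩ := Cfsg.Agent.Lib.helper1.coatom_normal_index p hH M hM
        have huM : u ∈ M := hQM (MulAction.mem_stabilizer_iff.mpr huω₁)
        obtain ⟨z, hzM⟩ : ∃ z : H, z ∉ M := by
          by_contra hcon
          push Not at hcon
          exact hM.1 (eq_top_iff.mpr (fun x _ => hcon x))
        have hMnorm : ∀ x : H, ∀ q ∈ M, x⁻¹ * q * x ∈ M := by
          intro x q hq
          have h5 := hMn.conj_mem q hq x⁻¹
          simpa using h5
        obtain ⟨hcos1, hcos2⟩ := coatom_cosets p hH M hM z hzM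
        set S₁ := Finset.univ.filter (fun ω : Y => ∃ q ∈ M, q • ω₁ = ω) with hS₁
        have hmemS₁ : ∀ ω, ω ∈ S₁ ↔ ∃ q ∈ M, q • ω₁ = ω := fun ω => by rw [hS₁]; simp
        have hS₁inv : ∀ q ∈ M, ∀ ω ∈ S₁, q • ω ∈ S₁ := by
          intro q hq ω hω
          obtain ⟨q', hq', rfl⟩ := (hmemS₁ ω).mp hω
          exact (hmemS₁ _).mpr ⟨q * q', M.mul_mem hq hq', mul_smul _ _ _⟩
        have hRdecomp : R = (Finset.range p).biUnion
            (fun i => S₁.image (fun ω => z ^ i • ω)) := by
          ext ω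
          rw [hmemR', Finset.mem_biUnion]
          constructor
          · rintro ⟨x, rfl⟩
            obtain ⟨i, hi, hq⟩ := hcos1 x
            refine ⟨i, Finset.mem_range.mpr hi, Finset.mem_image.mpr
              ⟨((z ^ i)⁻¹ * x) • ω₁, (hmemS₁ _).mpr ⟨_, hq, rfl⟩, ?_⟩⟩
            rw [smul_smul, mul_inv_cancel_left]
          · rintro ⟨i, -, hω⟩
            obtain ⟨ω', hω', rfl⟩ := Finset.mem_image.mp hω
            obtain ⟨q, hq, rfl⟩ := (hmemS₁ ω').mp hω'
            exact ⟨z ^ i * q, mul_smul _ _ _⟩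
        have hdisj : Set.PairwiseDisjoint (↑(Finset.range p) : Set ℕ)
            (fun i => S₁.image (fun ω => z ^ i • ω)) := by
          intro i hi j hj hij
          rw [Function.onFun, Finset.disjoint_left]
          intro ω hωi hωj
          obtain ⟨ω', hω', e1⟩ := Finset.mem_image.mp hωi
          obtain ⟨q, hq, rfl⟩ := (hmemS₁ ω').mp hω'
          obtain ⟨ω'', hω'', e2⟩ := Finset.mem_image.mp hωj
          obtain ⟨q', hq', rfl⟩ := (hmemS₁ ω'').mp hω''
          apply hij
          apply hcos2 i (Finset.mem_range.mp hi) j (Finset.mem_range.mp hj)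
          have hst : (z ^ i * q)⁻¹ * (z ^ j * q') ∈ MulAction.stabilizer H ω₁ := by
            rw [MulAction.mem_stabilizer_iff, mul_smul, inv_smul_eq_iff, mul_smul, mul_smul]
            exact e2.trans e1.symm
          have h6 : (z ^ i * q)⁻¹ * (z ^ j * q') ∈ M := hQM hst
          have e : (z ^ i)⁻¹ * z ^ j = q * ((z ^ i * q)⁻¹ * (z ^ j * q')) * q'⁻¹ := by group
          rw [e]
          exact M.mul_mem (M.mul_mem hq h6) (M.inv_mem hq')
        let ν : ↥M →* A :=
          { toFun := fun q => ∏ ω ∈ S₁, c (q : H) ω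
            map_one' := Finset.prod_eq_one (fun ω _ => coc_one hc ω)
            map_mul' := fun a b => pt_mul hc S₁ (a : H) (b : H) (hS₁inv b b.2) }
        let s : ↥M →* ↥M :=
          { toFun := fun q => ⟨z⁻¹ * (q : H) * z, hMnorm z q q.2⟩
            map_one' := by apply Subtype.ext; simp
            map_mul' := fun a b => by apply Subtype.ext; simp [mul_assoc] }
        have hs_iter : ∀ (i : ℕ) (q : ↥M),
            ((s^[i] q : ↥M) : H) = (z ^ i)⁻¹ * (q : H) * z ^ i := by
          intro i
          induction i with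
          | zero => intro q; simp
          | succ i ih =>
            intro q
            rw [Function.iterate_succ_apply']
            show z⁻¹ * ((s^[i] q : ↥M) : H) * z = _
            rw [ih, pow_succ]; group
        have hD_iter : ∀ (k : ℕ) (q : ↥M),
            (((fun q : ↥M => q⁻¹ * s q)^[k] q : ↥M) : H) =
              (fun y : H => y⁻¹ * z⁻¹ * y * z)^[k] (q : H) := by
          intro k
          induction k with
          | zero => intro q; rfl
          | succ k ih =>
            intro q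
            rw [Function.iterate_succ_apply', Function.iterate_succ_apply', ← ih]
            show (((fun q : ↥M => q⁻¹ * s q)^[k] q : ↥M) : H)⁻¹ *
              (z⁻¹ * (((fun q : ↥M => q⁻¹ * s q)^[k] q : ↥M) : H) * z) = _
            simp only [mul_assoc]
        have hprod : ∏ ω ∈ R, c u ω = ν ((fun q : ↥M => q⁻¹ * s q)^[p - 1] ⟨u, huM⟩) := by
          rw [norm_id p hA ν s ⟨u, huM⟩, hRdecomp, Finset.prod_biUnion hdisj]
          apply Finset.prod_congr rfl
          intro i _
          rw [Finset.prod_image (fun a _ b _ h => MulAction.injective (z ^ i) h)]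
          have h7 := hs_iter i ⟨u, huM⟩
          have h8 : (z ^ i)⁻¹ * u * z ^ i ∈ M := h7 ▸ (s^[i] ⟨u, huM⟩).2
          rw [pt_conj hc S₁ u (z ^ i) (fun ω hω => hS₁inv _ h8 ω hω)]
          show _ = ∏ ω ∈ S₁, c ((s^[i] ⟨u, huM⟩ : ↥M) : H) ω
          rw [h7]
        rw [hprod]
        set d := (fun y : H => y⁻¹ * z⁻¹ * y * z)^[p - 1] u with hd
        have hdcoe : (((fun q : ↥M => q⁻¹ * s q)^[p - 1] ⟨u, huM⟩ : ↥M) : H) = d :=
          hD_iter (p - 1) ⟨u, huM⟩
        have hdM : d ∈ M := hdcoe ▸ ((fun q : ↥M => q⁻¹ * s q)^[p - 1] ⟨u, huM⟩).2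
        obtain ⟨w'', hw''frat, hw'd⟩ := hstar u z M hM hdM
        haveI : ν.ker.Normal := inferInstance
        have hfr : frattini ↥M ≤ ν.ker := by
          apply Cfsg.Agent.Lib.helper1.frattini_le_of_elementary_quotient p
          · exact Abelianization.commutator_subset_ker _
          · intro x
            rw [MonoidHom.mem_ker, map_pow, hA]
        have h10 : ν w'' = 1 := hfr hw''frat
        have h11 : w'' = (fun q : ↥M => q⁻¹ * s q)^[p - 1] ⟨u, huM⟩ := by
          apply Subtype.ext
          rw [hdcoe]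
          exact hw'd
        rw [← h11]; exact h10
    set Fx := Finset.univ.filter (fun y : Y => ∀ h : H, h • y = y) with hFx
    have h1 : ∏ y, c u y = (∏ y ∈ Fx, c u y) *
        ∏ y ∈ Finset.univ.filter (fun y : Y => ¬ ∀ h : H, h • y = y), c u y :=
      (Finset.prod_filter_mul_prod_filter_not Finset.univ _ _).symm
    have h2 : ∏ y ∈ Fx, c u y = lam u ^ Fx.card := by
      rw [Finset.prod_congr rfl (fun y hy => hfix y (Finset.mem_filter.mp hy).2 u),
        Finset.prod_const]
    have h3 : ∏ y ∈ Finset.univ.filter (fun y : Y => ¬ ∀ h : H, h • y = y), c u y = 1 := by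
      rw [Finset.prod_partition (MulAction.orbitRel H Y)]
      apply Finset.prod_eq_one
      intro xbar hx
      obtain ⟨ω₀, hω₀, rfl⟩ := Finset.mem_image.mp hx
      have hnf := (Finset.mem_filter.mp hω₀).2
      push Not at hnf
      rw [← hcls ω₀ hnf]
      apply Finset.prod_congr _ (fun _ _ => rfl)
      ext ω
      simp only [Finset.mem_filter, Finset.mem_univ, true_and]
      constructor
      · rintro ⟨-, hq⟩
        rw [Quotient.eq] at hq
        obtain ⟨x, hx⟩ := hq
        exact ⟨x, hx⟩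
      · rintro ⟨x, rfl⟩
        refine ⟨?_, Quotient.sound ⟨x, rfl⟩⟩
        intro hfixall
        obtain ⟨h₀, hh₀⟩ := hnf
        apply hh₀
        have h9 := hfixall (x * h₀ * x⁻¹)
        rw [← mul_smul, inv_mul_cancel_right, mul_smul] at h9
        exact MulAction.injective x h9
    have h4 := hV u
    rw [h1, h2, h3, mul_one] at h4
    have hcop : Nat.Coprime Fx.card p := by
      rw [Nat.coprime_comm, hp.coprime_iff_not_dvd]
      have h5 : Fx.card = Nat.card {y : Y // ∀ u : H, u • y = y} := by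
        rw [Nat.card_eq_fintype_card, Fintype.card_subtype]
      rw [h5]; exact hk
    have h5 : orderOf (lam u) ∣ Fx.card := orderOf_dvd_of_pow_eq_one h4
    have h6 : orderOf (lam u) ∣ p := orderOf_dvd_of_pow_eq_one (hA _)
    have h7 : orderOf (lam u) ∣ Nat.gcd Fx.card p := Nat.dvd_gcd h5 h6
    rw [hcop.gcd_eq_one] at h7
    exact orderOf_eq_one_iff.mp (Nat.dvd_one.mp h7)
  exact fun u => main (orderOf u) u rfl

end Cfsg.Agent.Lib.helper7.Yoshida
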